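import Cfsg.Agent.Lib.RegUnip.Jordan

/-!
# Two conjugate regular unipotent generators of `SL₃(F)`, `|F| ≥ 5`.
-/

set_option autoImplicit false
set_option linter.unusedSectionVars false
set_option linter.unusedSimpArgs false
set_option linter.style.longLine false

namespace Cfsg.Agent.Lib.RegUnip.Design3

open Matrix Matrix.SpecialLinearGroup
open Cfsg.Agent.Lib.RegUnip.Basic Cfsg.Agent.Lib.RegUnip.Roots Cfsg.Agent.Lib.RegUnip.Words
open Cfsg.Agent.Lib.RegUnip.Jordan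

variable {F : Type*} [Field F]

/-- The nilpotent part of the first generator. -/
def X3 (b d : F) : Matrix (Fin 3) (Fin 3) F :=
  !![0, b, 0; d, 0, -b * d; 0, 1, 0]

/-- The element `J`. -/
def J3 (α : F) : Matrix (Fin 3) (Fin 3) F :=
  !![α, 1, 0; 0, α, 0; 0, 0, (α ^ 2)⁻¹]

/-- The semisimple part of `J`. -/
def S3 (α : F) : Matrix (Fin 3) (Fin 3) F := diagonal ![α, α, (α ^ 2)⁻¹]

lemma J3_eq {α : F} (hα : α ≠ 0) :
    J3 α = S3 α * (1 + vecMulVec ![1, 0, 0] ![0, α⁻¹, 0]) := by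
  ext i j
  fin_cases i <;> fin_cases j <;>
    simp [J3, S3, Matrix.mul_apply, Fin.sum_univ_succ, vecMulVec_apply, Matrix.one_apply, hα]

lemma S3_comm (α : F) :
    S3 α * vecMulVec ![1, 0, 0] ![0, α⁻¹, 0] = vecMulVec ![1, 0, 0] ![0, α⁻¹, 0] * S3 α := by
  ext i j
  fin_cases i <;> fin_cases j <;>
    simp [S3, Matrix.mul_apply, Fin.sum_univ_succ, vecMulVec_apply, mul_comm]

lemma vec_ext3 {a b c a' b' c' : F} (h₁ : a = a') (h₂ : b = b') (h₃ : c = c') :
    (![a, b, c] : Fin 3 → F) = ![a', b', c'] := by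
  rw [h₁, h₂, h₃]

lemma smul3 (y a b c : F) : y • (![a, b, c] : Fin 3 → F) = ![y * a, y * b, y * c] := by
  simp

lemma add3 (a b c a' b' c' : F) :
    (![a, b, c] : Fin 3 → F) + ![a', b', c'] = ![a + a', b + b', c + c'] := by
  simp

lemma sub3 (a b c a' b' c' : F) :
    (![a, b, c] : Fin 3 → F) - ![a', b', c'] = ![a - a', b - b', c - c'] := by
  simp

lemma vm_u (p₀ p₁ p₂ b d : F) : (![p₀, p₁, p₂] : Fin 3 → F) ᵥ* (1 + X3 b d) =
    ![p₀ + p₁ * d, p₁ + p₀ * b + p₂, p₂ - p₁ * (b * d)] := by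
  funext i
  fin_cases i <;> simp [X3, vecMul, dotProduct, Fin.sum_univ_succ, Matrix.one_apply] <;> ring

lemma mv_u (p₀ p₁ p₂ b d : F) : (1 + X3 b d) *ᵥ (![p₀, p₁, p₂] : Fin 3 → F) =
    ![p₀ + b * p₁, p₁ + d * p₀ - b * d * p₂, p₂ + p₁] := by
  funext i
  fin_cases i <;> simp [X3, mulVec, dotProduct, Fin.sum_univ_succ, Matrix.one_apply] <;> ring

lemma vm_S (p₀ p₁ p₂ α : F) : (![p₀, p₁, p₂] : Fin 3 → F) ᵥ* S3 α =
    ![p₀ * α, p₁ * α, p₂ * (α ^ 2)⁻¹] := by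
  funext i
  fin_cases i <;> simp [S3, vecMul, dotProduct, Fin.sum_univ_succ, diagonal_apply]

lemma mv_S (p₀ p₁ p₂ α : F) : S3 α *ᵥ (![p₀, p₁, p₂] : Fin 3 → F) =
    ![α * p₀, α * p₁, (α ^ 2)⁻¹ * p₂] := by
  funext i
  fin_cases i <;> simp [S3, mulVec, dotProduct, Fin.sum_univ_succ, diagonal_apply]

lemma dot3 (a b c a' b' c' : F) :
    (![a, b, c] : Fin 3 → F) ⬝ᵥ ![a', b', c'] = a * a' + b * b' + c * c' := by
  simp [dotProduct, Fin.sum_univ_succ]
  ring

lemma eta3 (z : Fin 3 → F) : z = ![z 0, z 1, z 2] := by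
  funext i
  fin_cases i <;> simp

section gen
variable [Fintype F] {H : Subgroup (SpecialLinearGroup (Fin 3) F)} {α b d : F}
  {u J : SpecialLinearGroup (Fin 3) F}

/-- The generation theorem. -/
theorem gen3 (hu : u ∈ H) (hJ : J ∈ H) (huv : (u : Matrix (Fin 3) (Fin 3) F) = 1 + X3 b d)
    (hJv : (J : Matrix (Fin 3) (Fin 3) F) = J3 α) (hα0 : α ≠ 0)
    (hgen : ∀ y : F, y ≠ 0 → ∃ k : ℕ, y = α ^ k) (hα3 : α ^ 3 ≠ 1) (hb : b ≠ 0) (hd : d ≠ 0)
    (hq : 5 ≤ Fintype.card F) : H = ⊤ := by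
  -- the Jordan decomposition
  have hJW : P H ![1, 0, 0] ![0, α⁻¹, 0] ∧ Q H (S3 α) := by
    refine jordan_power hJ (by simp [dotProduct, Fin.sum_univ_succ]) ?_ (S3_comm α) ?_
    · refine diagonal_pow_card_sub_one ?_
      intro i
      fin_cases i <;> simp [hα0]
    · rw [hJv, J3_eq hα0]
  obtain ⟨hT, s, hs, hsv⟩ := hJW
  have hT' := hT
  obtain ⟨T, hTm, hTv⟩ := hT'
  -- the conjugate of `T` by `u`
  have h1 : P H ![1, d, 0] ![α⁻¹ * (-d), α⁻¹ * 1, α⁻¹ * (b * d)] := by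
    refine P.move_of hu hT ?_ ?_
    · rw [huv, vm_u]
      refine vec_ext3 ?_ ?_ ?_ <;> ring
    · rw [huv, mv_u]
      refine vec_ext3 ?_ ?_ ?_ <;> ring
  set e₂ : Fin 3 → F := ![0, 0, 1] with he₂
  have hα21 : α ^ 3 - 1 ≠ 0 := sub_ne_zero.mpr hα3
  have hsφ : ∀ y : F, ((α ^ 2 * y) • e₂) ᵥ* (s : Matrix (Fin 3) (Fin 3) F) = y • e₂ := by
    intro y
    rw [hsv, smul_vecMul, he₂, vm_S, smul3, smul3]
    refine vec_ext3 ?_ ?_ ?_ <;> first | ring1 | (field_simp)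
  have hsc : (s : Matrix (Fin 3) (Fin 3) F) *ᵥ ![1, d, 0] = α • ![1, d, 0] := by
    rw [hsv, mv_S, smul3]
    refine vec_ext3 ?_ ?_ ?_ <;> ring
  have hstab : ∀ y : F, P H ![1, d, 0] (y • e₂) → P H ![1, d, 0] ((α ^ 3 * y) • e₂) := by
    intro y hy
    have h2 := P.move_of hs hy (hsφ y) hsc
    have h3 := h2.swap_smul
    rw [smul_smul] at h3
    have h4 : α * (α ^ 2 * y) = α ^ 3 * y := by ring
    rwa [h4] at h3
  let B : AddSubgroup F :=
    { carrier := {y | P H ![1, d, 0] (y • e₂)}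
      add_mem' := fun {y z} hy hz => by
        have := P.add_right hy hz
        rwa [← add_smul] at this
      zero_mem' := by
        show P H ![1, d, 0] ((0 : F) • e₂)
        rw [zero_smul]
        exact P.zero_right H _
      neg_mem' := fun {y} hy => by
        have := P.neg_right hy
        show P H ![1, d, 0] ((-y) • e₂)
        rwa [neg_smul] }
  -- the first element of `B`
  have hy0 : (α⁻¹ * (α ^ 3 - 1) * (b * d)) ∈ B := by
    have h2 := P.move_of (c := ![1, d, 0]) (φ := ![α⁻¹ * (α⁻¹ * (-d)), α⁻¹ * (α⁻¹ * 1), α⁻¹ * (α ^ 2 * (b * d))]) hs h1 (by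
      rw [hsv, vm_S]
      refine vec_ext3 ?_ ?_ ?_ <;> field_simp) hsc
    have h3 := h2.swap_smul
    have h4 := h3.sub_right h1
    show P H ![1, d, 0] ((α⁻¹ * (α ^ 3 - 1) * (b * d)) • e₂)
    convert h4 using 1
    rw [he₂, smul3, smul3, sub3]
    refine vec_ext3 ?_ ?_ ?_ <;> field_simp <;> ring
  have hBtop : B = ⊤ := by
    refine addSubgroup_eq_top_of_stable_cube B (mul_ne_zero (mul_ne_zero (inv_ne_zero hα0) hα21) (mul_ne_zero hb hd)) hy0 hα0 hgen ?_ hq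
    intro y hy
    exact hstab y hy
  have hB : ∀ y : F, P H ![1, d, 0] (y • e₂) := by
    intro y
    have : y ∈ B := by rw [hBtop]; trivial
    exact this
  -- `e₀` and `e₁`
  have hT1 : ∀ y : F, (y • e₂) ᵥ* (T : Matrix (Fin 3) (Fin 3) F) = y • e₂ := by
    intro y
    rw [hTv, vecMul_add, vecMul_one, vecMul_vecMulVec, he₂, smul3, dot3]
    simp
  have hT2 : (T : Matrix (Fin 3) (Fin 3) F) *ᵥ ![1, d, 0] = ![1 + α⁻¹ * d, d, 0] := by
    rw [hTv, add_mulVec, one_mulVec, vecMulVec_mulVec', dot3, smul3, add3]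
    refine vec_ext3 ?_ ?_ ?_ <;> ring
  have hne : α⁻¹ * d ≠ 0 := mul_ne_zero (inv_ne_zero hα0) hd
  have h30 : ∀ y : F, P H ![1, 0, 0] (y • e₂) := by
    intro y
    have h2 := P.move_of (φ := (y / (α⁻¹ * d)) • e₂) hTm (hB _) (hT1 _) hT2
    have h3 := h2.sub_left (hB _)
    have h4 : (![1 + α⁻¹ * d, d, 0] - ![1, d, 0] : Fin 3 → F) = (α⁻¹ * d) • ![1, 0, 0] := by
      rw [sub3, smul3]
      refine vec_ext3 ?_ ?_ ?_ <;> ring
    rw [h4] at h3
    have h5 := h3.swap_smul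
    rw [smul_smul, mul_div_cancel₀ _ hne] at h5
    exact h5
  have h31 : ∀ y : F, P H ![0, 1, 0] (y • e₂) := by
    intro y
    have h3 := (hB (y / d)).sub_left (h30 (y / d))
    have h4 : (![1, d, 0] - ![1, 0, 0] : Fin 3 → F) = d • ![0, 1, 0] := by
      rw [sub3, smul3]
      refine vec_ext3 ?_ ?_ ?_ <;> ring
    rw [h4] at h3
    have h5 := h3.swap_smul
    rw [smul_smul, mul_div_cancel₀ _ hd] at h5
    exact h5
  -- `E e₂`
  have hE0 : E H e₂ := by
    intro z hz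
    rw [eta3 z, he₂, dot3] at hz
    have hz2 : z 2 = 0 := by linear_combination hz
    have h2 := (h30 (z 0)).smul_swap
    have h3 := (h31 (z 1)).smul_swap
    have h5 := h2.add_left h3
    convert h5 using 1
    conv_lhs => rw [eta3 z]
    rw [smul3, smul3, add3, hz2]
    refine vec_ext3 ?_ ?_ ?_ <;> ring
  -- the chain of functionals
  have hE1 : E H ![0, 1, 0] := by
    have h2 := (hE0.move hu).sub hE0
    convert h2 using 1
    rw [huv, he₂, vm_u, sub3]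
    refine vec_ext3 ?_ ?_ ?_ <;> ring
  have hE2 : E H ![1, 0, 0] := by
    have h2 := ((hE1.move hu).sub hE1).add (hE0.smul (b * d))
    refine E.of_smul hd ?_
    convert h2 using 1
    rw [huv, he₂, vm_u, smul3, smul3, sub3, add3]
    refine vec_ext3 ?_ ?_ ?_ <;> ring
  refine eq_top_of_E (by omega) ?_
  intro j hj
  have h0 : (eV 0 : Fin 3 → F) = ![1, 0, 0] := by
    funext i; fin_cases i <;> simp [eV]
  have h1' : (eV 1 : Fin 3 → F) = ![0, 1, 0] := by
    funext i; fin_cases i <;> simp [eV]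
  have h2' : (eV 2 : Fin 3 → F) = ![0, 0, 1] := by
    funext i; fin_cases i <;> simp [eV]
  have hj' : j = 0 ∨ j = 1 ∨ j = 2 := by omega
  rcases hj' with rfl | rfl | rfl
  · rw [h0]; exact hE2
  · rw [h1']; exact hE1
  · rw [h2']; exact hE0

/-- Parameter `d`. -/
def d3 (α : F) : F := α * (α - 1) ^ 2 * (α + 2)

/-- Parameter `b`. -/
def b3 (α : F) : F := (α + 1) ^ 3 / (α * (α + 2) * (α ^ 2 + α + 1))

/-- The conjugating element. -/
def G3 (α : F) : Matrix (Fin 3) (Fin 3) F :=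
  !![-1, (-α ^ 5 - 2 * α ^ 4 + α ^ 2 - 1) / (α * (α + 2) * (α - 1) * (α ^ 2 + α + 1)),
      (-α ^ 5 - 2 * α ^ 4 + α ^ 3 + 4 * α ^ 2 + 3 * α + 1) / (α ^ 2 * (α + 2) * (α ^ 2 + α + 1));
    0, α, (α ^ 2 - 1) / α;
    0, -α, -α]

lemma key3 (h0 : α ≠ 0) (h1 : α - 1 ≠ 0) (h2 : α + 2 ≠ 0) (h3 : α ^ 2 + α + 1 ≠ 0) :
    (1 + X3 (b3 α) (d3 α)) * G3 α * (1 + X3 (b3 α) (d3 α)) = J3 α * G3 α := by
  have h3' : α * (α + 1) + 1 ≠ 0 := by
    intro h
    apply h3
    linear_combination h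
  ext i j
  fin_cases i <;> fin_cases j <;>
    simp [X3, J3, G3, b3, d3, Matrix.mul_apply, Fin.sum_univ_succ, Matrix.one_apply] <;>
    field_simp <;> ring

lemma det_U3 (b d : F) : det (1 + X3 b d) = 1 := by
  simp [det_succ_row_zero, Fin.sum_univ_succ, X3, Fin.succAbove, Matrix.one_apply, submatrix_apply]

lemma det_J3 (h0 : α ≠ 0) : det (J3 α) = 1 := by
  simp [det_succ_row_zero, Fin.sum_univ_succ, J3, Fin.succAbove, submatrix_apply, h0]
  field_simp

lemma det_G3 (h0 : α ≠ 0) : det (G3 α) = 1 := by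
  simp [det_succ_row_zero, Fin.sum_univ_succ, G3, Fin.succAbove, submatrix_apply, h0]
  field_simp
  ring

lemma X3_pow_three (b d : F) : (X3 b d) ^ 3 = 0 := by
  ext i j
  fin_cases i <;> fin_cases j <;> simp [pow_succ, X3, Matrix.mul_apply, Fin.sum_univ_succ] <;>
    first | ring1 | (left; ring1) | (right; ring1)

lemma X3_sq (b d : F) : ((X3 b d) ^ 2) 2 0 = d := by
  simp [pow_succ, X3, Matrix.mul_apply, Fin.sum_univ_succ]

/-- The statement. -/
def Goal3 (F : Type*) [Field F] : Prop :=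
  ∃ u g : SpecialLinearGroup (Fin 3) F,
    IsNilpotent ((u : Matrix (Fin 3) (Fin 3) F) - 1) ∧
      ((u : Matrix (Fin 3) (Fin 3) F) - 1) ^ (3 - 1) ≠ 0 ∧
      Subgroup.closure ({u, g * u * g⁻¹} : Set (SpecialLinearGroup (Fin 3) F)) = ⊤

theorem case3 (h0 : α ≠ 0) (hgen : ∀ y : F, y ≠ 0 → ∃ k : ℕ, y = α ^ k) (hα3 : α ^ 3 ≠ 1)
    (hα2 : α ^ 2 ≠ 1) (h2 : α + 2 ≠ 0) (hq : 5 ≤ Fintype.card F) : Goal3 F := by
  have h1 : α - 1 ≠ 0 := by
    intro h
    apply hα3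
    have : α = 1 := by linear_combination h
    rw [this]; simp
  have hp : α + 1 ≠ 0 := by
    intro h
    apply hα2
    have : α = -1 := by linear_combination h
    rw [this]; simp
  have h3 : α ^ 2 + α + 1 ≠ 0 := by
    intro h
    apply hα3
    linear_combination (α - 1) * h
  have hd : d3 α ≠ 0 := by
    unfold d3
    exact mul_ne_zero (mul_ne_zero h0 (pow_ne_zero _ h1)) h2
  have hb : b3 α ≠ 0 := by
    unfold b3
    exact div_ne_zero (pow_ne_zero _ hp) (mul_ne_zero (mul_ne_zero h0 h2) h3)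
  let u : SpecialLinearGroup (Fin 3) F := ⟨1 + X3 (b3 α) (d3 α), det_U3 _ _⟩
  let J : SpecialLinearGroup (Fin 3) F := ⟨J3 α, det_J3 h0⟩
  let g : SpecialLinearGroup (Fin 3) F := ⟨G3 α, det_G3 h0⟩
  have huv : (u : Matrix (Fin 3) (Fin 3) F) = 1 + X3 (b3 α) (d3 α) := rfl
  have hJv : (J : Matrix (Fin 3) (Fin 3) F) = J3 α := rfl
  have hgv : (g : Matrix (Fin 3) (Fin 3) F) = G3 α := rfl
  have huJ : u * (g * u * g⁻¹) = J := by
    have h5 : u * g * u = J * g := by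
      apply Subtype.ext
      show ((u * g * u : SpecialLinearGroup (Fin 3) F) : Matrix (Fin 3) (Fin 3) F) = ((J * g : SpecialLinearGroup (Fin 3) F) : Matrix (Fin 3) (Fin 3) F)
      rw [coe_mul, coe_mul, coe_mul, huv, hJv, hgv]
      exact key3 h0 h1 h2 h3
    calc u * (g * u * g⁻¹) = (u * g * u) * g⁻¹ := by group
      _ = J := by rw [h5, mul_inv_cancel_right]
  refine ⟨u, g, ?_, ?_, ?_⟩
  · rw [huv, add_sub_cancel_left]
    exact ⟨3, X3_pow_three _ _⟩
  · rw [huv, add_sub_cancel_left]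
    intro h5
    have := X3_sq (b3 α) (d3 α)
    rw [show (3 - 1 : ℕ) = 2 from rfl] at h5
    rw [h5] at this
    exact hd this.symm
  · have hu : u ∈ Subgroup.closure ({u, g * u * g⁻¹} : Set (SpecialLinearGroup (Fin 3) F)) :=
      Subgroup.subset_closure (by simp)
    have hv : g * u * g⁻¹ ∈ Subgroup.closure ({u, g * u * g⁻¹} : Set (SpecialLinearGroup (Fin 3) F)) :=
      Subgroup.subset_closure (by simp)
    have hJ : J ∈ Subgroup.closure ({u, g * u * g⁻¹} : Set (SpecialLinearGroup (Fin 3) F)) := by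
      have := Subgroup.mul_mem _ hu hv
      rwa [huJ] at this
    exact gen3 hu hJ huv hJv h0 hgen hα3 hb hd hq

lemma gen_cube_ne_one {α : F} (hq : 5 ≤ Fintype.card F)
    (hgen : ∀ y : F, y ≠ 0 → ∃ k : ℕ, y = α ^ k) : α ^ 3 ≠ 1 := by
  classical
  intro h
  have h1 : (Finset.univ : Finset F) ⊆ {0, 1, α, α ^ 2} := by
    intro y _
    by_cases hy : y = 0
    · simp [hy]
    · obtain ⟨k, hk⟩ := hgen y hy
      have h2 : y = α ^ (k % 3) := by
        rw [hk]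
        conv_lhs => rw [← Nat.mod_add_div k 3, pow_add, pow_mul, h, one_pow, mul_one]
      have h3 : k % 3 < 3 := Nat.mod_lt _ (by norm_num)
      interval_cases (k % 3) <;> simp [h2]
  have h2 := Finset.card_le_card h1
  have h3 : ({0, 1, α, α ^ 2} : Finset F).card ≤ 4 := Finset.card_le_four
  rw [Finset.card_univ] at h2
  omega

lemma gen_sq_ne_one {α : F} (hq : 4 ≤ Fintype.card F)
    (hgen : ∀ y : F, y ≠ 0 → ∃ k : ℕ, y = α ^ k) : α ^ 2 ≠ 1 := by
  classical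
  intro h
  have h1 : (Finset.univ : Finset F) ⊆ {0, 1, α} := by
    intro y _
    by_cases hy : y = 0
    · simp [hy]
    · obtain ⟨k, hk⟩ := hgen y hy
      rcases Nat.even_or_odd' k with ⟨m, rfl | rfl⟩
      · simp [hk, pow_mul, h]
      · simp [hk, pow_succ, pow_mul, h]
  have h2 := Finset.card_le_card h1
  have h3 : ({0, 1, α} : Finset F).card ≤ 3 := Finset.card_le_three
  rw [Finset.card_univ] at h2
  omega

lemma gen_inv' {α : F} (hgen : ∀ y : F, y ≠ 0 → ∃ k : ℕ, y = α ^ k) :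
    ∀ y : F, y ≠ 0 → ∃ k : ℕ, y = α⁻¹ ^ k := by
  intro y hy
  obtain ⟨k, hk⟩ := hgen y⁻¹ (inv_ne_zero hy)
  refine ⟨k, ?_⟩
  rw [inv_pow, ← hk, inv_inv]

/-- Two conjugate regular unipotent generators of `SL₃(F)`, `|F| ≥ 5`. -/
theorem exists_conj3 (hq : 5 ≤ Fintype.card F) : Goal3 F := by
  obtain ⟨α, h0, hgen⟩ := exists_gen (F := F)
  by_cases h2 : α + 2 = 0
  · have hgen' := gen_inv' hgen
    have h3 : α⁻¹ + 2 ≠ 0 := by
      intro h
      have h4 := gen_sq_ne_one (by omega) hgen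
      apply h4
      have h5 : α⁻¹ = α := by linear_combination h - h2
      field_simp at h5
      linear_combination -h5
    exact case3 (inv_ne_zero h0) hgen' (gen_cube_ne_one hq hgen') (gen_sq_ne_one (by omega) hgen') h3 hq
  · exact case3 h0 hgen (gen_cube_ne_one hq hgen) (gen_sq_ne_one (by omega) hgen) h2 hq

end gen

end Cfsg.Agent.Lib.RegUnip.Design3
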