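import Cfsg.Agent.Lib.RegUnip.Jordan

set_option autoImplicit false
set_option linter.unusedSectionVars false
set_option linter.unusedSimpArgs false
set_option linter.style.longLine false

namespace Cfsg.Agent.Lib.RegUnip.Design4

open Matrix Matrix.SpecialLinearGroup
open Cfsg.Agent.Lib.RegUnip.Basic Cfsg.Agent.Lib.RegUnip.Roots Cfsg.Agent.Lib.RegUnip.Words
open Cfsg.Agent.Lib.RegUnip.Jordan

variable {F : Type*} [Field F]

/-- The nilpotent part of the first generator. -/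
def X4 (x a d h : F) : Matrix (Fin 4) (Fin 4) F :=
  !![0, 0, a, 0; d, x, -x ^ 2 - h, x * h - a * d; 0, 1, -x, h; 0, 0, 1, 0]

/-- The element `J`. -/
def J4 (α : F) : Matrix (Fin 4) (Fin 4) F :=
  !![α, 1, 0, 0; 0, α, 0, 0; 0, 0, α⁻¹, 0; 0, 0, 0, α⁻¹]

/-- The semisimple part of `J`. -/
def S4 (α : F) : Matrix (Fin 4) (Fin 4) F := diagonal ![α, α, α⁻¹, α⁻¹]

lemma J4_eq {α : F} (hα : α ≠ 0) :
    J4 α = S4 α * (1 + vecMulVec ![1, 0, 0, 0] ![0, α⁻¹, 0, 0]) := by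
  ext i j
  fin_cases i <;> fin_cases j <;>
    simp [J4, S4, Matrix.mul_apply, Fin.sum_univ_succ, vecMulVec_apply, Matrix.one_apply, hα]

lemma S4_comm (α : F) :
    S4 α * vecMulVec ![1, 0, 0, 0] ![0, α⁻¹, 0, 0] = vecMulVec ![1, 0, 0, 0] ![0, α⁻¹, 0, 0] * S4 α := by
  ext i j
  fin_cases i <;> fin_cases j <;>
    simp [S4, Matrix.mul_apply, Fin.sum_univ_succ, vecMulVec_apply, mul_comm]

lemma vec_ext4 {a b c d a' b' c' d' : F} (h₁ : a = a') (h₂ : b = b') (h₃ : c = c') (h₄ : d = d') :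
    (![a, b, c, d] : Fin 4 → F) = ![a', b', c', d'] := by
  rw [h₁, h₂, h₃, h₄]

lemma smul4 (y a b c d : F) : y • (![a, b, c, d] : Fin 4 → F) = ![y * a, y * b, y * c, y * d] := by
  simp

lemma add4 (a b c d a' b' c' d' : F) :
    (![a, b, c, d] : Fin 4 → F) + ![a', b', c', d'] = ![a + a', b + b', c + c', d + d'] := by
  simp

lemma sub4 (a b c d a' b' c' d' : F) :
    (![a, b, c, d] : Fin 4 → F) - ![a', b', c', d'] = ![a - a', b - b', c - c', d - d'] := by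
  simp

lemma vm_u (p₀ p₁ p₂ p₃ x a d h : F) : (![p₀, p₁, p₂, p₃] : Fin 4 → F) ᵥ* (1 + X4 x a d h) =
    ![p₀ + p₁ * d, p₁ + p₁ * x + p₂, p₂ + p₀ * a + p₁ * (-x ^ 2 - h) - p₂ * x + p₃,
      p₃ + p₁ * (x * h - a * d) + p₂ * h] := by
  funext i
  fin_cases i <;> simp [X4, vecMul, dotProduct, Fin.sum_univ_succ, Matrix.one_apply] <;> ring

lemma mv_u (p₀ p₁ p₂ p₃ x a d h : F) : (1 + X4 x a d h) *ᵥ (![p₀, p₁, p₂, p₃] : Fin 4 → F) =
    ![p₀ + a * p₂, p₁ + d * p₀ + x * p₁ + (-x ^ 2 - h) * p₂ + (x * h - a * d) * p₃,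
      p₂ + p₁ - x * p₂ + h * p₃, p₃ + p₂] := by
  funext i
  fin_cases i <;> simp [X4, mulVec, dotProduct, Fin.sum_univ_succ, Matrix.one_apply] <;> ring

lemma vm_J (p₀ p₁ p₂ p₃ α : F) : (![p₀, p₁, p₂, p₃] : Fin 4 → F) ᵥ* J4 α =
    ![p₀ * α, p₀ + p₁ * α, p₂ * α⁻¹, p₃ * α⁻¹] := by
  funext i
  fin_cases i <;> simp [J4, vecMul, dotProduct, Fin.sum_univ_succ]

lemma vm_S (p₀ p₁ p₂ p₃ α : F) : (![p₀, p₁, p₂, p₃] : Fin 4 → F) ᵥ* S4 α =
    ![p₀ * α, p₁ * α, p₂ * α⁻¹, p₃ * α⁻¹] := by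
  funext i
  fin_cases i <;> simp [S4, vecMul, dotProduct, Fin.sum_univ_succ, diagonal_apply]

lemma mv_S (p₀ p₁ p₂ p₃ α : F) : S4 α *ᵥ (![p₀, p₁, p₂, p₃] : Fin 4 → F) =
    ![α * p₀, α * p₁, α⁻¹ * p₂, α⁻¹ * p₃] := by
  funext i
  fin_cases i <;> simp [S4, mulVec, dotProduct, Fin.sum_univ_succ, diagonal_apply]

lemma dot4 (a b c d a' b' c' d' : F) :
    (![a, b, c, d] : Fin 4 → F) ⬝ᵥ ![a', b', c', d'] = a * a' + b * b' + c * c' + d * d' := by
  simp [dotProduct, Fin.sum_univ_succ]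
  ring

lemma eta4 (z : Fin 4 → F) : z = ![z 0, z 1, z 2, z 3] := by
  funext i
  fin_cases i <;> simp

section gen
variable [Fintype F] {H : Subgroup (SpecialLinearGroup (Fin 4) F)} {α x a d h : F}
  {u J : SpecialLinearGroup (Fin 4) F}

/-- The generation theorem. -/
theorem gen4 (hu : u ∈ H) (hJ : J ∈ H) (huv : (u : Matrix (Fin 4) (Fin 4) F) = 1 + X4 x a d h)
    (hJv : (J : Matrix (Fin 4) (Fin 4) F) = J4 α) (hα0 : α ≠ 0)
    (hgen : ∀ y : F, y ≠ 0 → ∃ k : ℕ, y = α ^ k) (hα2 : α ^ 2 ≠ 1) (hd : d ≠ 0) (hh : h ≠ 0)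
    (hp : x ^ 2 + h + x * h ≠ 0) (ha : a ≠ 0 ∨ (-x ^ 2 - h ≠ 0 ∧ x * h - a * d = 0)) : H = ⊤ := by
  -- the Jordan decomposition
  have hJW : P H ![1, 0, 0, 0] ![0, α⁻¹, 0, 0] ∧ Q H (S4 α) := by
    refine jordan_power hJ (by simp [dotProduct, Fin.sum_univ_succ]) ?_ (S4_comm α) ?_
    · refine diagonal_pow_card_sub_one ?_
      intro i
      fin_cases i <;> simp [hα0]
    · rw [hJv, J4_eq hα0]
  obtain ⟨hT, s, hs, hsv⟩ := hJW
  have hT' := hT
  obtain ⟨T, hTm, hTv⟩ := hT'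
  set p₂ : F := x ^ 2 + h + x * h with hp₂
  set p₃ : F := -x * h + a * d - x * a * d - h ^ 2 - h * a * d with hp₃
  -- the conjugate of `T` by `u`
  have h1 : P H ![1, d, 0, 0] ![α⁻¹ * (-d + x * d + h * d), α⁻¹ * (1 - x - h), α⁻¹ * p₂, α⁻¹ * p₃] := by
    refine P.move_of hu hT ?_ ?_
    · rw [huv, vm_u]
      refine vec_ext4 ?_ ?_ ?_ ?_ <;> (try simp only [hp₂, hp₃]) <;> ring
    · rw [huv, mv_u]
      refine vec_ext4 ?_ ?_ ?_ ?_ <;> ring
  -- the additive group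
  set φQ : Fin 4 → F := ![0, 0, p₂, p₃] with hφQ
  have hα1 : α - α⁻¹ ≠ 0 := by
    intro h0
    apply hα2
    field_simp at h0
    linear_combination h0
  have hα21 : α ^ 2 - 1 ≠ 0 := sub_ne_zero.mpr hα2
  have hsφ : ∀ y : F, ((α * y) • φQ) ᵥ* (s : Matrix (Fin 4) (Fin 4) F) = y • φQ := by
    intro y
    rw [hsv, smul_vecMul, hφQ, vm_S, smul4, smul4]
    refine vec_ext4 ?_ ?_ ?_ ?_ <;> first | ring1 | (field_simp)
  have hsc : (s : Matrix (Fin 4) (Fin 4) F) *ᵥ ![1, d, 0, 0] = α • ![1, d, 0, 0] := by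
    rw [hsv, mv_S, smul4]
    refine vec_ext4 ?_ ?_ ?_ ?_ <;> ring
  have hstab : ∀ y : F, P H ![1, d, 0, 0] (y • φQ) → P H ![1, d, 0, 0] ((α ^ 2 * y) • φQ) := by
    intro y hy
    have h2 := P.move_of hs hy (hsφ y) hsc
    have h3 := h2.swap_smul
    rw [smul_smul] at h3
    have h4 : α * (α * y) = α ^ 2 * y := by ring
    rwa [h4] at h3
  let B : AddSubgroup F :=
    { carrier := {y | P H ![1, d, 0, 0] (y • φQ)}
      add_mem' := fun {y z} hy hz => by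
        have := P.add_right hy hz
        rwa [← add_smul] at this
      zero_mem' := by
        show P H ![1, d, 0, 0] ((0 : F) • φQ)
        rw [zero_smul]
        exact P.zero_right H _
      neg_mem' := fun {y} hy => by
        have := P.neg_right hy
        show P H ![1, d, 0, 0] ((-y) • φQ)
        rwa [neg_smul] }
  -- the first element of `B`
  have hy0 : (α⁻¹ * (α ^ 2 - 1)) ∈ B := by
    have h2 := P.move_of (c := ![1, d, 0, 0]) (φ := ![α⁻¹ * (α⁻¹ * (-d + x * d + h * d)), α⁻¹ * (α⁻¹ * (1 - x - h)), α⁻¹ * (α * p₂), α⁻¹ * (α * p₃)]) hs h1 (by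
      rw [hsv, vm_S]
      refine vec_ext4 ?_ ?_ ?_ ?_ <;> field_simp) hsc
    have h3 := h2.swap_smul
    have h4 := h3.sub_right h1
    show P H ![1, d, 0, 0] ((α⁻¹ * (α ^ 2 - 1)) • φQ)
    convert h4 using 1
    rw [hφQ, smul4, smul4, sub4]
    refine vec_ext4 ?_ ?_ ?_ ?_ <;> field_simp <;> ring
  have hBtop : B = ⊤ := by
    refine addSubgroup_eq_top_of_stable B (mul_ne_zero (inv_ne_zero hα0) hα21) hy0 hα0 hgen ?_ ?_
    · intro y hy
      have := hstab _ (hstab y hy)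
      show P H ![1, d, 0, 0] ((α ^ 4 * y) • φQ)
      convert this using 2
      ring
    · intro y hy
      have := hstab _ (hstab _ (hstab y hy))
      show P H ![1, d, 0, 0] ((α ^ 6 * y) • φQ)
      convert this using 2
      ring
  have hB : ∀ y : F, P H ![1, d, 0, 0] (y • φQ) := by
    intro y
    have : y ∈ B := by rw [hBtop]; trivial
    exact this
  -- `e₀` and `e₁`
  have hT1 : ∀ y : F, (y • φQ) ᵥ* (T : Matrix (Fin 4) (Fin 4) F) = y • φQ := by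
    intro y
    rw [hTv, vecMul_add, vecMul_one, vecMul_vecMulVec, hφQ, smul4, dot4]
    simp
  have hT2 : (T : Matrix (Fin 4) (Fin 4) F) *ᵥ ![1, d, 0, 0] = ![1 + α⁻¹ * d, d, 0, 0] := by
    rw [hTv, add_mulVec, one_mulVec, vecMulVec_mulVec', dot4, smul4, add4]
    refine vec_ext4 ?_ ?_ ?_ ?_ <;> ring
  have hne : α⁻¹ * d ≠ 0 := mul_ne_zero (inv_ne_zero hα0) hd
  have h30 : ∀ y : F, P H ![1, 0, 0, 0] (y • φQ) := by
    intro y
    have h2 := P.move_of (φ := (y / (α⁻¹ * d)) • φQ) hTm (hB _) (hT1 _) hT2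
    have h3 := h2.sub_left (hB _)
    have h4 : (![1 + α⁻¹ * d, d, 0, 0] - ![1, d, 0, 0] : Fin 4 → F) = (α⁻¹ * d) • ![1, 0, 0, 0] := by
      rw [sub4, smul4]
      refine vec_ext4 ?_ ?_ ?_ ?_ <;> ring
    rw [h4] at h3
    have h5 := h3.swap_smul
    rw [smul_smul, mul_div_cancel₀ _ hne] at h5
    exact h5
  have h31 : ∀ y : F, P H ![0, 1, 0, 0] (y • φQ) := by
    intro y
    have h3 := (hB (y / d)).sub_left (h30 (y / d))
    have h4 : (![1, d, 0, 0] - ![1, 0, 0, 0] : Fin 4 → F) = d • ![0, 1, 0, 0] := by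
      rw [sub4, smul4]
      refine vec_ext4 ?_ ?_ ?_ ?_ <;> ring
    rw [h4] at h3
    have h5 := h3.swap_smul
    rw [smul_smul, mul_div_cancel₀ _ hd] at h5
    exact h5
  -- the element `u²` and the vectors `c₃`, `c₄`
  have huu : u * u ∈ H := H.mul_mem hu hu
  set ψ : Fin 4 → F := φQ ᵥ* ((u * u : SpecialLinearGroup (Fin 4) F) : Matrix (Fin 4) (Fin 4) F) with hψ
  have hψ0 : ψ ⬝ᵥ ![1, 0, 0, 0] = d * p₂ := by
    rw [hψ, ← dotProduct_mulVec, coe_mul, huv, ← mulVec_mulVec, mv_u, mv_u, hφQ, dot4]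
    ring
  have hc3 : ∀ y : F, P H ![1 - 4 * d * a, -2 * d + 3 * d * x + 4 * d * h, 3 * d, -4 * d] (y • ψ) := by
    intro y
    refine P.move'_of huu (h30 y) ?_ ?_
    · rw [smul_vecMul]
    · rw [coe_mul, huv, ← mulVec_mulVec, mv_u, mv_u]
      refine vec_ext4 ?_ ?_ ?_ ?_ <;> ring
  have hc4 : ∀ y : F, P H ![3 * a, 1 - 2 * x - 3 * h, -2, 3] (y • ψ) := by
    intro y
    refine P.move'_of huu (h31 y) ?_ ?_
    · rw [smul_vecMul]
    · rw [coe_mul, huv, ← mulVec_mulVec, mv_u, mv_u]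
      refine vec_ext4 ?_ ?_ ?_ ?_ <;> ring
  set A₀ : F := (3 * p₃ - 2 * p₂) / d with hA₀
  set B₀ : F := 4 * p₃ - 3 * p₂ with hB₀
  set w : Fin 4 → F := A₀ • ![1 - 4 * d * a, -2 * d + 3 * d * x + 4 * d * h, 3 * d, -4 * d] +
    B₀ • ![3 * a, 1 - 2 * x - 3 * h, -2, 3] with hw
  have hw2 : w 2 = p₃ := by
    simp only [hw, hA₀, hB₀]
    simp
    field_simp
    ring
  have hw3 : w 3 = -p₂ := by
    simp only [hw, hA₀, hB₀]
    simp
    field_simp
    ring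
  have hcw : ∀ y : F, P H w (y • ψ) := by
    intro y
    have h2 := (hc3 (A₀ * y))
    have h3 := (hc4 (B₀ * y))
    rw [mul_smul] at h2 h3
    exact h2.smul_swap.add_left h3.smul_swap
  have hφw : φQ ⬝ᵥ w = 0 := by
    rw [eta4 w, hw2, hw3, hφQ, dot4]
    ring
  have hpd : d * p₂ ≠ 0 := mul_ne_zero hd hp
  have hwQ : ∀ y : F, P H w (y • φQ) := by
    intro y
    have h2 := P.comm (hcw ((d * p₂)⁻¹)) (h30 y) (by rw [smul_dotProduct, hφw, smul_zero])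
    rw [smul_dotProduct, hψ0, smul_eq_mul, inv_mul_cancel₀ hpd, one_smul] at h2
    exact h2
  have hq0 : ∀ y : F, P H ![0, 0, p₃, -p₂] (y • φQ) := by
    intro y
    have h2 := ((h30 (w 0 * y)))
    have h3 := ((h31 (w 1 * y)))
    rw [mul_smul] at h2 h3
    have hq : (![0, 0, p₃, -p₂] : Fin 4 → F) = w - (w 0) • ![1, 0, 0, 0] - (w 1) • ![0, 1, 0, 0] := by
      refine funext fun i => ?_
      fin_cases i
      · show (0 : F) = w 0 - w 0 * 1 - w 1 * 0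
        ring
      · show (0 : F) = w 1 - w 0 * 0 - w 1 * 1
        ring
      · show p₃ = w 2 - w 0 * 0 - w 1 * 0
        rw [hw2]; ring
      · show -p₂ = w 3 - w 0 * 0 - w 1 * 0
        rw [hw3]; ring
    rw [hq]
    exact ((hwQ y).sub_left h2.smul_swap).sub_left h3.smul_swap
  -- `E φQ`
  have hE0 : E H φQ := by
    intro z hz
    rw [eta4 z, hφQ, dot4] at hz
    have hz2 : z 2 = (-(z 3) / p₂) * p₃ := by
      field_simp
      linear_combination hz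
    have h2 := (h30 (z 0)).smul_swap
    have h3 := (h31 (z 1)).smul_swap
    have h4 := (hq0 (-(z 3) / p₂)).smul_swap
    have h5 := (h2.add_left h3).add_left h4
    convert h5 using 1
    conv_lhs => rw [eta4 z]
    rw [smul4, smul4, smul4, add4, add4]
    refine vec_ext4 ?_ ?_ ?_ ?_
    · ring
    · ring
    · rw [hz2]; ring
    · field_simp
      ring
  -- the chain of functionals
  have hE1 : E H ![0, p₂, p₃ - x * p₂, h * p₂] := by
    have h2 := (hE0.move hu).sub hE0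
    convert h2 using 1
    rw [huv, hφQ, vm_u, sub4]
    refine vec_ext4 ?_ ?_ ?_ ?_ <;> ring
  have hE2 : E H ![0, 1, 0, 0] := by
    have h2 := (hE1.move hJ).sub (hE1.smul α⁻¹)
    have h3 : (![0, p₂, p₃ - x * p₂, h * p₂] : Fin 4 → F) ᵥ* (J : Matrix (Fin 4) (Fin 4) F) -
        α⁻¹ • ![0, p₂, p₃ - x * p₂, h * p₂] = ((α - α⁻¹) * p₂) • ![0, 1, 0, 0] := by
      rw [hJv, vm_J, smul4, smul4, sub4]
      refine vec_ext4 ?_ ?_ ?_ ?_ <;> ring
    rw [h3] at h2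
    exact E.of_smul (mul_ne_zero hα1 hp) h2
  have hE3 : E H ![d, 0, -x ^ 2 - h, x * h - a * d] := by
    have h2 := ((hE2.move hu).sub hE2).sub (hE2.smul x)
    convert h2 using 1
    rw [huv, vm_u, smul4, sub4, sub4]
    refine vec_ext4 ?_ ?_ ?_ ?_ <;> ring
  have hE4 : E H ![1, 0, 0, 0] := by
    have h2 := ((hE3.move hJ).sub (hE3.smul α⁻¹)).sub (hE2.smul d)
    have h3 : (![d, 0, -x ^ 2 - h, x * h - a * d] : Fin 4 → F) ᵥ* (J : Matrix (Fin 4) (Fin 4) F) -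
        α⁻¹ • ![d, 0, -x ^ 2 - h, x * h - a * d] - d • ![0, 1, 0, 0] = ((α - α⁻¹) * d) • ![1, 0, 0, 0] := by
      rw [hJv, vm_J, smul4, smul4, smul4, sub4, sub4]
      refine vec_ext4 ?_ ?_ ?_ ?_ <;> ring
    rw [h3] at h2
    exact E.of_smul (mul_ne_zero hα1 hd) h2
  have hE5 : E H ![0, 0, a, 0] := by
    have h2 := (hE4.move hu).sub hE4
    convert h2 using 1
    rw [huv, vm_u, sub4]
    refine vec_ext4 ?_ ?_ ?_ ?_ <;> ring
  have hE6 : E H ![0, 0, -x ^ 2 - h, x * h - a * d] := by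
    have h2 := hE3.sub (hE4.smul d)
    convert h2 using 1
    rw [smul4, sub4]
    refine vec_ext4 ?_ ?_ ?_ ?_ <;> ring
  have hE7 : E H ![0, 0, 1, 0] := by
    rcases ha with ha | ⟨hc, hf⟩
    · refine E.of_smul ha ?_
      convert hE5 using 1
      rw [smul4]
      refine vec_ext4 ?_ ?_ ?_ ?_ <;> ring
    · refine E.of_smul hc ?_
      convert hE6 using 1
      rw [smul4, hf]
      refine vec_ext4 ?_ ?_ ?_ ?_ <;> ring
  have hE8 : E H ![0, 0, 0, 1] := by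
    refine E.of_smul hh ?_
    have h2 := (((hE7.move hu).sub hE7).sub hE2).sub (hE7.smul (-x))
    convert h2 using 1
    rw [huv, vm_u, smul4, smul4, sub4, sub4, sub4]
    refine vec_ext4 ?_ ?_ ?_ ?_ <;> ring
  refine eq_top_of_E (by omega) ?_
  intro j hj
  have h0 : (eV 0 : Fin 4 → F) = ![1, 0, 0, 0] := by
    funext i; fin_cases i <;> simp [eV]
  have h1' : (eV 1 : Fin 4 → F) = ![0, 1, 0, 0] := by
    funext i; fin_cases i <;> simp [eV]
  have h2' : (eV 2 : Fin 4 → F) = ![0, 0, 1, 0] := by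
    funext i; fin_cases i <;> simp [eV]
  have h3' : (eV 3 : Fin 4 → F) = ![0, 0, 0, 1] := by
    funext i; fin_cases i <;> simp [eV]
  have hj' : j = 0 ∨ j = 1 ∨ j = 2 ∨ j = 3 := by omega
  rcases hj' with rfl | rfl | rfl | rfl
  · rw [h0]; exact hE4
  · rw [h1']; exact hE2
  · rw [h2']; exact hE7
  · rw [h3']; exact hE8

end gen


lemma det_U4 (x a d h : F) : det (1 + X4 x a d h) = 1 := by
  simp [det_succ_row_zero, Fin.sum_univ_succ, X4, Fin.succAbove, Matrix.one_apply, submatrix_apply]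
  ring

lemma det_J4 {α : F} (hα : α ≠ 0) : det (J4 α) = 1 := by
  simp [det_succ_row_zero, Fin.sum_univ_succ, J4, Fin.succAbove, submatrix_apply, hα]

lemma X4_pow_four (x a d h : F) : (X4 x a d h) ^ 4 = 0 := by
  ext i j
  fin_cases i <;> fin_cases j <;> simp [pow_succ, X4, Matrix.mul_apply, Fin.sum_univ_succ] <;> first | ring1 | (left; ring1)

lemma X4_pow_three (x a d h : F) : ((X4 x a d h) ^ 3) 3 0 = d := by
  simp [pow_succ, X4, Matrix.mul_apply, Fin.sum_univ_succ]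

/-- Assembly of the case of `SL₄`. -/
theorem assemble4 [Fintype F] {α x a d h D : F} {Z Zs : Matrix (Fin 4) (Fin 4) F}
    (hmul : (1 + X4 x a d h) * (1 + D⁻¹ • Z) = J4 α) (hD : D ≠ 0) (hZ : Z * Z = Zs)
    (hZs : Zs * Zs = 0) (hZ3 : (Zs * Z) 2 0 ≠ 0) (hα0 : α ≠ 0)
    (hgen : ∀ y : F, y ≠ 0 → ∃ k : ℕ, y = α ^ k) (hα2 : α ^ 2 ≠ 1) (hd : d ≠ 0) (hh : h ≠ 0)
    (hp : x ^ 2 + h + x * h ≠ 0) (ha : a ≠ 0 ∨ (-x ^ 2 - h ≠ 0 ∧ x * h - a * d = 0)) :
    ∃ u v : SpecialLinearGroup (Fin 4) F,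
      (IsNilpotent ((u : Matrix (Fin 4) (Fin 4) F) - 1) ∧
        ((u : Matrix (Fin 4) (Fin 4) F) - 1) ^ (4 - 1) ≠ 0) ∧
      (IsNilpotent ((v : Matrix (Fin 4) (Fin 4) F) - 1) ∧
        ((v : Matrix (Fin 4) (Fin 4) F) - 1) ^ (4 - 1) ≠ 0) ∧
      Subgroup.closure ({u, v} : Set (SpecialLinearGroup (Fin 4) F)) = ⊤ := by
  let u : SpecialLinearGroup (Fin 4) F := ⟨1 + X4 x a d h, det_U4 x a d h⟩
  let J : SpecialLinearGroup (Fin 4) F := ⟨J4 α, det_J4 hα0⟩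
  have huv : (u : Matrix (Fin 4) (Fin 4) F) = 1 + X4 x a d h := rfl
  have hJv : (J : Matrix (Fin 4) (Fin 4) F) = J4 α := rfl
  have hvv : ((u⁻¹ * J : SpecialLinearGroup (Fin 4) F) : Matrix (Fin 4) (Fin 4) F) = 1 + D⁻¹ • Z := by
    apply cancel_left_val u
    rw [huv, hmul, ← huv, ← coe_mul, mul_inv_cancel_left, hJv]
  refine ⟨u, u⁻¹ * J, ⟨?_, ?_⟩, ⟨?_, ?_⟩, ?_⟩
  · rw [huv, add_sub_cancel_left]
    exact ⟨4, X4_pow_four x a d h⟩
  · rw [huv, add_sub_cancel_left]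
    intro h0
    have := X4_pow_three x a d h
    rw [show (4 - 1 : ℕ) = 3 from rfl] at h0
    rw [h0] at this
    exact hd this.symm
  · rw [hvv, add_sub_cancel_left]
    refine ⟨4, ?_⟩
    have hZ4 : Z ^ 4 = Zs * Zs := by
      rw [← hZ, pow_succ, pow_succ, pow_succ, pow_one]
      simp only [Matrix.mul_assoc]
    rw [smul_pow, hZ4, hZs, smul_zero]
  · rw [hvv, add_sub_cancel_left]
    intro h0
    have hZ3' : Z ^ 3 = Zs * Z := by
      rw [← hZ, pow_succ, pow_succ, pow_one]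
    rw [show (4 - 1 : ℕ) = 3 from rfl, smul_pow, hZ3'] at h0
    have h1 := congrFun (congrFun h0 2) 0
    rw [Matrix.smul_apply, smul_eq_mul] at h1
    exact (mul_ne_zero (pow_ne_zero _ (inv_ne_zero hD)) hZ3) h1
  · have hu : u ∈ Subgroup.closure ({u, u⁻¹ * J} : Set (SpecialLinearGroup (Fin 4) F)) :=
      Subgroup.subset_closure (by simp)
    have hv : u⁻¹ * J ∈ Subgroup.closure ({u, u⁻¹ * J} : Set (SpecialLinearGroup (Fin 4) F)) :=
      Subgroup.subset_closure (by simp)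
    have hJ : J ∈ Subgroup.closure ({u, u⁻¹ * J} : Set (SpecialLinearGroup (Fin 4) F)) := by
      have := Subgroup.mul_mem _ hu hv
      rwa [mul_inv_cancel_left] at this
    exact gen4 hu hJ huv hJv hα0 hgen hα2 hd hh hp ha

end Cfsg.Agent.Lib.RegUnip.Design4
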