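import Mathlib

/-!
# Field lemmas for `SU₃`: additive subgroups stable under multiplication
-/

set_option autoImplicit false
set_option linter.unusedSectionVars false
set_option linter.unusedSimpArgs false
set_option linter.style.longLine false
set_option linter.unusedVariables false
set_option linter.style.haveILetI false

namespace Cfsg.Agent.Lib.RegUnip.SU3Field

variable {F : Type*} [Field F] [Fintype F]

/-- An additive subgroup with a nonzero element is either everything or its multiplier ring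
is a proper subfield. -/
theorem stab_dichotomy (B : AddSubgroup F) {b₀ : F} (hb₀ : b₀ ≠ 0) (hb : b₀ ∈ B) :
    B = ⊤ ∨ ∃ r k : ℕ, 2 ≤ r ∧ 2 ≤ k ∧ Fintype.card F = r ^ k ∧
      ∀ m : F, m ≠ 0 → (∀ x ∈ B, m * x ∈ B) → m ^ (r - 1) = 1 := by
  classical
  have hinv : ∀ y : F, (∀ x ∈ B, y * x ∈ B) → y ≠ 0 → ∀ x ∈ B, y⁻¹ * x ∈ B := by
    intro y hy hy0 x hx
    have h1 : y ^ (Fintype.card F - 1) = 1 := FiniteField.pow_card_sub_one_eq_one y hy0
    have hq2 : 2 ≤ Fintype.card F := Fintype.one_lt_card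
    have h2 : y⁻¹ = y ^ (Fintype.card F - 2) := by
      field_simp
      rw [← pow_succ']
      have : Fintype.card F - 2 + 1 = Fintype.card F - 1 := by omega
      rw [this, h1]
    rw [h2]
    generalize Fintype.card F - 2 = m
    induction m with
    | zero => simpa using hx
    | succ m ih =>
      rw [pow_succ', mul_assoc]
      exact hy _ ih
  let S : Subfield F :=
    { carrier := {y | ∀ x ∈ B, y * x ∈ B}
      mul_mem' := fun {y z} hy hz x hx => by
        have := hy _ (hz x hx)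
        rwa [← mul_assoc] at this
      one_mem' := fun x hx => by simpa using hx
      add_mem' := fun {y z} hy hz x hx => by
        rw [add_mul]; exact B.add_mem (hy x hx) (hz x hx)
      zero_mem' := fun x _ => by simp
      neg_mem' := fun {y} hy x hx => by
        rw [neg_mul]; exact B.neg_mem (hy x hx)
      inv_mem' := fun y hy => by
        by_cases hy0 : y = 0
        · subst hy0
          intro x _
          simp
        · exact hinv y hy hy0 }
  by_cases hall : ∀ x : F, x ∈ S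
  · left
    rw [eq_top_iff]
    intro t _
    have h1 := hall (t / b₀) b₀ hb
    rwa [div_mul_cancel₀ _ hb₀] at h1
  · right
    push Not at hall
    obtain ⟨x₀, hx₀⟩ := hall
    letI : Fintype S := Fintype.ofFinite S
    have hr2 : 2 ≤ Fintype.card S := Fintype.one_lt_card
    have hcard : Fintype.card F = (Fintype.card S) ^ Module.finrank S F :=
      Module.card_eq_pow_finrank
    refine ⟨Fintype.card S, Module.finrank S F, hr2, ?_, hcard, ?_⟩
    · by_contra hk
      have hpos : 0 < Module.finrank S F := Module.finrank_pos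
      have h1 : Module.finrank S F = 1 := by omega
      rw [h1, pow_one] at hcard
      have h2 : Function.Surjective (Subtype.val : S → F) := by
        have h3 : Function.Injective (Subtype.val : S → F) := Subtype.val_injective
        exact (Fintype.bijective_iff_injective_and_card _).mpr ⟨h3, hcard.symm ▸ rfl⟩ |>.2
      obtain ⟨y, hy⟩ := h2 x₀
      exact hx₀ (hy ▸ y.2)
    · intro m hm0 hm
      have hmS : m ∈ S := hm
      have h1 : ((⟨m, hmS⟩ : S) ^ (Fintype.card S - 1)) = 1 := by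
        apply FiniteField.pow_card_sub_one_eq_one
        intro h
        exact hm0 (by simpa using congrArg Subtype.val h)
      have h2 := congrArg Subtype.val h1
      simpa using h2

/-- Elements of exact order `q + 1`. -/
theorem exists_mu {q : ℕ} (hF : Fintype.card F = q ^ 2) (hq : 2 ≤ q) :
    ∃ a : F, a ≠ 0 ∧ a ^ (q + 1) = 1 ∧ ∀ k : ℕ, a ^ k = 1 → (q + 1) ∣ k := by
  classical
  obtain ⟨α, hα⟩ := IsCyclic.exists_generator (α := Fˣ)
  have hord : orderOf α = q ^ 2 - 1 := by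
    rw [orderOf_eq_card_of_forall_mem_zpowers hα, Nat.card_eq_fintype_card, Fintype.card_units, hF]
  have h1 : q ^ 2 - 1 = (q - 1) * (q + 1) := by
    obtain ⟨s, rfl⟩ : ∃ s, q = s + 1 := ⟨q - 1, by omega⟩
    simp only [Nat.add_sub_cancel]
    have : (s + 1) ^ 2 = s * (s + 1 + 1) + 1 := by ring
    rw [this]
    simp
  refine ⟨((α ^ (q - 1) : Fˣ) : F), Units.ne_zero _, ?_, ?_⟩
  · rw [← Units.val_pow_eq_pow_val, ← pow_mul, ← h1, ← hord, pow_orderOf_eq_one, Units.val_one]
  · intro k hk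
    rw [← Units.val_pow_eq_pow_val, Units.val_eq_one, ← pow_mul] at hk
    have h2 := orderOf_dvd_of_pow_eq_one hk
    rw [hord, h1] at h2
    exact Nat.dvd_of_mul_dvd_mul_left (by omega) h2

/-- The generic case. -/
theorem top_generic {q : ℕ} (hF : Fintype.card F = q ^ 2) (hq : 3 ≤ q) (h5 : q ≠ 5) (h8 : q ≠ 8)
    (B : AddSubgroup F) {b₀ : F} (hb₀ : b₀ ≠ 0) (hb : b₀ ∈ B) {a : F} (ha0 : a ≠ 0)
    (ha : ∀ k : ℕ, a ^ k = 1 → (q + 1) ∣ k) (hs : ∀ x ∈ B, (a ^ 3)⁻¹ * x ∈ B) : B = ⊤ := by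
  rcases stab_dichotomy B hb₀ hb with h | ⟨r, k, hr, hk, hc, hm⟩
  · exact h
  exfalso
  have h1 := hm ((a ^ 3)⁻¹) (inv_ne_zero (pow_ne_zero 3 ha0)) hs
  have h2 : a ^ (3 * (r - 1)) = 1 := by
    rw [inv_pow, inv_eq_one, ← pow_mul] at h1
    exact h1
  have h3 := ha _ h2
  rw [hF] at hc
  have h4 : q + 1 ≤ 3 * (r - 1) := Nat.le_of_dvd (by have : 0 < r - 1 := by omega
                                                     omega) h3
  obtain ⟨s, rfl⟩ : ∃ s, r = s + 1 := ⟨r - 1, by omega⟩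
  simp only [Nat.add_sub_cancel] at h3 h4
  by_cases hk2 : k = 2
  · subst hk2
    have h6 : q = s + 1 := by
      have := Nat.pow_left_injective (n := 2) (by norm_num) hc
      exact this
    subst h6
    have h7 : s + 1 + 1 ∣ 6 := by
      have h8 : s + 1 + 1 ∣ 3 * s + 6 := ⟨3, by ring⟩
      exact (Nat.dvd_add_right h3).1 h8
    have h10 := Nat.le_of_dvd (by norm_num) h7
    have h11 : s ≤ 4 := by omega
    have h12 : 2 ≤ s := by omega
    interval_cases s <;> omega
  · have hk3 : 3 ≤ k := by omega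
    have h6 : (s + 1) ^ 3 ≤ q ^ 2 := by
      rw [hc]
      exact Nat.pow_le_pow_right (by omega) hk3
    have h7 : q + 4 ≤ 3 * (s + 1) := by omega
    have h8' : (q + 4) ^ 3 ≤ 27 * q ^ 2 := by
      calc (q + 4) ^ 3 ≤ (3 * (s + 1)) ^ 3 := Nat.pow_le_pow_left h7 3
        _ = 27 * (s + 1) ^ 3 := by ring
        _ ≤ 27 * q ^ 2 := Nat.mul_le_mul_left _ h6
    have h9 : ((q : ℤ) + 4) ^ 3 ≤ 27 * (q : ℤ) ^ 2 := by exact_mod_cast h8'
    have h10 : ((q : ℤ) - 8) ^ 2 * ((q : ℤ) + 1) ≤ 0 := by nlinarith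
    have h11 : (q : ℤ) - 8 ≠ 0 := by
      intro h
      apply h8
      omega
    have h12 : 0 < ((q : ℤ) - 8) ^ 2 := by positivity
    have h13 : (0 : ℤ) < (q : ℤ) + 1 := by positivity
    have := mul_pos h12 h13
    omega

theorem top_25 (hF : Fintype.card F = 25) (B : AddSubgroup F) {b₀ : F} (hb₀ : b₀ ≠ 0) (hb : b₀ ∈ B)
    {m : F} (hm0 : m ≠ 0) (hm4 : m ^ 4 ≠ 1) (hs : ∀ x ∈ B, m * x ∈ B) : B = ⊤ := by
  rcases stab_dichotomy B hb₀ hb with h | ⟨r, k, hr, hk, hc, hm⟩
  · exact h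
  exfalso
  rw [hF] at hc
  have h1 : r ^ 2 ≤ 25 := by rw [hc]; exact Nat.pow_le_pow_right (by omega) hk
  have h2 : r ≤ 5 := by nlinarith
  have h3 : k < 5 := by
    by_contra h
    have h4 : 2 ^ 5 ≤ r ^ k := (Nat.pow_le_pow_left hr 5).trans (Nat.pow_le_pow_right (by omega) (by omega))
    omega
  have h4 : r = 5 := by
    interval_cases r <;> interval_cases k <;> omega
  subst h4
  exact hm4 (hm m hm0 hs)

theorem top_64 (hF : Fintype.card F = 64) (B : AddSubgroup F) {b₀ : F} (hb₀ : b₀ ≠ 0) (hb : b₀ ∈ B)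
    {m₁ m₂ : F} (hm₁ : m₁ ^ 3 = 1) (hm₁' : m₁ ≠ 1) (hm₂0 : m₂ ≠ 0) (hm₂ : m₂ ^ 3 ≠ 1)
    (hs₁ : ∀ x ∈ B, m₁ * x ∈ B) (hs₂ : ∀ x ∈ B, m₂ * x ∈ B) : B = ⊤ := by
  rcases stab_dichotomy B hb₀ hb with h | ⟨r, k, hr, hk, hc, hm⟩
  · exact h
  exfalso
  rw [hF] at hc
  have h1 : r ^ 2 ≤ 64 := by rw [hc]; exact Nat.pow_le_pow_right (by omega) hk
  have h2 : r ≤ 8 := by nlinarith
  have h3 : k < 7 := by
    by_contra h
    have h4 : 2 ^ 7 ≤ r ^ k := (Nat.pow_le_pow_left hr 7).trans (Nat.pow_le_pow_right (by omega) (by omega))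
    omega
  have hm₁0 : m₁ ≠ 0 := by
    rintro rfl
    simp at hm₁
  have h5 := hm m₁ hm₁0 hs₁
  have h6 : r = 2 ∨ r = 4 ∨ r = 8 := by
    interval_cases r <;> interval_cases k <;> omega
  rcases h6 with rfl | rfl | rfl
  · exact hm₁' (by simpa using h5)
  · exact hm₂ (hm m₂ hm₂0 hs₂)
  · apply hm₁'
    have h7 : m₁ ^ 7 = 1 := h5
    calc m₁ = m₁ ^ 7 * (m₁ ^ 3)⁻¹ ^ 2 := by field_simp
      _ = 1 := by rw [h7, hm₁]; simp

end Cfsg.Agent.Lib.RegUnip.SU3Field
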