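import Cfsg.Agent.Lib.RegUnip.SU3Trans
import Cfsg.Agent.Lib.RegUnip.SU3Field

/-!
# The explicit design for `SU₃`
-/

set_option autoImplicit false
set_option linter.unusedSectionVars false
set_option linter.unusedSimpArgs false
set_option linter.style.longLine false
set_option linter.unusedVariables false
set_option maxHeartbeats 1000000

namespace Cfsg.Agent.Lib.RegUnip.SU3Design

open Matrix Matrix.SpecialLinearGroup
open Cfsg.Agent.Lib.RegUnip.Basic Cfsg.Agent.Lib.RegUnip.Words Cfsg.Agent.Lib.RegUnip.SU3Gen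

variable {F : Type*} [Field F]

def del (a : F) : F := (a ^ 2 - 1) / a
def f0 (a : F) : F := a * (a - 1) * (a + 2) / (a + 1)
def g00 (a : F) : F := (21+79*a+97*a^2+44*a^3+43*a^4+97*a^5+79*a^6+21*a^7)/((a+1)^4*(a-1)^3)
def g01 (a : F) : F := -a^2/((a+1)^2*(a-1))
def g10 (a : F) : F := (-22*a-79*a^2-95*a^3-44*a^4-44*a^5-97*a^6-79*a^7-21*a^8)/((a+1)^4*(a-1)^3)
def g11 (a : F) : F := (1+a-a^2)/((a+1)^2*(a-1))
def g20 (a : F) : F := (-21-78*a-97*a^2-48*a^3-44*a^4-92*a^5-77*a^6-23*a^7-a^8)/((a+1)^5*(a-1)^3)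
def g21 (a : F) : F := (1+2*a-a^3-a^4)/(a*(a+1)^3*(a-1))
def g22 (a : F) : F := 1/(a+1)

lemma gram_00 (a : F) (h0 : a ≠ 0) (hp : a + 1 ≠ 0) (hm : a - 1 ≠ 0) (hp' : 1 + a ≠ 0) (hm' : 1 - a ≠ 0) :
    g00 a * g20 a⁻¹ + g10 a * g10 a⁻¹ + g20 a * g00 a⁻¹ = 0 := by
  simp only [g00, g01, g10, g11, g20, g21, g22]
  field_simp
  ring

lemma gram_01 (a : F) (h0 : a ≠ 0) (hp : a + 1 ≠ 0) (hm : a - 1 ≠ 0) (hp' : 1 + a ≠ 0) (hm' : 1 - a ≠ 0) :
    g00 a * g21 a⁻¹ + g10 a * g11 a⁻¹ + g20 a * g01 a⁻¹ = 0 := by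
  simp only [g00, g01, g10, g11, g20, g21, g22]
  field_simp
  ring

lemma gram_02 (a : F) (h0 : a ≠ 0) (hp : a + 1 ≠ 0) (hm : a - 1 ≠ 0) (hp' : 1 + a ≠ 0) (hm' : 1 - a ≠ 0) :
    g00 a * g22 a⁻¹ + g10 a * a⁻¹ + g20 a * (-1) = 1 := by
  simp only [g00, g01, g10, g11, g20, g21, g22]
  field_simp
  ring

lemma gram_10 (a : F) (h0 : a ≠ 0) (hp : a + 1 ≠ 0) (hm : a - 1 ≠ 0) (hp' : 1 + a ≠ 0) (hm' : 1 - a ≠ 0) :
    g01 a * g20 a⁻¹ + g11 a * g10 a⁻¹ + g21 a * g00 a⁻¹ = 0 := by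
  simp only [g00, g01, g10, g11, g20, g21, g22]
  field_simp
  ring

lemma gram_11 (a : F) (h0 : a ≠ 0) (hp : a + 1 ≠ 0) (hm : a - 1 ≠ 0) (hp' : 1 + a ≠ 0) (hm' : 1 - a ≠ 0) :
    g01 a * g21 a⁻¹ + g11 a * g11 a⁻¹ + g21 a * g01 a⁻¹ = 1 := by
  simp only [g00, g01, g10, g11, g20, g21, g22]
  field_simp
  ring

lemma gram_12 (a : F) (h0 : a ≠ 0) (hp : a + 1 ≠ 0) (hm : a - 1 ≠ 0) (hp' : 1 + a ≠ 0) (hm' : 1 - a ≠ 0) :
    g01 a * g22 a⁻¹ + g11 a * a⁻¹ + g21 a * (-1) = 0 := by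
  simp only [g00, g01, g10, g11, g20, g21, g22]
  field_simp
  ring

lemma gram_20 (a : F) (h0 : a ≠ 0) (hp : a + 1 ≠ 0) (hm : a - 1 ≠ 0) (hp' : 1 + a ≠ 0) (hm' : 1 - a ≠ 0) :
    (-1) * g20 a⁻¹ + a * g10 a⁻¹ + g22 a * g00 a⁻¹ = 1 := by
  simp only [g00, g01, g10, g11, g20, g21, g22]
  field_simp
  ring

lemma gram_21 (a : F) (h0 : a ≠ 0) (hp : a + 1 ≠ 0) (hm : a - 1 ≠ 0) (hp' : 1 + a ≠ 0) (hm' : 1 - a ≠ 0) :
    (-1) * g21 a⁻¹ + a * g11 a⁻¹ + g22 a * g01 a⁻¹ = 0 := by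
  simp only [g00, g01, g10, g11, g20, g21, g22]
  field_simp
  ring

lemma gram_22 (a : F) (h0 : a ≠ 0) (hp : a + 1 ≠ 0) (hm : a - 1 ≠ 0) (hp' : 1 + a ≠ 0) (hm' : 1 - a ≠ 0) :
    (-1) * g22 a⁻¹ + a * a⁻¹ + g22 a * (-1) = 0 := by
  simp only [g00, g01, g10, g11, g20, g21, g22]
  field_simp
  ring
lemma conj_00 (a : F) (h0 : a ≠ 0) (hp : a + 1 ≠ 0) (hm : a - 1 ≠ 0) :
    (1 * g00 a + 0 * g10 a + 0 * g20 a) * 1 + (1 * g01 a + 0 * g11 a + 0 * g21 a) * del a + (1 * (-1) + 0 * a + 0 * g22 a) * f0 a = a * g00 a + 0 * g10 a + a * del a * g20 a := by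
  simp only [g00, g01, g10, g11, g20, g21, g22, del, f0]
  field_simp
  ring

lemma conj_01 (a : F) (h0 : a ≠ 0) (hp : a + 1 ≠ 0) (hm : a - 1 ≠ 0) :
    (1 * g00 a + 0 * g10 a + 0 * g20 a) * 0 + (1 * g01 a + 0 * g11 a + 0 * g21 a) * 1 + (1 * (-1) + 0 * a + 0 * g22 a) * del a = a * g01 a + 0 * g11 a + a * del a * g21 a := by
  simp only [g00, g01, g10, g11, g20, g21, g22, del, f0]
  field_simp
  ring

lemma conj_02 (a : F) (h0 : a ≠ 0) (hp : a + 1 ≠ 0) (hm : a - 1 ≠ 0) :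
    (1 * g00 a + 0 * g10 a + 0 * g20 a) * 0 + (1 * g01 a + 0 * g11 a + 0 * g21 a) * 0 + (1 * (-1) + 0 * a + 0 * g22 a) * 1 = a * (-1) + 0 * a + a * del a * g22 a := by
  simp only [g00, g01, g10, g11, g20, g21, g22, del, f0]
  field_simp
  ring

lemma conj_10 (a : F) (h0 : a ≠ 0) (hp : a + 1 ≠ 0) (hm : a - 1 ≠ 0) :
    (del a * g00 a + 1 * g10 a + 0 * g20 a) * 1 + (del a * g01 a + 1 * g11 a + 0 * g21 a) * del a + (del a * (-1) + 1 * a + 0 * g22 a) * f0 a = 0 * g00 a + (a ^ 2)⁻¹ * g10 a + 0 * g20 a := by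
  simp only [g00, g01, g10, g11, g20, g21, g22, del, f0]
  field_simp
  ring

lemma conj_11 (a : F) (h0 : a ≠ 0) (hp : a + 1 ≠ 0) (hm : a - 1 ≠ 0) :
    (del a * g00 a + 1 * g10 a + 0 * g20 a) * 0 + (del a * g01 a + 1 * g11 a + 0 * g21 a) * 1 + (del a * (-1) + 1 * a + 0 * g22 a) * del a = 0 * g01 a + (a ^ 2)⁻¹ * g11 a + 0 * g21 a := by
  simp only [g00, g01, g10, g11, g20, g21, g22, del, f0]
  field_simp
  ring

lemma conj_12 (a : F) (h0 : a ≠ 0) (hp : a + 1 ≠ 0) (hm : a - 1 ≠ 0) :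
    (del a * g00 a + 1 * g10 a + 0 * g20 a) * 0 + (del a * g01 a + 1 * g11 a + 0 * g21 a) * 0 + (del a * (-1) + 1 * a + 0 * g22 a) * 1 = 0 * (-1) + (a ^ 2)⁻¹ * a + 0 * g22 a := by
  simp only [g00, g01, g10, g11, g20, g21, g22, del, f0]
  field_simp
  ring

lemma conj_20 (a : F) (h0 : a ≠ 0) (hp : a + 1 ≠ 0) (hm : a - 1 ≠ 0) :
    (f0 a * g00 a + del a * g10 a + 1 * g20 a) * 1 + (f0 a * g01 a + del a * g11 a + 1 * g21 a) * del a + (f0 a * (-1) + del a * a + 1 * g22 a) * f0 a = 0 * g00 a + 0 * g10 a + a * g20 a := by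
  simp only [g00, g01, g10, g11, g20, g21, g22, del, f0]
  field_simp
  ring

lemma conj_21 (a : F) (h0 : a ≠ 0) (hp : a + 1 ≠ 0) (hm : a - 1 ≠ 0) :
    (f0 a * g00 a + del a * g10 a + 1 * g20 a) * 0 + (f0 a * g01 a + del a * g11 a + 1 * g21 a) * 1 + (f0 a * (-1) + del a * a + 1 * g22 a) * del a = 0 * g01 a + 0 * g11 a + a * g21 a := by
  simp only [g00, g01, g10, g11, g20, g21, g22, del, f0]
  field_simp
  ring

lemma conj_22 (a : F) (h0 : a ≠ 0) (hp : a + 1 ≠ 0) (hm : a - 1 ≠ 0) :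
    (f0 a * g00 a + del a * g10 a + 1 * g20 a) * 0 + (f0 a * g01 a + del a * g11 a + 1 * g21 a) * 0 + (f0 a * (-1) + del a * a + 1 * g22 a) * 1 = 0 * (-1) + 0 * a + a * g22 a := by
  simp only [g00, g01, g10, g11, g20, g21, g22, del, f0]
  field_simp
  ring

/-- The conjugating matrix. -/
def gMat (a : F) : Matrix (Fin 3) (Fin 3) F := !![g00 a, g01 a, -1; g10 a, g11 a, a; g20 a, g21 a, g22 a]

def uLit (a : F) : Matrix (Fin 3) (Fin 3) F := !![1, 0, 0; del a, 1, 0; f0 a, del a, 1]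

def jLit (a : F) : Matrix (Fin 3) (Fin 3) F := !![a, 0, a * del a; 0, (a ^ 2)⁻¹, 0; 0, 0, a]

def sLit (a : F) : Matrix (Fin 3) (Fin 3) F := !![a, 0, 0; 0, (a ^ 2)⁻¹, 0; 0, 0, a]

def tLit (a : F) : Matrix (Fin 3) (Fin 3) F := !![1, 0, del a; 0, 1, 0; 0, 0, 1]

lemma uLit_conj (a : F) (h0 : a ≠ 0) (hp : a + 1 ≠ 0) (hm : a - 1 ≠ 0) :
    uLit a * gMat a * uLit a = jLit a * gMat a := by
  ext i j
  fin_cases i <;> fin_cases j <;>
    simp only [uLit, gMat, jLit, Matrix.mul_apply, Fin.sum_univ_three, Matrix.of_apply, Matrix.cons_val',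
      Matrix.cons_val_zero, Matrix.cons_val_one, Matrix.cons_val, Fin.zero_eta, Fin.mk_one, Fin.reduceFinMk,
      Matrix.empty_val', Matrix.cons_val_fin_one]
  · exact conj_00 a h0 hp hm
  · exact conj_01 a h0 hp hm
  · exact conj_02 a h0 hp hm
  · exact conj_10 a h0 hp hm
  · exact conj_11 a h0 hp hm
  · exact conj_12 a h0 hp hm
  · exact conj_20 a h0 hp hm
  · exact conj_21 a h0 hp hm
  · exact conj_22 a h0 hp hm

lemma det_gMat (a : F) (h0 : a ≠ 0) (hp : a + 1 ≠ 0) (hm : a - 1 ≠ 0) : (gMat a).det = 1 := by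
  rw [gMat, Matrix.det_fin_three]
  simp only [Matrix.of_apply, Matrix.cons_val', Matrix.cons_val_zero, Matrix.cons_val_one, Matrix.cons_val,
    Matrix.empty_val', Matrix.cons_val_fin_one, g00, g01, g10, g11, g20, g21, g22]
  field_simp
  ring

section sigma

variable {σ : F →+* F} {a : F}

lemma map_g00 (σ : F →+* F) (a : F) : σ (g00 a) = g00 (σ a) := by simp [g00, map_div₀, map_ofNat]
lemma map_g01 (σ : F →+* F) (a : F) : σ (g01 a) = g01 (σ a) := by simp [g01, map_div₀, map_ofNat]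
lemma map_g10 (σ : F →+* F) (a : F) : σ (g10 a) = g10 (σ a) := by simp [g10, map_div₀, map_ofNat]
lemma map_g11 (σ : F →+* F) (a : F) : σ (g11 a) = g11 (σ a) := by simp [g11, map_div₀, map_ofNat]
lemma map_g20 (σ : F →+* F) (a : F) : σ (g20 a) = g20 (σ a) := by simp [g20, map_div₀, map_ofNat]
lemma map_g21 (σ : F →+* F) (a : F) : σ (g21 a) = g21 (σ a) := by simp [g21, map_div₀, map_ofNat]
lemma map_g22 (σ : F →+* F) (a : F) : σ (g22 a) = g22 (σ a) := by simp [g22, map_div₀, map_ofNat]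

lemma iso_gMat (hσa : σ a = a⁻¹) (h0 : a ≠ 0) (hp : a + 1 ≠ 0) (hm : a - 1 ≠ 0) : IsoG σ (gMat a) := by
  have hp' : 1 + a ≠ 0 := by rwa [add_comm]
  have hm' : 1 - a ≠ 0 := by
    intro h
    apply hm
    linear_combination -h
  apply isoG_of_gram <;>
  simp only [gMat, Matrix.of_apply, Matrix.cons_val', Matrix.cons_val_zero, Matrix.cons_val_one, Matrix.cons_val,
    Matrix.empty_val', Matrix.cons_val_fin_one, map_g00, map_g01, map_g10, map_g11, map_g20, map_g21, map_g22,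
    hσa, map_neg, map_one]
  · exact gram_00 a h0 hp hm hp' hm'
  · exact gram_01 a h0 hp hm hp' hm'
  · exact gram_02 a h0 hp hm hp' hm'
  · exact gram_10 a h0 hp hm hp' hm'
  · exact gram_11 a h0 hp hm hp' hm'
  · exact gram_12 a h0 hp hm hp' hm'
  · exact gram_20 a h0 hp hm hp' hm'
  · exact gram_21 a h0 hp hm hp' hm'
  · exact gram_22 a h0 hp hm hp' hm'

lemma map_del (hσa : σ a = a⁻¹) (h0 : a ≠ 0) : σ (del a) = - del a := by
  simp only [del, map_div₀, map_sub, map_pow, map_one, hσa]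
  field_simp
  ring

lemma trace_f0 (hσa : σ a = a⁻¹) (h0 : a ≠ 0) (hp : a + 1 ≠ 0) (hm : a - 1 ≠ 0) :
    f0 a + σ (f0 a) + del a * σ (del a) = 0 := by
  have hp' : 1 + a ≠ 0 := by rwa [add_comm]
  rw [map_del hσa h0]
  simp only [f0, del, map_div₀, map_mul, map_add, map_sub, map_one, map_ofNat, hσa]
  field_simp
  ring

lemma xMat_eq_uLit (hσa : σ a = a⁻¹) (h0 : a ≠ 0) : xMat σ (del a) (f0 a) = uLit a := by
  rw [xMat, uLit, map_del hσa h0, neg_neg]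

lemma iso_xMat (hσ : ∀ x, σ (σ x) = x) {b f : F} (h : f + σ f + b * σ b = 0) : IsoG σ (xMat σ b f) := by
  apply isoG_of_gram <;>
  simp [xMat, hσ]
  linear_combination h

lemma det_xMat (b f : F) : (xMat σ b f).det = 1 := by
  rw [xMat, Matrix.det_fin_three]
  simp

/-- The group element. -/
def xEl (σ : F →+* F) (b f : F) : SpecialLinearGroup (Fin 3) F := ⟨xMat σ b f, det_xMat b f⟩

lemma xMat_sub_one_sq (b f : F) : (xMat σ b f - 1) ^ 2 = !![0, 0, 0; 0, 0, 0; - (σ b * b), 0, 0] := by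
  rw [pow_two]
  ext i j
  fin_cases i <;> fin_cases j <;> simp [xMat, Matrix.mul_apply, Fin.sum_univ_three, Matrix.one_apply]

lemma xMat_sub_one_cube (b f : F) : (xMat σ b f - 1) ^ 3 = 0 := by
  rw [pow_succ, xMat_sub_one_sq]
  ext i j
  fin_cases i <;> fin_cases j <;> simp [xMat, Matrix.mul_apply, Fin.sum_univ_three, Matrix.one_apply]

lemma xMat_sub_one_sq_ne (b f : F) (hb : b ≠ 0) : (xMat σ b f - 1) ^ 2 ≠ 0 := by
  rw [xMat_sub_one_sq]
  intro h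
  have h1 := congrFun (congrFun h 2) 0
  simp at h1
  tauto

variable (σ) in
/-- The additive group of first parameters. -/
def bSet (H : Subgroup (SpecialLinearGroup (Fin 3) F)) : AddSubgroup F where
  carrier := {b | ∃ f, Q H (xMat σ b f)}
  add_mem' := by
    rintro b b' ⟨f, hf⟩ ⟨f', hf'⟩
    exact ⟨_, hf.mul hf' (xMat_mul b f b' f')⟩
  zero_mem' := by
    refine ⟨0, 1, H.one_mem, ?_⟩
    ext i j
    fin_cases i <;> fin_cases j <;> simp [xMat, Matrix.one_apply]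
  neg_mem' := by
    rintro b ⟨f, hf⟩
    refine ⟨- f - b * σ b, Q.ldiv hf ⟨1, H.one_mem, rfl⟩ ?_⟩
    rw [xMat_mul]
    ext i j
    fin_cases i <;> fin_cases j <;> simp [xMat, Matrix.one_apply]
    ring

/-- Stability of `bSet` under lower triangular elements. -/
lemma bSet_stable {H : Subgroup (SpecialLinearGroup (Fin 3) F)} {t t' t'' p r s : F}
    (hW : Q H !![t, 0, 0; p, t', 0; r, s, t'']) (ht : t ≠ 0) (ht' : t' ≠ 0) (hst : σ t ≠ 0)
    (hrel : t' * σ t' = t'' * σ t) {b : F} (hb : b ∈ bSet σ H) : t' / t * b ∈ bSet σ H := by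
  obtain ⟨f, hf⟩ := hb
  refine ⟨(s * b + t'' * f + σ (t' / t * b) * p) / t, Q.conj hW hf ?_⟩
  have h1 : σ (t' / t * b) = σ t' / σ t * σ b := by simp [map_div₀]
  rw [h1]
  ext i j
  fin_cases i <;> fin_cases j <;> simp [xMat, Matrix.mul_apply, Fin.sum_univ_three]
  · field_simp
    ring
  · field_simp
    ring
  · field_simp
    linear_combination (-(σ b)) * hrel

end sigma

section main

variable [Fintype F] {q : ℕ} (hF : Fintype.card F = q ^ 2)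

open Cfsg.Agent.Lib.HermCount.Field Cfsg.Agent.Lib.RegUnip.Jordan Cfsg.Agent.Lib.Classical.HermBridge

/-- The main design theorem. -/
theorem design_main (hq : 3 ≤ q) {a : F} (h0 : a ≠ 0) (hp : a + 1 ≠ 0) (hm : a - 1 ≠ 0)
    (hσa : frobHom hF a = a⁻¹)
    (hB : ∀ H : Subgroup (SpecialLinearGroup (Fin 3) F), (∀ g ∈ H, IsoG (frobHom hF) (g : Matrix (Fin 3) (Fin 3) F)) →
      Q H (tLit a) → Q H (sLit a) → Q H (uLit a) → bSet (frobHom hF) H = ⊤) :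
    ∃ u g : ↥(Cfsg.SU 3 F q), (IsNilpotent (((u : Matrix.SpecialLinearGroup (Fin 3) F) : Matrix (Fin 3) (Fin 3) F) - 1) ∧ (((u : Matrix.SpecialLinearGroup (Fin 3) F) : Matrix (Fin 3) (Fin 3) F) - 1) ^ (3 - 1) ≠ 0) ∧
      Subgroup.closure ({u, g * u * g⁻¹} : Set ↥(Cfsg.SU 3 F q)) = ⊤ := by
  have hσ : ∀ x, frobHom hF (frobHom hF x) = x := frob_frob hF
  have hdel : del a ≠ 0 := by
    apply div_ne_zero _ h0
    have : a ^ 2 - 1 = (a + 1) * (a - 1) := by ring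
    rw [this]
    exact mul_ne_zero hp hm
  let U₀ : SpecialLinearGroup (Fin 3) F := xEl (frobHom hF) (del a) (f0 a)
  let G₀ : SpecialLinearGroup (Fin 3) F := ⟨gMat a, det_gMat a h0 hp hm⟩
  refine Cfsg.Agent.Lib.RegUnip.SU3Trans.transport hF hq U₀ G₀
    (iso_xMat hσ (trace_f0 hσa h0 hp hm)) (iso_gMat hσa h0 hp hm) (xMat_sub_one_cube _ _)
    (xMat_sub_one_sq_ne _ _ hdel) ?_
  intro H hiso hU hV y c hy hc
  have hUv : Q H (uLit a) := ⟨U₀, hU, xMat_eq_uLit hσa h0⟩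
  -- the element `J`
  have hJv : ((U₀ * (G₀ * U₀ * G₀⁻¹) : SpecialLinearGroup (Fin 3) F) : Matrix (Fin 3) (Fin 3) F) = jLit a := by
    apply cancel_right_val G₀
    have h1 : ((U₀ * (G₀ * U₀ * G₀⁻¹) : SpecialLinearGroup (Fin 3) F) : Matrix (Fin 3) (Fin 3) F) * (G₀ : Matrix (Fin 3) (Fin 3) F)
        = (U₀ : Matrix (Fin 3) (Fin 3) F) * (G₀ : Matrix (Fin 3) (Fin 3) F) * (U₀ : Matrix (Fin 3) (Fin 3) F) := by
      rw [← coe_mul, mul_assoc, inv_mul_cancel_right, coe_mul, coe_mul, Matrix.mul_assoc]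
    rw [h1]
    have h2 : (U₀ : Matrix (Fin 3) (Fin 3) F) = uLit a := xMat_eq_uLit hσa h0
    rw [h2]
    exact uLit_conj a h0 hp hm
  have hJH : U₀ * (G₀ * U₀ * G₀⁻¹) ∈ H := H.mul_mem hU hV
  have hs2 : (a ^ 2)⁻¹ ≠ 0 := inv_ne_zero (pow_ne_zero 2 h0)
  have hj := jordan_power (D := Matrix.diagonal ![a, (a ^ 2)⁻¹, a]) (c := ![del a, 0, 0]) (φ := ![0, 0, 1]) hJH
    (by simp [dotProduct, Fin.sum_univ_three])
    (diagonal_pow_card_sub_one (by
      intro i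
      fin_cases i <;> simp [h0]))
    (by
      ext i j
      fin_cases i <;> fin_cases j <;> simp [Matrix.mul_apply, Fin.sum_univ_three, vecMulVec_apply, Matrix.diagonal_apply]
      ring)
    (by
      rw [hJv]
      ext i j
      fin_cases i <;> fin_cases j <;> simp [jLit, Matrix.mul_apply, Fin.sum_univ_three, vecMulVec_apply, Matrix.diagonal_apply, Matrix.one_apply])
  obtain ⟨hPT, hQS⟩ := hj
  have hSv : Q H (sLit a) := by
    obtain ⟨g, hg, hgv⟩ := hQS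
    refine ⟨g, hg, hgv.trans ?_⟩
    ext i j
    fin_cases i <;> fin_cases j <;> simp [sLit, Matrix.diagonal_apply]
  have hTT : TT (frobHom hF) H ![1, 0, 0] (del a) := by
    refine P.congr hPT ?_
    have h1 : (del a) • (![1, 0, 0] : Fin 3 → F) = ![del a, 0, 0] := by
      funext i; fin_cases i <;> simp
    have h2 : phiG (frobHom hF) (![1, 0, 0] : Fin 3 → F) = ![0, 0, 1] := by
      funext i; fin_cases i <;> simp [-frobHom_apply, phiG]
    rw [h1, h2]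
  have hTv : Q H (tLit a) := by
    obtain ⟨g, hg, hgv⟩ := hPT
    refine ⟨g, hg, hgv.trans ?_⟩
    ext i j
    fin_cases i <;> fin_cases j <;> simp [tLit, vecMulVec_apply, Matrix.one_apply]
  have hBt := hB H hiso hTv hSv hUv
  refine TT_all hσ (fun d hd => (invol_frob hF).exists_sub_eq d hd) hiso hdel ?_ hTT ?_ hy hc
  · rw [map_del hσa h0]
    ring
  · intro b
    have : b ∈ bSet (frobHom hF) H := by rw [hBt]; trivial
    exact this

/-- `del a` lies in `bSet`. -/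
lemma del_mem {H : Subgroup (SpecialLinearGroup (Fin 3) F)} {a : F} (hσa : frobHom hF a = a⁻¹) (h0 : a ≠ 0)
    (hU : Q H (uLit a)) : del a ∈ bSet (frobHom hF) H :=
  ⟨f0 a, by rwa [xMat_eq_uLit hσa h0]⟩

/-- Stability under `S`. -/
lemma bSet_stable_S {H : Subgroup (SpecialLinearGroup (Fin 3) F)} {a : F} (hσa : frobHom hF a = a⁻¹) (h0 : a ≠ 0)
    (hS : Q H (sLit a)) {b : F} (hb : b ∈ bSet (frobHom hF) H) : (a ^ 3)⁻¹ * b ∈ bSet (frobHom hF) H := by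
  have h1 := bSet_stable (σ := frobHom hF) (t := a) (t' := (a ^ 2)⁻¹) (t'' := a) (p := 0) (r := 0) (s := 0) hS h0
    (inv_ne_zero (pow_ne_zero 2 h0)) (by rw [hσa]; exact inv_ne_zero h0)
    (by
      simp only [map_inv₀, map_pow, hσa]
      field_simp) hb
  have h2 : (a ^ 2)⁻¹ / a = (a ^ 3)⁻¹ := by
    field_simp
  rwa [h2] at h1

include hF in
/-- The generic case of the statement. -/
theorem su3_generic (hq : 3 ≤ q) (h5 : q ≠ 5) (h8 : q ≠ 8) :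
    ∃ u g : ↥(Cfsg.SU 3 F q), (IsNilpotent (((u : Matrix.SpecialLinearGroup (Fin 3) F) : Matrix (Fin 3) (Fin 3) F) - 1) ∧ (((u : Matrix.SpecialLinearGroup (Fin 3) F) : Matrix (Fin 3) (Fin 3) F) - 1) ^ (3 - 1) ≠ 0) ∧
      Subgroup.closure ({u, g * u * g⁻¹} : Set ↥(Cfsg.SU 3 F q)) = ⊤ := by
  obtain ⟨a, h0, ha1, ha⟩ := Cfsg.Agent.Lib.RegUnip.SU3Field.exists_mu hF (by omega)
  have hσa : frobHom hF a = a⁻¹ := by
    rw [frobHom_apply]
    field_simp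
    rw [← pow_succ, ha1]
  have hm : a - 1 ≠ 0 := by
    intro h
    have h1 : a ^ 1 = 1 := by rw [pow_one]; linear_combination h
    have := Nat.le_of_dvd (by norm_num) (ha 1 h1)
    omega
  have hp : a + 1 ≠ 0 := by
    intro h
    have h1 : a ^ 2 = 1 := by linear_combination (a - 1) * h
    have := Nat.le_of_dvd (by norm_num) (ha 2 h1)
    omega
  have hdel : del a ≠ 0 := by
    apply div_ne_zero _ h0
    have : a ^ 2 - 1 = (a + 1) * (a - 1) := by ring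
    rw [this]
    exact mul_ne_zero hp hm
  refine design_main hF hq h0 hp hm hσa ?_
  intro H hiso hT hS hU
  exact Cfsg.Agent.Lib.RegUnip.SU3Field.top_generic hF hq h5 h8 _ hdel (del_mem hF hσa h0 hU) h0 ha
    (fun x hx => bSet_stable_S hF hσa h0 hS hx)

end main

end Cfsg.Agent.Lib.RegUnip.SU3Design
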