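import Cfsg.Agent.Lib.RegUnip.Design3

/-!
# Two conjugate regular unipotent generators of `SL₃(F)` for `F` of prime order, and for `|F| = 4`.
-/

set_option autoImplicit false
set_option maxHeartbeats 2000000
set_option linter.unusedSectionVars false
set_option linter.unusedSimpArgs false
set_option linter.style.longLine false
set_option linter.unusedVariables false

namespace Cfsg.Agent.Lib.RegUnip.Small3

open Matrix Matrix.SpecialLinearGroup
open Cfsg.Agent.Lib.RegUnip.Basic Cfsg.Agent.Lib.RegUnip.Roots Cfsg.Agent.Lib.RegUnip.Words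
  Cfsg.Agent.Lib.RegUnip.Design3

variable {F : Type*} [Field F]

lemma mat3_ext {a b c d e f g h i a' b' c' d' e' f' g' h' i' : F}
    (h₁ : a = a') (h₂ : b = b') (h₃ : c = c') (h₄ : d = d') (h₅ : e = e') (h₆ : f = f')
    (h₇ : g = g') (h₈ : h = h') (h₉ : i = i') :
    (!![a, b, c; d, e, f; g, h, i] : Matrix (Fin 3) (Fin 3) F) = !![a', b', c'; d', e', f'; g', h', i'] := by
  rw [h₁, h₂, h₃, h₄, h₅, h₆, h₇, h₈, h₉]

lemma one_eq3 : (1 : Matrix (Fin 3) (Fin 3) F) = !![1, 0, 0; 0, 1, 0; 0, 0, 1] := by
  ext i j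
  fin_cases i <;> fin_cases j <;> simp

variable {H : Subgroup (SpecialLinearGroup (Fin 3) F)}

lemma Q_one : Q H (!![1, 0, 0; 0, 1, 0; 0, 0, 1] : Matrix (Fin 3) (Fin 3) F) :=
  ⟨1, H.one_mem, by rw [coe_one, one_eq3]⟩

lemma R_of_Q {M : Matrix (Fin 3) (Fin 3) F} {i j : ℕ} {t : F} (h : Q H M)
    (he : M = 1 + vecMulVec (eV i) (t • eV j)) : R H i j t := by
  obtain ⟨g, hg, hv⟩ := h
  exact ⟨g, hg, hv.trans he⟩

lemma Q_of_R {i j : ℕ} {t : F} {M : Matrix (Fin 3) (Fin 3) F} (h : R H i j t)
    (he : M = 1 + vecMulVec (eV i) (t • eV j)) : Q H M := by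
  obtain ⟨g, hg, hv⟩ := h
  exact ⟨g, hg, hv.trans he.symm⟩

/-- Entries of root elements. -/
lemma root_lit (i j : ℕ) (hi : i < 3) (hj : j < 3) (t : F) (M : Matrix (Fin 3) (Fin 3) F)
    (hM : ∀ p q : Fin 3, M p q = (if (p : ℕ) = (q : ℕ) then 1 else 0) + (if (p : ℕ) = i ∧ (q : ℕ) = j then t else 0)) :
    M = 1 + vecMulVec (eV i) (t • eV j) := by
  ext p q
  rw [hM p q]
  simp only [Matrix.add_apply, Matrix.one_apply, vecMulVec_apply, Pi.smul_apply, smul_eq_mul, eV_apply, Fin.ext_iff]
  congr 1
  by_cases h1 : (p : ℕ) = i <;> by_cases h2 : (q : ℕ) = j <;> simp [h1, h2]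

/-- Generation in the case of a prime field. -/
theorem top_prime3 [Fintype F] (hp : (Fintype.card F).Prime)
    (hu : Q H (!![1, 1, 1; 0, 1, 1; 0, 0, 1] : Matrix (Fin 3) (Fin 3) F))
    (hv : Q H (!![1, 0, 0; -1, 1, 1; -1, 0, 1] : Matrix (Fin 3) (Fin 3) F)) : H = ⊤ := by
  have h_u := hu
  have h_v := hv
  have h_U : Q H (!![1, -1, 0; 0, 1, -1; 0, 0, 1] : Matrix (Fin 3) (Fin 3) F) :=
    Q.ldiv h_u Q_one (by rw [Matrix.mul_fin_three]; exact mat3_ext (by ring) (by ring) (by ring) (by ring) (by ring) (by ring) (by ring) (by ring) (by ring))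
  have h_V : Q H (!![1, 0, 0; 0, 1, -1; 1, 0, 1] : Matrix (Fin 3) (Fin 3) F) :=
    Q.ldiv h_v Q_one (by rw [Matrix.mul_fin_three]; exact mat3_ext (by ring) (by ring) (by ring) (by ring) (by ring) (by ring) (by ring) (by ring) (by ring))
  have w0 : Q H (!![-1, 1, 2; -2, 1, 2; -1, 0, 1] : Matrix (Fin 3) (Fin 3) F) :=
    Q.mul h_u h_v (by rw [Matrix.mul_fin_three]; exact mat3_ext (by ring) (by ring) (by ring) (by ring) (by ring) (by ring) (by ring) (by ring) (by ring))
  have w1 : Q H (!![-1, 0, 2; -2, -1, 1; -1, -1, 0] : Matrix (Fin 3) (Fin 3) F) :=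
    Q.mul w0 h_u (by rw [Matrix.mul_fin_three]; exact mat3_ext (by ring) (by ring) (by ring) (by ring) (by ring) (by ring) (by ring) (by ring) (by ring))
  have w2 : Q H (!![-3, 0, 2; -2, -1, 0; 0, -1, -1] : Matrix (Fin 3) (Fin 3) F) :=
    Q.mul w1 h_v (by rw [Matrix.mul_fin_three]; exact mat3_ext (by ring) (by ring) (by ring) (by ring) (by ring) (by ring) (by ring) (by ring) (by ring))
  have w3 : Q H (!![-3, 3, 2; -2, 1, 1; 0, -1, 0] : Matrix (Fin 3) (Fin 3) F) :=
    Q.mul w2 h_U (by rw [Matrix.mul_fin_three]; exact mat3_ext (by ring) (by ring) (by ring) (by ring) (by ring) (by ring) (by ring) (by ring) (by ring))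
  have w4 : Q H (!![-1, 3, -1; -1, 1, 0; 0, -1, 1] : Matrix (Fin 3) (Fin 3) F) :=
    Q.mul w3 h_V (by rw [Matrix.mul_fin_three]; exact mat3_ext (by ring) (by ring) (by ring) (by ring) (by ring) (by ring) (by ring) (by ring) (by ring))
  have w5 : Q H (!![-1, 2, 1; -1, 0, 0; 0, -1, 0] : Matrix (Fin 3) (Fin 3) F) :=
    Q.mul w4 h_u (by rw [Matrix.mul_fin_three]; exact mat3_ext (by ring) (by ring) (by ring) (by ring) (by ring) (by ring) (by ring) (by ring) (by ring))
  have w6 : Q H (!![-1, 1, 2; -1, -1, -1; 0, -1, -1] : Matrix (Fin 3) (Fin 3) F) :=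
    Q.mul w5 h_u (by rw [Matrix.mul_fin_three]; exact mat3_ext (by ring) (by ring) (by ring) (by ring) (by ring) (by ring) (by ring) (by ring) (by ring))
  have w7 : Q H (!![1, 1, 1; -2, -1, 0; -1, -1, 0] : Matrix (Fin 3) (Fin 3) F) :=
    Q.mul w6 h_V (by rw [Matrix.mul_fin_three]; exact mat3_ext (by ring) (by ring) (by ring) (by ring) (by ring) (by ring) (by ring) (by ring) (by ring))
  have w8 : Q H (!![1, 0, 0; -2, 1, 1; -1, 0, 1] : Matrix (Fin 3) (Fin 3) F) :=
    Q.mul w7 h_U (by rw [Matrix.mul_fin_three]; exact mat3_ext (by ring) (by ring) (by ring) (by ring) (by ring) (by ring) (by ring) (by ring) (by ring))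
  have w9 : Q H (!![1, 0, 0; -1, 1, 0; 0, 0, 1] : Matrix (Fin 3) (Fin 3) F) :=
    Q.mul w8 h_V (by rw [Matrix.mul_fin_three]; exact mat3_ext (by ring) (by ring) (by ring) (by ring) (by ring) (by ring) (by ring) (by ring) (by ring))
  have y0 : Q H (!![2, 1, 0; 1, 1, 0; 1, 0, 1] : Matrix (Fin 3) (Fin 3) F) :=
    Q.mul h_u h_V (by rw [Matrix.mul_fin_three]; exact mat3_ext (by ring) (by ring) (by ring) (by ring) (by ring) (by ring) (by ring) (by ring) (by ring))
  have y1 : Q H (!![2, -1, -1; 1, 0, -1; 1, -1, 1] : Matrix (Fin 3) (Fin 3) F) :=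
    Q.mul y0 h_U (by rw [Matrix.mul_fin_three]; exact mat3_ext (by ring) (by ring) (by ring) (by ring) (by ring) (by ring) (by ring) (by ring) (by ring))
  have y2 : Q H (!![1, -1, 0; 0, 0, -1; 2, -1, 2] : Matrix (Fin 3) (Fin 3) F) :=
    Q.mul y1 h_V (by rw [Matrix.mul_fin_three]; exact mat3_ext (by ring) (by ring) (by ring) (by ring) (by ring) (by ring) (by ring) (by ring) (by ring))
  have y3 : Q H (!![1, -2, 1; 0, 0, -1; 2, -3, 3] : Matrix (Fin 3) (Fin 3) F) :=
    Q.mul y2 h_U (by rw [Matrix.mul_fin_three]; exact mat3_ext (by ring) (by ring) (by ring) (by ring) (by ring) (by ring) (by ring) (by ring) (by ring))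
  have y4 : Q H (!![2, -2, -1; 1, 0, -1; 2, -3, 0] : Matrix (Fin 3) (Fin 3) F) :=
    Q.mul y3 h_v (by rw [Matrix.mul_fin_three]; exact mat3_ext (by ring) (by ring) (by ring) (by ring) (by ring) (by ring) (by ring) (by ring) (by ring))
  have y5 : Q H (!![2, 0, -1; 1, 1, 0; 2, -1, -1] : Matrix (Fin 3) (Fin 3) F) :=
    Q.mul y4 h_u (by rw [Matrix.mul_fin_three]; exact mat3_ext (by ring) (by ring) (by ring) (by ring) (by ring) (by ring) (by ring) (by ring) (by ring))
  have y6 : Q H (!![1, 0, -1; 1, 1, -1; 1, -1, 0] : Matrix (Fin 3) (Fin 3) F) :=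
    Q.mul y5 h_V (by rw [Matrix.mul_fin_three]; exact mat3_ext (by ring) (by ring) (by ring) (by ring) (by ring) (by ring) (by ring) (by ring) (by ring))
  have y7 : Q H (!![0, 0, -1; 0, 1, -2; 1, -1, 1] : Matrix (Fin 3) (Fin 3) F) :=
    Q.mul y6 h_V (by rw [Matrix.mul_fin_three]; exact mat3_ext (by ring) (by ring) (by ring) (by ring) (by ring) (by ring) (by ring) (by ring) (by ring))
  have y8 : Q H (!![0, 0, -1; 0, 1, -1; 1, 0, 1] : Matrix (Fin 3) (Fin 3) F) :=
    Q.mul y7 h_u (by rw [Matrix.mul_fin_three]; exact mat3_ext (by ring) (by ring) (by ring) (by ring) (by ring) (by ring) (by ring) (by ring) (by ring))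
  have y9 : Q H (!![1, 0, -1; 0, 1, 0; 0, 0, 1] : Matrix (Fin 3) (Fin 3) F) :=
    Q.mul y8 h_v (by rw [Matrix.mul_fin_three]; exact mat3_ext (by ring) (by ring) (by ring) (by ring) (by ring) (by ring) (by ring) (by ring) (by ring))
  have r10 : R H 1 0 (-1) := R_of_Q w9 (root_lit 1 0 (by omega) (by omega) _ _ (by
    intro p q; fin_cases p <;> fin_cases q <;> simp))
  have r02 : R H 0 2 (-1) := R_of_Q y9 (root_lit 0 2 (by omega) (by omega) _ _ (by
    intro p q; fin_cases p <;> fin_cases q <;> simp))
  have r12 : R H 1 2 1 := by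
    simpa using R.comp (by omega) (by omega) r10 r02
  have q12 : Q H (!![1, 0, 0; 0, 1, 1; 0, 0, 1] : Matrix (Fin 3) (Fin 3) F) :=
    Q_of_R r12 (root_lit 1 2 (by omega) (by omega) _ _ (by
      intro p q; fin_cases p <;> fin_cases q <;> simp))
  have q01 : Q H (!![1, 1, 0; 0, 1, 0; 0, 0, 1] : Matrix (Fin 3) (Fin 3) F) :=
    Q.rdiv q12 h_u (by rw [Matrix.mul_fin_three]; exact mat3_ext (by ring) (by ring) (by ring) (by ring) (by ring) (by ring) (by ring) (by ring) (by ring))
  have r01 : R H 0 1 1 := R_of_Q q01 (root_lit 0 1 (by omega) (by omega) _ _ (by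
    intro p q; fin_cases p <;> fin_cases q <;> simp))
  have q20 : Q H (!![1, 0, 0; 0, 1, 0; -1, 0, 1] : Matrix (Fin 3) (Fin 3) F) :=
    Q.ldiv q12 h_v (by rw [Matrix.mul_fin_three]; exact mat3_ext (by ring) (by ring) (by ring) (by ring) (by ring) (by ring) (by ring) (by ring) (by ring))
  have r20 : R H 2 0 (-1) := R_of_Q q20 (root_lit 2 0 (by omega) (by omega) _ _ (by
    intro p q; fin_cases p <;> fin_cases q <;> simp))
  have r21 : R H 2 1 (-1) := by
    simpa using R.comp (by omega) (by omega) r20 r01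
  have hm1 : (-1 : F) ≠ 0 := neg_ne_zero.mpr one_ne_zero
  refine eq_top_of_full (by omega) ?_ (i₀ := 1) (j₀ := 0) (by omega) (by omega) (by omega)
    (Full.of_prime hp hm1 r10)
  intro i j hi hj hij
  have hi' : i = 0 ∨ i = 1 ∨ i = 2 := by omega
  have hj' : j = 0 ∨ j = 1 ∨ j = 2 := by omega
  rcases hi' with rfl | rfl | rfl <;> rcases hj' with rfl | rfl | rfl <;> first
    | exact absurd rfl hij
    | exact ⟨_, one_ne_zero, r01⟩
    | exact ⟨_, one_ne_zero, r12⟩
    | exact ⟨_, hm1, r02⟩
    | exact ⟨_, hm1, r10⟩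
    | exact ⟨_, hm1, r20⟩
    | exact ⟨_, hm1, r21⟩

lemma X0_pow_three : (!![0, 1, 1; 0, 0, 1; 0, 0, 0] : Matrix (Fin 3) (Fin 3) F) ^ 3 = 0 := by
  ext i j
  fin_cases i <;> fin_cases j <;> simp [pow_succ, Matrix.mul_apply, Fin.sum_univ_succ]

lemma X0_sq : ((!![0, 1, 1; 0, 0, 1; 0, 0, 0] : Matrix (Fin 3) (Fin 3) F) ^ 2) 0 2 = 1 := by
  simp [pow_succ, Matrix.mul_apply, Fin.sum_univ_succ]

lemma U0_sub : (!![1, 1, 1; 0, 1, 1; 0, 0, 1] : Matrix (Fin 3) (Fin 3) F) - 1 = !![0, 1, 1; 0, 0, 1; 0, 0, 0] := by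
  ext i j
  fin_cases i <;> fin_cases j <;> simp

/-- Two conjugate regular unipotent generators of `SL₃(F)`, `F` of prime order. -/
theorem prime3 [Fintype F] (hp : (Fintype.card F).Prime) : Goal3 F := by
  let u : SpecialLinearGroup (Fin 3) F := ⟨!![1, 1, 1; 0, 1, 1; 0, 0, 1], by
    simp [Matrix.det_fin_three]⟩
  let v : SpecialLinearGroup (Fin 3) F := ⟨!![1, 0, 0; -1, 1, 1; -1, 0, 1], by
    simp [Matrix.det_fin_three]⟩
  let g : SpecialLinearGroup (Fin 3) F := ⟨!![0, 0, 1; -1, 0, 0; 0, -1, 0], by
    simp [Matrix.det_fin_three]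
    try ring⟩
  have hgu : g * u = v * g := by
    apply Subtype.ext
    show (g : Matrix (Fin 3) (Fin 3) F) * (u : Matrix (Fin 3) (Fin 3) F) = (v : Matrix (Fin 3) (Fin 3) F) * (g : Matrix (Fin 3) (Fin 3) F)
    show (!![0, 0, 1; -1, 0, 0; 0, -1, 0] : Matrix (Fin 3) (Fin 3) F) * !![1, 1, 1; 0, 1, 1; 0, 0, 1] = !![1, 0, 0; -1, 1, 1; -1, 0, 1] * !![0, 0, 1; -1, 0, 0; 0, -1, 0]
    rw [Matrix.mul_fin_three, Matrix.mul_fin_three]
    exact mat3_ext (by ring) (by ring) (by ring) (by ring) (by ring) (by ring) (by ring) (by ring) (by ring)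
  have hconj : g * u * g⁻¹ = v := by rw [hgu, mul_inv_cancel_right]
  refine ⟨u, g, ?_, ?_, ?_⟩
  · show IsNilpotent ((!![1, 1, 1; 0, 1, 1; 0, 0, 1] : Matrix (Fin 3) (Fin 3) F) - 1)
    rw [U0_sub]
    exact ⟨3, X0_pow_three⟩
  · show ((!![1, 1, 1; 0, 1, 1; 0, 0, 1] : Matrix (Fin 3) (Fin 3) F) - 1) ^ (3 - 1) ≠ 0
    rw [U0_sub]
    intro h0
    have h1 := X0_sq (F := F)
    rw [show (3 - 1 : ℕ) = 2 from rfl] at h0
    rw [h0] at h1
    exact zero_ne_one h1
  · rw [hconj]
    exact top_prime3 hp ⟨u, Subgroup.subset_closure (by simp), rfl⟩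
      ⟨v, Subgroup.subset_closure (by simp), rfl⟩

section four
variable {ω : F}

/-- Generation in the case of the field with four elements. -/
theorem top_four (h2 : (2 : F) = 0) (hw : ω ^ 2 + ω + 1 = 0)
    (hF : ∀ t : F, t = 0 ∨ t = 1 ∨ t = ω ∨ t = ω + 1)
    (hu : Q H (!![1, 1, 1; 0, 1, 1; 0, 0, 1] : Matrix (Fin 3) (Fin 3) F))
    (hv : Q H (!![1, 0, 0; ω + 1, 1, ω; ω, 0, 1] : Matrix (Fin 3) (Fin 3) F)) : H = ⊤ := by
  have h_u := hu
  have h_v := hv
  have h_U : Q H (!![1, 1, 0; 0, 1, 1; 0, 0, 1] : Matrix (Fin 3) (Fin 3) F) :=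
    Q.ldiv h_u Q_one (by
      rw [Matrix.mul_fin_three]
      exact mat3_ext
        (by linear_combination (0) * hw + (0) * h2)
        (by linear_combination (0) * hw + ((1)) * h2)
        (by linear_combination (0) * hw + ((1)) * h2)
        (by linear_combination (0) * hw + (0) * h2)
        (by linear_combination (0) * hw + (0) * h2)
        (by linear_combination (0) * hw + ((1)) * h2)
        (by linear_combination (0) * hw + (0) * h2)
        (by linear_combination (0) * hw + (0) * h2)
        (by linear_combination (0) * hw + (0) * h2))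
  have h_V : Q H (!![1, 0, 0; 0, 1, ω; ω, 0, 1] : Matrix (Fin 3) (Fin 3) F) :=
    Q.ldiv h_v Q_one (by
      rw [Matrix.mul_fin_three]
      exact mat3_ext
        (by linear_combination (0) * hw + (0) * h2)
        (by linear_combination (0) * hw + (0) * h2)
        (by linear_combination (0) * hw + (0) * h2)
        (by linear_combination ((1)) * hw + (0) * h2)
        (by linear_combination (0) * hw + (0) * h2)
        (by linear_combination (0) * hw + ((1) * ω ^ 1) * h2)
        (by linear_combination (0) * hw + ((1) * ω ^ 1) * h2)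
        (by linear_combination (0) * hw + (0) * h2)
        (by linear_combination (0) * hw + (0) * h2))
  have w0 : Q H (!![1, 1, 1; ω + 1, ω, 0; ω, ω, ω + 1] : Matrix (Fin 3) (Fin 3) F) :=
    Q.mul h_v h_u (by
      rw [Matrix.mul_fin_three]
      exact mat3_ext
        (by linear_combination (0) * hw + (0) * h2)
        (by linear_combination (0) * hw + (0) * h2)
        (by linear_combination (0) * hw + (0) * h2)
        (by linear_combination (0) * hw + (0) * h2)
        (by linear_combination (0) * hw + ((1)) * h2)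
        (by linear_combination (0) * hw + ((1) + (1) * ω ^ 1) * h2)
        (by linear_combination (0) * hw + (0) * h2)
        (by linear_combination (0) * hw + (0) * h2)
        (by linear_combination (0) * hw + (0) * h2))
  have w1 : Q H (!![0, 1, ω + 1; ω, ω, ω + 1; ω, ω, 0] : Matrix (Fin 3) (Fin 3) F) :=
    Q.mul w0 h_v (by
      rw [Matrix.mul_fin_three]
      exact mat3_ext
        (by linear_combination (0) * hw + ((1) + (1) * ω ^ 1) * h2)
        (by linear_combination (0) * hw + (0) * h2)
        (by linear_combination (0) * hw + (0) * h2)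
        (by linear_combination ((1)) * hw + (0) * h2)
        (by linear_combination (0) * hw + (0) * h2)
        (by linear_combination ((1)) * hw + ((-1) + (-1) * ω ^ 1) * h2)
        (by linear_combination ((2)) * hw + ((-1)) * h2)
        (by linear_combination (0) * hw + (0) * h2)
        (by linear_combination ((1)) * hw + (0) * h2))
  have w2 : Q H (!![0, 1, ω; ω, 0, ω + 1; ω, 0, 0] : Matrix (Fin 3) (Fin 3) F) :=
    Q.mul w1 h_u (by
      rw [Matrix.mul_fin_three]
      exact mat3_ext
        (by linear_combination (0) * hw + (0) * h2)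
        (by linear_combination (0) * hw + (0) * h2)
        (by linear_combination (0) * hw + ((1)) * h2)
        (by linear_combination (0) * hw + (0) * h2)
        (by linear_combination (0) * hw + ((1) * ω ^ 1) * h2)
        (by linear_combination (0) * hw + ((1) * ω ^ 1) * h2)
        (by linear_combination (0) * hw + (0) * h2)
        (by linear_combination (0) * hw + ((1) * ω ^ 1) * h2)
        (by linear_combination (0) * hw + ((1) * ω ^ 1) * h2))
  have w3 : Q H (!![0, 1, 0; ω + 1, 0, ω + 1; ω, 0, 0] : Matrix (Fin 3) (Fin 3) F) :=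
    Q.mul w2 h_v (by
      rw [Matrix.mul_fin_three]
      exact mat3_ext
        (by linear_combination ((1)) * hw + (0) * h2)
        (by linear_combination (0) * hw + (0) * h2)
        (by linear_combination (0) * hw + ((1) * ω ^ 1) * h2)
        (by linear_combination ((1)) * hw + ((-1)) * h2)
        (by linear_combination (0) * hw + (0) * h2)
        (by linear_combination (0) * hw + (0) * h2)
        (by linear_combination (0) * hw + (0) * h2)
        (by linear_combination (0) * hw + (0) * h2)
        (by linear_combination (0) * hw + (0) * h2))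
  have w4 : Q H (!![ω + 1, 1, ω; ω, 0, ω + 1; ω, 0, 0] : Matrix (Fin 3) (Fin 3) F) :=
    Q.mul w3 h_v (by
      rw [Matrix.mul_fin_three]
      exact mat3_ext
        (by linear_combination (0) * hw + (0) * h2)
        (by linear_combination (0) * hw + (0) * h2)
        (by linear_combination (0) * hw + (0) * h2)
        (by linear_combination ((1)) * hw + (0) * h2)
        (by linear_combination (0) * hw + (0) * h2)
        (by linear_combination (0) * hw + (0) * h2)
        (by linear_combination (0) * hw + (0) * h2)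
        (by linear_combination (0) * hw + (0) * h2)
        (by linear_combination (0) * hw + (0) * h2))
  have w5 : Q H (!![ω + 1, ω, ω + 1; ω, ω, ω + 1; ω, ω, 0] : Matrix (Fin 3) (Fin 3) F) :=
    Q.mul w4 h_U (by
      rw [Matrix.mul_fin_three]
      exact mat3_ext
        (by linear_combination (0) * hw + (0) * h2)
        (by linear_combination (0) * hw + ((1)) * h2)
        (by linear_combination (0) * hw + (0) * h2)
        (by linear_combination (0) * hw + (0) * h2)
        (by linear_combination (0) * hw + (0) * h2)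
        (by linear_combination (0) * hw + (0) * h2)
        (by linear_combination (0) * hw + (0) * h2)
        (by linear_combination (0) * hw + (0) * h2)
        (by linear_combination (0) * hw + (0) * h2))
  have w6 : Q H (!![ω, ω, 0; ω + 1, ω, 0; ω, ω, ω + 1] : Matrix (Fin 3) (Fin 3) F) :=
    Q.mul w5 h_V (by
      rw [Matrix.mul_fin_three]
      exact mat3_ext
        (by linear_combination ((1)) * hw + (0) * h2)
        (by linear_combination (0) * hw + (0) * h2)
        (by linear_combination ((1)) * hw + (0) * h2)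
        (by linear_combination ((1)) * hw + ((-1)) * h2)
        (by linear_combination (0) * hw + (0) * h2)
        (by linear_combination ((1)) * hw + (0) * h2)
        (by linear_combination (0) * hw + (0) * h2)
        (by linear_combination (0) * hw + (0) * h2)
        (by linear_combination ((1)) * hw + ((-1) + (-1) * ω ^ 1) * h2))
  have w7 : Q H (!![ω, 0, ω; ω + 1, 1, ω; ω, 0, 1] : Matrix (Fin 3) (Fin 3) F) :=
    Q.mul w6 h_U (by
      rw [Matrix.mul_fin_three]
      exact mat3_ext
        (by linear_combination (0) * hw + (0) * h2)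
        (by linear_combination (0) * hw + ((1) * ω ^ 1) * h2)
        (by linear_combination (0) * hw + (0) * h2)
        (by linear_combination (0) * hw + (0) * h2)
        (by linear_combination (0) * hw + ((1) * ω ^ 1) * h2)
        (by linear_combination (0) * hw + (0) * h2)
        (by linear_combination (0) * hw + (0) * h2)
        (by linear_combination (0) * hw + ((1) * ω ^ 1) * h2)
        (by linear_combination (0) * hw + ((1) * ω ^ 1) * h2))
  have w8 : Q H (!![1, 0, ω; 0, 1, 0; 0, 0, 1] : Matrix (Fin 3) (Fin 3) F) :=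
    Q.mul w7 h_V (by
      rw [Matrix.mul_fin_three]
      exact mat3_ext
        (by linear_combination ((1)) * hw + ((-1)) * h2)
        (by linear_combination (0) * hw + (0) * h2)
        (by linear_combination (0) * hw + (0) * h2)
        (by linear_combination ((1)) * hw + (0) * h2)
        (by linear_combination (0) * hw + (0) * h2)
        (by linear_combination (0) * hw + ((1) * ω ^ 1) * h2)
        (by linear_combination (0) * hw + ((1) * ω ^ 1) * h2)
        (by linear_combination (0) * hw + (0) * h2)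
        (by linear_combination (0) * hw + (0) * h2))
  have q_uu : Q H (!![1, 0, 1; 0, 1, 0; 0, 0, 1] : Matrix (Fin 3) (Fin 3) F) :=
    Q.mul h_u h_u (by
      rw [Matrix.mul_fin_three]
      exact mat3_ext
        (by linear_combination (0) * hw + (0) * h2)
        (by linear_combination (0) * hw + ((1)) * h2)
        (by linear_combination (0) * hw + ((1)) * h2)
        (by linear_combination (0) * hw + (0) * h2)
        (by linear_combination (0) * hw + (0) * h2)
        (by linear_combination (0) * hw + ((1)) * h2)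
        (by linear_combination (0) * hw + (0) * h2)
        (by linear_combination (0) * hw + (0) * h2)
        (by linear_combination (0) * hw + (0) * h2))
  have q_vv : Q H (!![1, 0, 0; ω + 1, 1, 0; 0, 0, 1] : Matrix (Fin 3) (Fin 3) F) :=
    Q.mul h_v h_v (by
      rw [Matrix.mul_fin_three]
      exact mat3_ext
        (by linear_combination (0) * hw + (0) * h2)
        (by linear_combination (0) * hw + (0) * h2)
        (by linear_combination (0) * hw + (0) * h2)
        (by linear_combination ((1)) * hw + (0) * h2)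
        (by linear_combination (0) * hw + (0) * h2)
        (by linear_combination (0) * hw + ((1) * ω ^ 1) * h2)
        (by linear_combination (0) * hw + ((1) * ω ^ 1) * h2)
        (by linear_combination (0) * hw + (0) * h2)
        (by linear_combination (0) * hw + (0) * h2))
  have r02w : R H 0 2 ω := R_of_Q w8 (root_lit 0 2 (by omega) (by omega) _ _ (by
    intro p q; fin_cases p <;> fin_cases q <;> simp))
  have r02 : R H 0 2 1 := R_of_Q q_uu (root_lit 0 2 (by omega) (by omega) _ _ (by
    intro p q; fin_cases p <;> fin_cases q <;> simp))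
  have r10 : R H 1 0 (ω + 1) := R_of_Q q_vv (root_lit 1 0 (by omega) (by omega) _ _ (by
    intro p q; fin_cases p <;> fin_cases q <;> simp))
  have hw0 : ω ≠ 0 := by
    rintro rfl
    simp at hw
  have hw1 : ω + 1 ≠ 0 := by
    intro h
    exact one_ne_zero (show (1 : F) = 0 by linear_combination hw - ω * h)
  have full02 : Full H 0 2 := by
    intro t
    rcases hF t with rfl | rfl | rfl | rfl
    · exact R.zero H 0 2
    · exact r02
    · exact r02w
    · exact r02w.add r02
  have full12 : Full H 1 2 := Full.left (by omega) (by omega) full02 hw1 r10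
  have q12 : Q H (!![1, 0, 0; 0, 1, 1; 0, 0, 1] : Matrix (Fin 3) (Fin 3) F) :=
    Q_of_R (full12 1) (root_lit 1 2 (by omega) (by omega) _ _ (by
      intro p q; fin_cases p <;> fin_cases q <;> simp))
  have q12w : Q H (!![1, 0, 0; 0, 1, ω; 0, 0, 1] : Matrix (Fin 3) (Fin 3) F) :=
    Q_of_R (full12 ω) (root_lit 1 2 (by omega) (by omega) _ _ (by
      intro p q; fin_cases p <;> fin_cases q <;> simp))
  have q01 : Q H (!![1, 1, 0; 0, 1, 0; 0, 0, 1] : Matrix (Fin 3) (Fin 3) F) :=
    Q.rdiv q12 h_u (by rw [Matrix.mul_fin_three]; exact mat3_ext (by ring) (by ring) (by ring) (by ring) (by ring) (by ring) (by ring) (by ring) (by ring))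
  have r01 : R H 0 1 1 := R_of_Q q01 (root_lit 0 1 (by omega) (by omega) _ _ (by
    intro p q; fin_cases p <;> fin_cases q <;> simp))
  have q20 : Q H (!![1, 0, 0; 0, 1, 0; ω, 0, 1] : Matrix (Fin 3) (Fin 3) F) :=
    Q.ldiv q12w h_v (by
      rw [Matrix.mul_fin_three]
      exact mat3_ext
        (by linear_combination (0) * hw + (0) * h2)
        (by linear_combination (0) * hw + (0) * h2)
        (by linear_combination (0) * hw + (0) * h2)
        (by linear_combination ((1)) * hw + ((-1) + (-1) * ω ^ 1) * h2)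
        (by linear_combination (0) * hw + (0) * h2)
        (by linear_combination (0) * hw + (0) * h2)
        (by linear_combination (0) * hw + (0) * h2)
        (by linear_combination (0) * hw + (0) * h2)
        (by linear_combination (0) * hw + (0) * h2))
  have r20 : R H 2 0 ω := R_of_Q q20 (root_lit 2 0 (by omega) (by omega) _ _ (by
    intro p q; fin_cases p <;> fin_cases q <;> simp))
  have r21 : R H 2 1 ω := by
    simpa using R.comp (by omega) (by omega) r20 r01
  refine eq_top_of_full (by omega) ?_ (i₀ := 0) (j₀ := 2) (by omega) (by omega) (by omega) full02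
  intro i j hi hj hij
  have hi' : i = 0 ∨ i = 1 ∨ i = 2 := by omega
  have hj' : j = 0 ∨ j = 1 ∨ j = 2 := by omega
  rcases hi' with rfl | rfl | rfl <;> rcases hj' with rfl | rfl | rfl <;> first
    | exact absurd rfl hij
    | exact ⟨_, one_ne_zero, r01⟩
    | exact ⟨_, one_ne_zero, full12 1⟩
    | exact ⟨_, one_ne_zero, r02⟩
    | exact ⟨_, hw1, r10⟩
    | exact ⟨_, hw0, r20⟩
    | exact ⟨_, hw0, r21⟩

/-- Two conjugate regular unipotent generators of `SL₃(F)`, `|F| = 4`. -/
theorem four3_aux (h2 : (2 : F) = 0) (hw : ω ^ 2 + ω + 1 = 0)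
    (hF : ∀ t : F, t = 0 ∨ t = 1 ∨ t = ω ∨ t = ω + 1) : Goal3 F := by
  let u : SpecialLinearGroup (Fin 3) F := ⟨!![1, 1, 1; 0, 1, 1; 0, 0, 1], by
    simp [Matrix.det_fin_three]⟩
  let v : SpecialLinearGroup (Fin 3) F := ⟨!![1, 0, 0; ω + 1, 1, ω; ω, 0, 1], by
    simp [Matrix.det_fin_three]⟩
  let g : SpecialLinearGroup (Fin 3) F := ⟨!![0, 0, 1; ω + 1, 0, 0; 0, ω, 0], by
    simp [Matrix.det_fin_three]
    linear_combination hw - h2⟩
  have hgu : g * u = v * g := by
    apply Subtype.ext
    show (g : Matrix (Fin 3) (Fin 3) F) * (u : Matrix (Fin 3) (Fin 3) F) = (v : Matrix (Fin 3) (Fin 3) F) * (g : Matrix (Fin 3) (Fin 3) F)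
    show (!![0, 0, 1; ω + 1, 0, 0; 0, ω, 0] : Matrix (Fin 3) (Fin 3) F) * !![1, 1, 1; 0, 1, 1; 0, 0, 1] = !![1, 0, 0; ω + 1, 1, ω; ω, 0, 1] * !![0, 0, 1; ω + 1, 0, 0; 0, ω, 0]
    have e1 : (!![0, 0, 1; ω + 1, 0, 0; 0, ω, 0] : Matrix (Fin 3) (Fin 3) F) * !![1, 1, 1; 0, 1, 1; 0, 0, 1] = !![0, 0, 1; ω + 1, ω + 1, ω + 1; 0, ω, ω] := by
      rw [Matrix.mul_fin_three]
      exact mat3_ext
        (by linear_combination (0) * hw + (0) * h2)
        (by linear_combination (0) * hw + (0) * h2)
        (by linear_combination (0) * hw + (0) * h2)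
        (by linear_combination (0) * hw + (0) * h2)
        (by linear_combination (0) * hw + (0) * h2)
        (by linear_combination (0) * hw + (0) * h2)
        (by linear_combination (0) * hw + (0) * h2)
        (by linear_combination (0) * hw + (0) * h2)
        (by linear_combination (0) * hw + (0) * h2)
    have e2 : (!![1, 0, 0; ω + 1, 1, ω; ω, 0, 1] : Matrix (Fin 3) (Fin 3) F) * !![0, 0, 1; ω + 1, 0, 0; 0, ω, 0] = !![0, 0, 1; ω + 1, ω + 1, ω + 1; 0, ω, ω] := by
      rw [Matrix.mul_fin_three]
      exact mat3_ext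
        (by linear_combination (0) * hw + (0) * h2)
        (by linear_combination (0) * hw + (0) * h2)
        (by linear_combination (0) * hw + (0) * h2)
        (by linear_combination (0) * hw + (0) * h2)
        (by linear_combination ((1)) * hw + ((-1) + (-1) * ω ^ 1) * h2)
        (by linear_combination (0) * hw + (0) * h2)
        (by linear_combination (0) * hw + (0) * h2)
        (by linear_combination (0) * hw + (0) * h2)
        (by linear_combination (0) * hw + (0) * h2)
    exact e1.trans e2.symm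
  have hconj : g * u * g⁻¹ = v := by rw [hgu, mul_inv_cancel_right]
  refine ⟨u, g, ?_, ?_, ?_⟩
  · show IsNilpotent ((!![1, 1, 1; 0, 1, 1; 0, 0, 1] : Matrix (Fin 3) (Fin 3) F) - 1)
    rw [U0_sub]
    exact ⟨3, X0_pow_three⟩
  · show ((!![1, 1, 1; 0, 1, 1; 0, 0, 1] : Matrix (Fin 3) (Fin 3) F) - 1) ^ (3 - 1) ≠ 0
    rw [U0_sub]
    intro h0
    have h1 := X0_sq (F := F)
    rw [show (3 - 1 : ℕ) = 2 from rfl] at h0
    rw [h0] at h1
    exact zero_ne_one h1
  · rw [hconj]
    exact top_four h2 hw hF ⟨u, Subgroup.subset_closure (by simp), rfl⟩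
      ⟨v, Subgroup.subset_closure (by simp), rfl⟩

end four

/-- Two conjugate regular unipotent generators of `SL₃(F)`, `|F| = 4`. -/
theorem four3 [Fintype F] (hq : Fintype.card F = 4) : Goal3 F := by
  classical
  have h4 : (4 : F) = 0 := by
    have := FiniteField.cast_card_eq_zero F
    rw [hq] at this
    exact_mod_cast this
  have h2 : (2 : F) = 0 := by
    have h5 : (2 : F) ^ 2 = 0 := by linear_combination h4
    exact pow_eq_zero_iff (by norm_num) |>.mp h5
  obtain ⟨α, h0, hgen⟩ := exists_gen (F := F)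
  have h3 : α ^ 3 = 1 := by
    have := FiniteField.pow_card_sub_one_eq_one α h0
    rwa [hq] at this
  have h1 : α ≠ 1 := by
    intro h
    have : ∀ y : F, y = 0 ∨ y = 1 := by
      intro y
      by_cases hy : y = 0
      · exact Or.inl hy
      · obtain ⟨k, hk⟩ := hgen y hy
        right
        rw [hk, h, one_pow]
    have h6 : (Finset.univ : Finset F) ⊆ {0, 1} := by
      intro y _
      rcases this y with rfl | rfl <;> simp
    have h7 := Finset.card_le_card h6
    have h8 : (({0, 1} : Finset F)).card ≤ 2 := Finset.card_le_two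
    rw [Finset.card_univ, hq] at h7
    omega
  have hw : α ^ 2 + α + 1 = 0 := by
    have h5 : (α - 1) * (α ^ 2 + α + 1) = 0 := by linear_combination h3
    exact (mul_eq_zero.mp h5).resolve_left (sub_ne_zero.mpr h1)
  refine four3_aux h2 hw ?_
  intro t
  have h5 : t ^ 4 = t := by
    have := FiniteField.pow_card t
    rwa [hq] at this
  have h6 : t * ((t - 1) * ((t - α) * (t - α - 1))) = 0 := by
    linear_combination h5 + (t ^ 2 - t) * hw + (t - t ^ 3 - α * t * (t ^ 2 - t)) * h2
  rcases mul_eq_zero.mp h6 with h7 | h7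
  · exact Or.inl h7
  rcases mul_eq_zero.mp h7 with h7 | h7
  · right; left; linear_combination h7
  rcases mul_eq_zero.mp h7 with h7 | h7
  · right; right; left; linear_combination h7
  · right; right; right; linear_combination h7

/-- Two conjugate regular unipotent generators of `SL₃(F)`. -/
theorem exists_conj_all [Fintype F] : Goal3 F := by
  by_cases hq : 5 ≤ Fintype.card F
  · exact exists_conj3 hq
  by_cases h4 : Fintype.card F = 4
  · exact four3 h4
  · have h2 : 1 < Fintype.card F := Fintype.one_lt_card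
    have hp : (Fintype.card F).Prime := by
      have : Fintype.card F = 2 ∨ Fintype.card F = 3 := by omega
      rcases this with h | h <;> rw [h]
      · exact Nat.prime_two
      · exact Nat.prime_three
    exact prime3 hp

end Cfsg.Agent.Lib.RegUnip.Small3
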