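import Cfsg.Agent.Lib.RegUnip.SU3Design
import Cfsg.Agent.Lib.RegUnip.Small3

/-!
# `SU₃(5)`: an additional multiplier obtained from an explicit word
-/

set_option autoImplicit false
set_option maxHeartbeats 4000000
set_option linter.unusedSectionVars false
set_option linter.unusedSimpArgs false
set_option linter.style.longLine false
set_option linter.unusedVariables false
set_option linter.style.haveILetI false

namespace Cfsg.Agent.Lib.RegUnip.SU3Q5

open Matrix Matrix.SpecialLinearGroup
open Cfsg.Agent.Lib.RegUnip.Basic Cfsg.Agent.Lib.RegUnip.Words Cfsg.Agent.Lib.RegUnip.SU3Gen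
  Cfsg.Agent.Lib.RegUnip.SU3Design Cfsg.Agent.Lib.RegUnip.Small3

variable {F : Type*} [Field F]

theorem word_5 {H : Subgroup (SpecialLinearGroup (Fin 3) F)} {w : F} (hw : w^2 + w + 1 = 0) (h5 : (5 : F) = 0)
    (hT : Q H (!![1, 0, 1 + 2*w; 0, 1, 0; 0, 0, 1] : Matrix (Fin 3) (Fin 3) F))
    (hU : Q H (!![1, 0, 0; 1 + 2*w, 1, 0; 2 + 2*w, 1 + 2*w, 1] : Matrix (Fin 3) (Fin 3) F)) :
    Q H (!![3 + 2*w, 0, 0; 1, 1 + w, 0; 4*w, 2 + w, 4 + w] : Matrix (Fin 3) (Fin 3) F) := by
  have hTi : Q H (!![1, 0, 4 + 3*w; 0, 1, 0; 0, 0, 1] : Matrix (Fin 3) (Fin 3) F) :=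
    Q.ldiv hT Q_one (by rw [Matrix.mul_fin_three]; exact mat3_ext (by linear_combination (0) * hw + (0) * h5) (by linear_combination (0) * hw + (0) * h5) (by linear_combination (0) * hw + (1 + w) * h5) (by linear_combination (0) * hw + (0) * h5) (by linear_combination (0) * hw + (0) * h5) (by linear_combination (0) * hw + (0) * h5) (by linear_combination (0) * hw + (0) * h5) (by linear_combination (0) * hw + (0) * h5) (by linear_combination (0) * hw + (0) * h5))
  have hUi : Q H (!![1, 0, 0; 4 + 3*w, 1, 0; 3*w, 4 + 3*w, 1] : Matrix (Fin 3) (Fin 3) F) :=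
    Q.ldiv hU Q_one (by rw [Matrix.mul_fin_three]; exact mat3_ext (by linear_combination (0) * hw + (0) * h5) (by linear_combination (0) * hw + (0) * h5) (by linear_combination (0) * hw + (0) * h5) (by linear_combination (0) * hw + (1 + w) * h5) (by linear_combination (0) * hw + (0) * h5) (by linear_combination (0) * hw + (0) * h5) (by linear_combination (6) * hw + (2*w) * h5) (by linear_combination (0) * hw + (1 + w) * h5) (by linear_combination (0) * hw + (0) * h5))
  have w0 : Q H (!![2 + 3*w, 2, 4 + 3*w; 4 + 3*w, 1, 0; 3*w, 4 + 3*w, 1] : Matrix (Fin 3) (Fin 3) F) :=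
    Q.mul hTi hUi (by rw [Matrix.mul_fin_three]; exact mat3_ext (by linear_combination (9) * hw + (-2) * h5) (by linear_combination (9) * hw + (1 + 3*w) * h5) (by linear_combination (0) * hw + (0) * h5) (by linear_combination (0) * hw + (0) * h5) (by linear_combination (0) * hw + (0) * h5) (by linear_combination (0) * hw + (0) * h5) (by linear_combination (0) * hw + (0) * h5) (by linear_combination (0) * hw + (0) * h5) (by linear_combination (0) * hw + (0) * h5))
  have w1 : Q H (!![2 + 3*w, 2, 4*w; 4 + 3*w, 1, 3; 3*w, 4 + 3*w, 2*w] : Matrix (Fin 3) (Fin 3) F) :=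
    Q.mul w0 hT (by rw [Matrix.mul_fin_three]; exact mat3_ext (by linear_combination (0) * hw + (0) * h5) (by linear_combination (0) * hw + (0) * h5) (by linear_combination (6) * hw + (0) * h5) (by linear_combination (0) * hw + (0) * h5) (by linear_combination (0) * hw + (0) * h5) (by linear_combination (6) * hw + (-1 + w) * h5) (by linear_combination (0) * hw + (0) * h5) (by linear_combination (0) * hw + (0) * h5) (by linear_combination (6) * hw + (-1 - w) * h5))
  have w2 : Q H (!![1 + 2*w, 4 + w, 4*w; 1 + w, 4 + w, 3; 4 + 3*w, w, 2*w] : Matrix (Fin 3) (Fin 3) F) :=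
    Q.mul w1 hU (by rw [Matrix.mul_fin_three]; exact mat3_ext (by linear_combination (8) * hw + (-1 + w) * h5) (by linear_combination (8) * hw + (-2 - w) * h5) (by linear_combination (0) * hw + (0) * h5) (by linear_combination (0) * hw + (2 + 2*w) * h5) (by linear_combination (0) * hw + (w) * h5) (by linear_combination (0) * hw + (0) * h5) (by linear_combination (10) * hw + (-2 + w) * h5) (by linear_combination (4) * hw + (0) * h5) (by linear_combination (0) * hw + (0) * h5))
  have w3 : Q H (!![1 + 2*w, 4 + w, 2 + 4*w; 1 + w, 4 + w, 2 + w; 4 + 3*w, w, 3 + 2*w] : Matrix (Fin 3) (Fin 3) F) :=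
    Q.mul w2 hT (by rw [Matrix.mul_fin_three]; exact mat3_ext (by linear_combination (0) * hw + (0) * h5) (by linear_combination (0) * hw + (0) * h5) (by linear_combination (4) * hw + (-1) * h5) (by linear_combination (0) * hw + (0) * h5) (by linear_combination (0) * hw + (0) * h5) (by linear_combination (2) * hw + (0) * h5) (by linear_combination (0) * hw + (0) * h5) (by linear_combination (0) * hw + (0) * h5) (by linear_combination (6) * hw + (-1 + w) * h5))
  have w4 : Q H (!![1 + 2*w, 4 + w, 4 + 4*w; 1 + w, 4 + w, 1 + 2*w; 4 + 3*w, w, 1 + 2*w] : Matrix (Fin 3) (Fin 3) F) :=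
    Q.mul w3 hT (by rw [Matrix.mul_fin_three]; exact mat3_ext (by linear_combination (0) * hw + (0) * h5) (by linear_combination (0) * hw + (0) * h5) (by linear_combination (4) * hw + (-1) * h5) (by linear_combination (0) * hw + (0) * h5) (by linear_combination (0) * hw + (0) * h5) (by linear_combination (2) * hw + (0) * h5) (by linear_combination (0) * hw + (0) * h5) (by linear_combination (0) * hw + (0) * h5) (by linear_combination (6) * hw + (w) * h5))
  have w5 : Q H (!![3 + 2*w, 0, 4 + 4*w; 1, 1 + w, 1 + 2*w; 4*w, 2 + w, 1 + 2*w] : Matrix (Fin 3) (Fin 3) F) :=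
    Q.mul w4 hU (by rw [Matrix.mul_fin_three]; exact mat3_ext (by linear_combination (10) * hw + (3*w) * h5) (by linear_combination (8) * hw + (w) * h5) (by linear_combination (0) * hw + (0) * h5) (by linear_combination (6) * hw + (2*w) * h5) (by linear_combination (4) * hw + (0) * h5) (by linear_combination (0) * hw + (0) * h5) (by linear_combination (6) * hw + (0) * h5) (by linear_combination (4) * hw + (-1) * h5) (by linear_combination (0) * hw + (0) * h5))
  have w6 : Q H (!![3 + 2*w, 0, 0; 1, 1 + w, 0; 4*w, 2 + w, 4 + w] : Matrix (Fin 3) (Fin 3) F) :=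
    Q.mul w5 hTi (by rw [Matrix.mul_fin_three]; exact mat3_ext (by linear_combination (0) * hw + (0) * h5) (by linear_combination (0) * hw + (0) * h5) (by linear_combination (6) * hw + (2 + 3*w) * h5) (by linear_combination (0) * hw + (0) * h5) (by linear_combination (0) * hw + (0) * h5) (by linear_combination (0) * hw + (1 + w) * h5) (by linear_combination (0) * hw + (0) * h5) (by linear_combination (0) * hw + (0) * h5) (by linear_combination (12) * hw + (-3 + w) * h5))
  exact w6


section main

variable [Fintype F]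

open Cfsg.Agent.Lib.HermCount.Field Cfsg.Agent.Lib.Classical.HermBridge Cfsg.Agent.Lib.RegUnip.SU3Field

/-- The case `q = 5`. -/
theorem su3_q5 (hF : Fintype.card F = 5 ^ 2) :
    ∃ u g : ↥(Cfsg.SU 3 F 5), (IsNilpotent (((u : Matrix.SpecialLinearGroup (Fin 3) F) : Matrix (Fin 3) (Fin 3) F) - 1) ∧ (((u : Matrix.SpecialLinearGroup (Fin 3) F) : Matrix (Fin 3) (Fin 3) F) - 1) ^ (3 - 1) ≠ 0) ∧
      Subgroup.closure ({u, g * u * g⁻¹} : Set ↥(Cfsg.SU 3 F 5)) = ⊤ := by
  have hF' : Fintype.card F = 25 := by rw [hF]; norm_num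
  obtain ⟨a, ha0, ha1, ha⟩ := exists_mu hF (by norm_num)
  have h25 : (25 : F) = 0 := by
    have h1 := FiniteField.cast_card_eq_zero F
    rw [hF'] at h1
    exact_mod_cast h1
  have h5 : (5 : F) = 0 := by
    have h1 : (5 : F) ^ 2 = 0 := by linear_combination h25
    exact pow_eq_zero_iff (by norm_num) |>.1 h1
  obtain ⟨w, hw_def⟩ : ∃ w, w = a ^ 2 := ⟨_, rfl⟩
  have hw1 : w ≠ 1 := by
    intro h
    have h1 := ha 2 (by rw [← hw_def, h])
    omega
  have hw3 : w ^ 3 = 1 := by
    rw [hw_def, ← pow_mul]
    exact ha1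
  have hm : w - 1 ≠ 0 := sub_ne_zero.2 hw1
  have hw : w ^ 2 + w + 1 = 0 := by
    have h1 : (w - 1) * (w ^ 2 + w + 1) = 0 := by linear_combination hw3
    exact (mul_eq_zero.1 h1).resolve_left hm
  have h2 : (2 : F) ≠ 0 := by
    intro h
    have : (1 : F) = 0 := by linear_combination h5 - 2 * h
    exact one_ne_zero this
  have h0 : w ≠ 0 := by
    rintro rfl
    simp at hw3
  have hp : w + 1 ≠ 0 := by
    intro h
    have : (1 : F) = 0 := by linear_combination hw - w * h
    exact one_ne_zero this
  have hσa : frobHom hF w = w⁻¹ := by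
    rw [frobHom_apply]
    refine eq_inv_of_mul_eq_one_left ?_
    linear_combination (w ^ 3 + 1) * hw3
  have hσ' : frobHom hF w = -1 - w := by
    rw [hσa]
    field_simp
    linear_combination hw
  refine design_main hF (by norm_num) h0 hp hm hσa ?_
  intro H hiso hT hS hU
  have hdel : del w = 1 + 2 * w := by
    rw [del, div_eq_iff h0]
    linear_combination (-1) * hw
  have hf0 : f0 w = 2 + 2 * w := by
    rw [f0, div_eq_iff hp]
    linear_combination (w - 2) * hw - w * h5
  have hT' : Q H (!![1, 0, 1 + 2*w; 0, 1, 0; 0, 0, 1] : Matrix (Fin 3) (Fin 3) F) := by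
    have h1 := hT
    rw [tLit, hdel] at h1
    exact h1
  have hU' : Q H (!![1, 0, 0; 1 + 2*w, 1, 0; 2 + 2*w, 1 + 2*w, 1] : Matrix (Fin 3) (Fin 3) F) := by
    have h1 := hU
    rw [uLit, hdel, hf0] at h1
    exact h1
  have hW := word_5 hw h5 hT' hU'
  have ht : 3 + 2*w ≠ 0 := by
    intro h
    have : (1 : F) = 0 := by
      linear_combination (3 + 4*w) * h - (8) * hw - (2*w) * h5
    exact one_ne_zero this
  have htp : 1 + w ≠ 0 := by
    intro h
    have : (1 : F) = 0 := by
      linear_combination (4*w) * h - (4) * hw - (-1) * h5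
    exact one_ne_zero this
  have hst : frobHom hF (3 + 2*w) ≠ 0 := by
    exact (map_ne_zero _).2 ht
  have hrel : (1 + w) * frobHom hF (1 + w) = (4 + w) * frobHom hF (3 + 2*w) := by
    simp only [map_add, map_mul, map_one, map_ofNat, hσ']
    linear_combination (1) * hw + (-1 + w) * h5
  have hdel0 : del w ≠ 0 := by
    rw [hdel]
    intro h
    have h3 : (3 : F) = 0 := by
      have : (1 + 2 * w) ^ 2 = 0 := by rw [h]; ring
      linear_combination 4 * hw - this
    have : (1 : F) = 0 := by linear_combination 2 * h5 - 3 * h3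
    exact one_ne_zero this
  refine top_25 hF' _ hdel0 (del_mem hF hσa h0 hU) (m := (1 + w) / (3 + 2*w)) (div_ne_zero htp ht) ?_
    (fun x hx => bSet_stable hW ht htp hst hrel hx)
  intro h4
  rw [div_pow, div_eq_one_iff_eq (pow_ne_zero 4 ht)] at h4
  have h6 : 2 * (3 + 2*w) ^ 4 = 0 := by
    have h7 : (3 + 2*w) ^ 4 + (1 + w) ^ 4 = 0 := by
      linear_combination (122 + 83*w + 17*w^2) * hw + (-8 + 3*w) * h5
    linear_combination h7 - h4
  exact (mul_ne_zero h2 (pow_ne_zero 4 ht)) h6

end main

end Cfsg.Agent.Lib.RegUnip.SU3Q5
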