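import Cfsg.Agent.Lib.RegUnip.SU3Design
import Cfsg.Agent.Lib.RegUnip.Small3

/-!
# `SU₃(8)`: an additional multiplier obtained from an explicit word
-/

set_option autoImplicit false
set_option maxHeartbeats 4000000
set_option linter.unusedSectionVars false
set_option linter.unusedSimpArgs false
set_option linter.style.longLine false
set_option linter.unusedVariables false
set_option linter.style.haveILetI false

namespace Cfsg.Agent.Lib.RegUnip.SU3Q8

open Matrix Matrix.SpecialLinearGroup
open Cfsg.Agent.Lib.RegUnip.Basic Cfsg.Agent.Lib.RegUnip.Words Cfsg.Agent.Lib.RegUnip.SU3Gen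
  Cfsg.Agent.Lib.RegUnip.SU3Design Cfsg.Agent.Lib.RegUnip.Small3

variable {F : Type*} [Field F]

theorem word_8 {H : Subgroup (SpecialLinearGroup (Fin 3) F)} {w : F} (hw : w^6 + w^3 + 1 = 0) (h2 : (2 : F) = 0)
    (hT : Q H (!![1, 0, w + w^2 + w^5; 0, 1, 0; 0, 0, 1] : Matrix (Fin 3) (Fin 3) F))
    (hU : Q H (!![1, 0, 0; w + w^2 + w^5, 1, 0; w^2, w + w^2 + w^5, 1] : Matrix (Fin 3) (Fin 3) F))
    (hS : Q H (!![w, 0, 0; 0, w + w^4, 0; 0, 0, w] : Matrix (Fin 3) (Fin 3) F)) :
    Q H (!![1 + w^4 + w^5, 0, 0; 0, 1, 0; 1, 0, w + w^2 + w^4] : Matrix (Fin 3) (Fin 3) F) := by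
  have hTi : Q H (!![1, 0, w + w^2 + w^5; 0, 1, 0; 0, 0, 1] : Matrix (Fin 3) (Fin 3) F) :=
    Q.ldiv hT Q_one (by rw [Matrix.mul_fin_three]; exact mat3_ext (by linear_combination (0) * hw + (0) * h2) (by linear_combination (0) * hw + (0) * h2) (by linear_combination (0) * hw + (w + w^2 + w^5) * h2) (by linear_combination (0) * hw + (0) * h2) (by linear_combination (0) * hw + (0) * h2) (by linear_combination (0) * hw + (0) * h2) (by linear_combination (0) * hw + (0) * h2) (by linear_combination (0) * hw + (0) * h2) (by linear_combination (0) * hw + (0) * h2))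
  have hUi : Q H (!![1, 0, 0; w + w^2 + w^5, 1, 0; w + w^4, w + w^2 + w^5, 1] : Matrix (Fin 3) (Fin 3) F) :=
    Q.ldiv hU Q_one (by rw [Matrix.mul_fin_three]; exact mat3_ext (by linear_combination (0) * hw + (0) * h2) (by linear_combination (0) * hw + (0) * h2) (by linear_combination (0) * hw + (0) * h2) (by linear_combination (0) * hw + (w + w^2 + w^5) * h2) (by linear_combination (0) * hw + (0) * h2) (by linear_combination (0) * hw + (0) * h2) (by linear_combination (2 + w + w^4) * hw + (-1 + w^2) * h2) (by linear_combination (0) * hw + (w + w^2 + w^5) * h2) (by linear_combination (0) * hw + (0) * h2))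
  have hSi : Q H (!![w^2 + w^5, 0, 0; 0, w^2, 0; 0, 0, w^2 + w^5] : Matrix (Fin 3) (Fin 3) F) :=
    Q.ldiv hS Q_one (by rw [Matrix.mul_fin_three]; exact mat3_ext (by linear_combination (1) * hw + (-1) * h2) (by linear_combination (0) * hw + (0) * h2) (by linear_combination (0) * hw + (0) * h2) (by linear_combination (0) * hw + (0) * h2) (by linear_combination (1) * hw + (-1) * h2) (by linear_combination (0) * hw + (0) * h2) (by linear_combination (0) * hw + (0) * h2) (by linear_combination (0) * hw + (0) * h2) (by linear_combination (1) * hw + (-1) * h2))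
  have w0 : Q H (!![w^2 + w^3 + w^5, w + w^2 + w^4, w + w^2 + w^5; w + w^2 + w^5, 1, 0; w + w^4, w + w^2 + w^5, 1] : Matrix (Fin 3) (Fin 3) F) :=
    Q.mul hTi hUi (by rw [Matrix.mul_fin_three]; exact mat3_ext (by linear_combination (1 + w^3) * hw + (-w^3) * h2) (by linear_combination (2 + w + w^4) * hw + (-1 - w - w^4) * h2) (by linear_combination (0) * hw + (0) * h2) (by linear_combination (0) * hw + (0) * h2) (by linear_combination (0) * hw + (0) * h2) (by linear_combination (0) * hw + (0) * h2) (by linear_combination (0) * hw + (0) * h2) (by linear_combination (0) * hw + (0) * h2) (by linear_combination (0) * hw + (0) * h2))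
  have w1 : Q H (!![w + w^2 + w^4, 1 + w^4, 1 + w + w^4; 1 + w + w^4, w^2, 0; 1 + w^3, w + w^3, w^2 + w^5] : Matrix (Fin 3) (Fin 3) F) :=
    Q.mul w0 hSi (by rw [Matrix.mul_fin_three]; exact mat3_ext (by linear_combination (w + w^2 + w^4) * hw + (-w - w^2 - w^4) * h2) (by linear_combination (1) * hw + (-1) * h2) (by linear_combination (1 + w + w^4) * hw + (-1 - w - w^4) * h2) (by linear_combination (1 + w + w^4) * hw + (-1 - w - w^4) * h2) (by linear_combination (0) * hw + (0) * h2) (by linear_combination (0) * hw + (0) * h2) (by linear_combination (1 + w^3) * hw + (-1 - w^3) * h2) (by linear_combination (w) * hw + (-w) * h2) (by linear_combination (0) * hw + (0) * h2))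
  have w2 : Q H (!![w + w^3 + w^5, w + w^3 + w^4, 1 + w + w^4; 1 + w^3 + w^4, w^2, 0; 1 + w^4, 1 + w^3 + w^4, w^2 + w^5] : Matrix (Fin 3) (Fin 3) F) :=
    Q.mul w1 hUi (by rw [Matrix.mul_fin_three]; exact mat3_ext (by linear_combination (w^2 + w^3) * hw + (w + w^2 - w^3 + w^4 + w^5) * h2) (by linear_combination (1 + w^3) * hw + (w^2 - w^3 + w^5) * h2) (by linear_combination (0) * hw + (0) * h2) (by linear_combination (w) * hw + (0) * h2) (by linear_combination (0) * hw + (0) * h2) (by linear_combination (0) * hw + (0) * h2) (by linear_combination (2 + w^2 + w^3) * hw + (-1) * h2) (by linear_combination (1 + w + w^4) * hw + (-1 - w^4) * h2) (by linear_combination (0) * hw + (0) * h2))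
  have w3 : Q H (!![1 + w^2 + w^4, 1 + w^5, 1 + w^2 + w^3 + w^5; w^3 + w^5, w^4, 0; w^2 + w^3 + w^5, 1 + w^2 + w^3 + w^5, w + w^4] : Matrix (Fin 3) (Fin 3) F) :=
    Q.mul w2 hSi (by rw [Matrix.mul_fin_three]; exact mat3_ext (by linear_combination (1 + w^2 + w^4) * hw + (-1 - w^2 - w^4) * h2) (by linear_combination (1) * hw + (-1) * h2) (by linear_combination (1 + w^3) * hw + (-1 - w^3) * h2) (by linear_combination (w^2 + w^3) * hw + (-w^3) * h2) (by linear_combination (0) * hw + (0) * h2) (by linear_combination (0) * hw + (0) * h2) (by linear_combination (w^3) * hw + (-w^3) * h2) (by linear_combination (1) * hw + (-1 - w^3) * h2) (by linear_combination (w + w^4) * hw + (-w - w^4) * h2))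
  have w4 : Q H (!![w^2 + w^3, 0, 1 + w^2 + w^3 + w^5; 0, w^4, 0; w^2 + w^3, 0, w + w^4] : Matrix (Fin 3) (Fin 3) F) :=
    Q.mul w3 hU (by rw [Matrix.mul_fin_three]; exact mat3_ext (by linear_combination (1 + w + w^4) * hw + (w^2 - w^3 + w^5) * h2) (by linear_combination (1 + w + w^2 + w^4) * hw + (w^5) * h2) (by linear_combination (0) * hw + (0) * h2) (by linear_combination (w^3) * hw + (w^5) * h2) (by linear_combination (0) * hw + (0) * h2) (by linear_combination (0) * hw + (0) * h2) (by linear_combination (2 + w + w^2 + w^4) * hw + (-1 + w^5) * h2) (by linear_combination (1 + w^3) * hw + (w^2 + w^5) * h2) (by linear_combination (0) * hw + (0) * h2))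
  have w5 : Q H (!![w^2 + w^3, 0, 1 + w + w^4 + w^5; 0, w^4, 0; w^2 + w^3, 0, w^2 + w^3] : Matrix (Fin 3) (Fin 3) F) :=
    Q.mul w4 hT (by rw [Matrix.mul_fin_three]; exact mat3_ext (by linear_combination (0) * hw + (0) * h2) (by linear_combination (0) * hw + (0) * h2) (by linear_combination (w + w^2) * hw + (-w + w^3) * h2) (by linear_combination (0) * hw + (0) * h2) (by linear_combination (0) * hw + (0) * h2) (by linear_combination (0) * hw + (0) * h2) (by linear_combination (0) * hw + (0) * h2) (by linear_combination (0) * hw + (0) * h2) (by linear_combination (w + w^2) * hw + (-w^2 + w^4) * h2))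
  have w6 : Q H (!![1 + w + w^3 + w^4, w + w^4, 1 + w + w^4 + w^5; w^3 + w^5, w^4, 0; w^2 + w^3 + w^4 + w^5, w + w^2 + w^3 + w^4, w^2 + w^3] : Matrix (Fin 3) (Fin 3) F) :=
    Q.mul w5 hU (by rw [Matrix.mul_fin_three]; exact mat3_ext (by linear_combination (1 + w) * hw + (-1 - w + w^2 - w^4) * h2) (by linear_combination (2 + w^3 + w^4) * hw + (-1 + w^2 - w^3 - w^4 + w^5) * h2) (by linear_combination (0) * hw + (0) * h2) (by linear_combination (w^3) * hw + (-w^3) * h2) (by linear_combination (0) * hw + (0) * h2) (by linear_combination (0) * hw + (0) * h2) (by linear_combination (0) * hw + (0) * h2) (by linear_combination (w + w^2) * hw + (-w - w^2) * h2) (by linear_combination (0) * hw + (0) * h2))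
  have w7 : Q H (!![w + w^2 + w^4 + w^5, w^5, 1 + w + w^2 + w^3 + w^5; 1 + w^3 + w^4, w^2, 0; 1 + w^4 + w^5, 1 + w + w^5, w^3 + w^4] : Matrix (Fin 3) (Fin 3) F) :=
    Q.mul w6 hS (by rw [Matrix.mul_fin_three]; exact mat3_ext (by linear_combination (0) * hw + (0) * h2) (by linear_combination (w^2) * hw + (0) * h2) (by linear_combination (1) * hw + (-1 - w^3) * h2) (by linear_combination (1) * hw + (-1 - w^3) * h2) (by linear_combination (w^2) * hw + (-w^2) * h2) (by linear_combination (0) * hw + (0) * h2) (by linear_combination (1) * hw + (-1) * h2) (by linear_combination (1 + w + w^2) * hw + (-1 - w) * h2) (by linear_combination (0) * hw + (0) * h2))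
  have w8 : Q H (!![1, w^2, 1 + w + w^2 + w^3 + w^5; 1 + w + w^4, w^2, 0; w + w^5, 1 + w + w^2 + w^3 + w^4, w^3 + w^4] : Matrix (Fin 3) (Fin 3) F) :=
    Q.mul w7 hU (by rw [Matrix.mul_fin_three]; exact mat3_ext (by linear_combination (1 + w + w^4) * hw + (-1 + w^2 + w^5) * h2) (by linear_combination (2 + w + w^2 + w^4) * hw + (-1 + w^5) * h2) (by linear_combination (0) * hw + (0) * h2) (by linear_combination (w) * hw + (-w + w^3) * h2) (by linear_combination (0) * hw + (0) * h2) (by linear_combination (0) * hw + (0) * h2) (by linear_combination (3 + w^4) * hw + (-1 + w^2 - w^3 + w^5) * h2) (by linear_combination (w^2 + w^3) * hw + (-w^2 - w^3 + w^5) * h2) (by linear_combination (0) * hw + (0) * h2))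
  have w9 : Q H (!![w, 1, 1 + w + w^2 + w^4; w + w^2 + w^5, 1, 0; 1 + w^2 + w^3, 1 + w^4 + w^5, w^4 + w^5] : Matrix (Fin 3) (Fin 3) F) :=
    Q.mul w8 hS (by rw [Matrix.mul_fin_three]; exact mat3_ext (by linear_combination (0) * hw + (0) * h2) (by linear_combination (1) * hw + (-1) * h2) (by linear_combination (1) * hw + (-1) * h2) (by linear_combination (0) * hw + (0) * h2) (by linear_combination (1) * hw + (-1) * h2) (by linear_combination (0) * hw + (0) * h2) (by linear_combination (1) * hw + (-1 - w^3) * h2) (by linear_combination (1 + w + w^2) * hw + (-1) * h2) (by linear_combination (0) * hw + (0) * h2))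
  have w10 : Q H (!![1 + w^4 + w^5, 0, 1 + w + w^2 + w^4; 0, 1, 0; 1, 0, w^4 + w^5] : Matrix (Fin 3) (Fin 3) F) :=
    Q.mul w9 hU (by rw [Matrix.mul_fin_three]; exact mat3_ext (by linear_combination (1) * hw + (-1 + w + w^2) * h2) (by linear_combination (1 + w + w^3) * hw + (w^2 + w^5) * h2) (by linear_combination (0) * hw + (0) * h2) (by linear_combination (0) * hw + (w + w^2 + w^5) * h2) (by linear_combination (0) * hw + (0) * h2) (by linear_combination (0) * hw + (0) * h2) (by linear_combination (2 + w + w^3 + w^4) * hw + (-1 + w^2 - w^3 - w^4 + w^5) * h2) (by linear_combination (1 + w^3 + w^4) * hw + (-w^3 + w^5) * h2) (by linear_combination (0) * hw + (0) * h2))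
  have w11 : Q H (!![1 + w^4 + w^5, 0, 0; 0, 1, 0; 1, 0, w + w^2 + w^4] : Matrix (Fin 3) (Fin 3) F) :=
    Q.mul w10 hT (by rw [Matrix.mul_fin_three]; exact mat3_ext (by linear_combination (0) * hw + (0) * h2) (by linear_combination (0) * hw + (0) * h2) (by linear_combination (1 + w^3 + w^4) * hw + (w + w^2 - w^3 + w^5) * h2) (by linear_combination (0) * hw + (0) * h2) (by linear_combination (0) * hw + (0) * h2) (by linear_combination (0) * hw + (0) * h2) (by linear_combination (0) * hw + (0) * h2) (by linear_combination (0) * hw + (0) * h2) (by linear_combination (0) * hw + (w^5) * h2))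
  exact w11


section main

variable [Fintype F]

open Cfsg.Agent.Lib.HermCount.Field Cfsg.Agent.Lib.Classical.HermBridge Cfsg.Agent.Lib.RegUnip.SU3Field

/-- The case `q = 8`. -/
theorem su3_q8 (hF : Fintype.card F = 8 ^ 2) :
    ∃ u g : ↥(Cfsg.SU 3 F 8), (IsNilpotent (((u : Matrix.SpecialLinearGroup (Fin 3) F) : Matrix (Fin 3) (Fin 3) F) - 1) ∧ (((u : Matrix.SpecialLinearGroup (Fin 3) F) : Matrix (Fin 3) (Fin 3) F) - 1) ^ (3 - 1) ≠ 0) ∧
      Subgroup.closure ({u, g * u * g⁻¹} : Set ↥(Cfsg.SU 3 F 8)) = ⊤ := by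
  have hF' : Fintype.card F = 64 := by rw [hF]; norm_num
  obtain ⟨w, h0, ha1, ha⟩ := exists_mu hF (by norm_num)
  have h64 : (64 : F) = 0 := by
    have h1 := FiniteField.cast_card_eq_zero F
    rw [hF'] at h1
    exact_mod_cast h1
  have h2 : (2 : F) = 0 := by
    have h1 : (2 : F) ^ 6 = 0 := by linear_combination h64
    exact pow_eq_zero_iff (by norm_num) |>.1 h1
  have hw3 : w ^ 3 ≠ 1 := by
    intro h
    have h1 := ha 3 h
    omega
  have ha9 : w ^ 9 = 1 := ha1
  have hm : w - 1 ≠ 0 := by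
    intro h
    have h1 : w ^ 1 = 1 := by rw [pow_one]; linear_combination h
    have h3 := ha 1 h1
    omega
  have hw : w ^ 6 + w ^ 3 + 1 = 0 := by
    have h1 : (w ^ 3 - 1) * (w ^ 6 + w ^ 3 + 1) = 0 := by linear_combination ha9
    exact (mul_eq_zero.1 h1).resolve_left (sub_ne_zero.2 hw3)
  have hp : w + 1 ≠ 0 := by
    intro h
    exact hm (by linear_combination h - h2)
  have hσa : frobHom hF w = w⁻¹ := by
    rw [frobHom_apply]
    refine eq_inv_of_mul_eq_one_left ?_
    linear_combination ha9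
  have hσ' : frobHom hF w = w^2 + w^5 := by
    rw [hσa]
    field_simp
    linear_combination h2 - hw
  refine design_main hF (by norm_num) h0 hp hm hσa ?_
  intro H hiso hT hS hU
  have hdel : del w = w + w^2 + w^5 := by
    rw [del, div_eq_iff h0]
    linear_combination (-1) * hw + (0) * h2
  have hf0 : f0 w = w^2 := by
    rw [f0, div_eq_iff hp]
    linear_combination (0) * hw + (-w) * h2
  have hs2 : (w ^ 2)⁻¹ = w + w^4 := by
    refine inv_eq_of_mul_eq_one_right ?_
    linear_combination (1) * hw + (-1) * h2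
  have hT' : Q H (!![1, 0, w + w^2 + w^5; 0, 1, 0; 0, 0, 1] : Matrix (Fin 3) (Fin 3) F) := by
    have h1 := hT
    rw [tLit, hdel] at h1
    exact h1
  have hU' : Q H (!![1, 0, 0; w + w^2 + w^5, 1, 0; w^2, w + w^2 + w^5, 1] : Matrix (Fin 3) (Fin 3) F) := by
    have h1 := hU
    rw [uLit, hdel, hf0] at h1
    exact h1
  have hS' : Q H (!![w, 0, 0; 0, w + w^4, 0; 0, 0, w] : Matrix (Fin 3) (Fin 3) F) := by
    have h1 := hS
    rw [sLit, hs2] at h1
    exact h1
  have hW := word_8 hw h2 hT' hU' hS'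
  have ht : 1 + w^4 + w^5 ≠ 0 := by
    intro h
    have : (1 : F) = 0 := by
      linear_combination (w + w^2 + w^4) * h - (1 + w + w^2 + w^3) * hw - (-1 - w^3) * h2
    exact one_ne_zero this
  have hst : frobHom hF (1 + w^4 + w^5) ≠ 0 := (map_ne_zero _).2 ht
  have hrel : (1) * frobHom hF (1) = (w + w^2 + w^4) * frobHom hF (1 + w^4 + w^5) := by
    simp only [map_add, map_mul, map_pow, map_one, map_ofNat, hσ']
    linear_combination (1 - w + w^2 - w^3 - w^5 + w^7 - 2*w^10 - 6*w^12 - 3*w^13 - 6*w^14 - 9*w^15 - w^16 - 9*w^17 - 5*w^18 - 5*w^20 - w^21 - w^23) * hw + (-w^2) * h2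
  have hdel0 : del w ≠ 0 := by
    apply div_ne_zero _ h0
    have : w ^ 2 - 1 = (w + 1) * (w - 1) := by ring
    rw [this]
    exact mul_ne_zero hp hm
  have hm₁ : ((w ^ 3)⁻¹) ^ 3 = 1 := by
    rw [inv_pow, ← pow_mul]
    simpa using ha9
  have hm₁' : (w ^ 3)⁻¹ ≠ 1 := by
    intro h
    exact hw3 (inv_eq_one.1 h)
  refine top_64 hF' _ hdel0 (del_mem hF hσa h0 hU) (m₁ := (w ^ 3)⁻¹) (m₂ := 1 / (1 + w^4 + w^5)) hm₁ hm₁'
    (div_ne_zero one_ne_zero ht) ?_ (fun x hx => bSet_stable_S hF hσa h0 hS hx)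
    (fun x hx => bSet_stable hW ht one_ne_zero hst hrel hx)
  intro h
  rw [one_div, inv_pow, inv_eq_one] at h
  have : (1 : F) = 0 := by
    linear_combination (w^4 + w^5) * h - (-9 - 6*w + 6*w^2 + 9*w^3 - 2*w^4 - 8*w^5 + 8*w^7 + 5*w^8 - 3*w^9 - 3*w^10 + 3*w^11 + 6*w^12 + 4*w^13 + w^14) * hw - (4 + 3*w - 3*w^2 + 4*w^4 + w^5) * h2
  exact one_ne_zero this

end main

end Cfsg.Agent.Lib.RegUnip.SU3Q8
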