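import Cfsg.Agent.Lib.RegUnip.Words

/-!
# The root element `x_{3,0}(1)` in `⟨u, v⟩` for `n = 4`, `β = -1`.
-/

set_option autoImplicit false
set_option maxHeartbeats 4000000
set_option linter.unusedSectionVars false
set_option linter.unusedSimpArgs false
set_option linter.style.haveILetI false
set_option linter.unusedVariables false
set_option linter.unreachableTactic false
set_option linter.unusedTactic false
set_option linter.unnecessarySeqFocus false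

namespace Cfsg.Agent.Lib.RegUnip.Small4

open Matrix Matrix.SpecialLinearGroup
open Cfsg.Agent.Lib.RegUnip.Basic Cfsg.Agent.Lib.RegUnip.Roots Cfsg.Agent.Lib.RegUnip.Design
  Cfsg.Agent.Lib.RegUnip.Words

variable {F : Type*} [Field F]
variable {H : Subgroup (SpecialLinearGroup (Fin 4) F)}

lemma uM_lit : (uM : Matrix (Fin 4) (Fin 4) F) = !![1, 1, 1, 0; 0, 1, 1, 0; 0, 0, 1, 1; 0, 0, 0, 1] := by
  ext i j; fin_cases i <;> fin_cases j <;> simp [uM]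

lemma vM_lit : (vM (-1) : Matrix (Fin 4) (Fin 4) F) = !![1, 0, 0, 0; 0, 1, 1, 0; -1, 0, 1, 1; -1, 0, 0, 1] := by
  ext i j; fin_cases i <;> fin_cases j <;> simp [vM]

theorem init4 (hu : uS ∈ H) (hv : vS (-1) (by omega : 3 ≤ 4) ∈ H) :
    P H (eV 3) ((1 : F) • eV 0) := by
  have h_u : Q H (!![1, 1, 1, 0; 0, 1, 1, 0; 0, 0, 1, 1; 0, 0, 0, 1] : Matrix (Fin 4) (Fin 4) F) := ⟨uS, hu, by rw [coe_uS, uM_lit]⟩
  have h_v : Q H (!![1, 0, 0, 0; 0, 1, 1, 0; -1, 0, 1, 1; -1, 0, 0, 1] : Matrix (Fin 4) (Fin 4) F) := ⟨vS (-1) _, hv, by rw [coe_vS, vM_lit]⟩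
  have h_rho : Q H (!![1, -1, -1, 0; 0, 1, 0, 0; 0, 0, 1, 0; -1, 0, 0, 1] : Matrix (Fin 4) (Fin 4) F) :=
    Q.ldiv h_u h_v (by ext i j; fin_cases i <;> fin_cases j <;> simp [Matrix.mul_apply, Fin.sum_univ_four] <;> ring)
  have h_ur : Q H (!![1, -1, 0, 0; 0, 1, 0, 0; -1, 1, 1, 0; -1, 1, 0, 1] : Matrix (Fin 4) (Fin 4) F) :=
    Q.conj h_u h_rho (by ext i j; fin_cases i <;> fin_cases j <;> simp [Matrix.mul_apply, Fin.sum_univ_four] <;> ring)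
  have h_uur : Q H (!![0, 1, 0, 0; -1, 3, -1, 1; -2, 4, -1, 2; -1, 2, -1, 2] : Matrix (Fin 4) (Fin 4) F) :=
    Q.conj h_u h_ur (by ext i j; fin_cases i <;> fin_cases j <;> simp [Matrix.mul_apply, Fin.sum_univ_four] <;> ring)
  have h_Vuur : Q H (!![0, 1, 1, 0; 0, 1, 0, 0; -1, 2, 2, 0; -2, 3, 2, 1] : Matrix (Fin 4) (Fin 4) F) :=
    Q.conji h_v h_uur (by ext i j; fin_cases i <;> fin_cases j <;> simp [Matrix.mul_apply, Fin.sum_univ_four] <;> ring)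
  have h_Vr : Q H (!![2, -1, -2, -1; -1, 1, 0, 0; 1, 0, 1, 0; 0, -1, -2, 0] : Matrix (Fin 4) (Fin 4) F) :=
    Q.conji h_v h_rho (by ext i j; fin_cases i <;> fin_cases j <;> simp [Matrix.mul_apply, Fin.sum_univ_four] <;> ring)
  have h_uVr : Q H (!![2, -2, -1, 0; 0, 1, 0, 0; 1, -2, 0, 0; 0, -1, -1, 1] : Matrix (Fin 4) (Fin 4) F) :=
    Q.conj h_u h_Vr (by ext i j; fin_cases i <;> fin_cases j <;> simp [Matrix.mul_apply, Fin.sum_univ_four] <;> ring)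
  have h_x1 : Q H (!![1, 1, 0, 0; 0, 1, 0, 0; 0, 1, 1, 0; -1, 1, 1, 1] : Matrix (Fin 4) (Fin 4) F) :=
    Q.comm h_Vuur h_uVr (by ext i j; fin_cases i <;> fin_cases j <;> simp [Matrix.mul_apply, Fin.sum_univ_four] <;> ring)
  have h_A : Q H (!![1, 0, 0, 0; 0, 1, 0, 0; 0, 0, 1, 0; 0, 1, 0, 1] : Matrix (Fin 4) (Fin 4) F) :=
    Q.comm h_x1 h_uVr (by ext i j; fin_cases i <;> fin_cases j <;> simp [Matrix.mul_apply, Fin.sum_univ_four] <;> ring)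
  have h_UVuur : Q H (!![0, 0, 1, 1; -1, 1, 1, 1; 1, 0, 0, -1; -2, 1, 3, 3] : Matrix (Fin 4) (Fin 4) F) :=
    Q.conji h_u h_Vuur (by ext i j; fin_cases i <;> fin_cases j <;> simp [Matrix.mul_apply, Fin.sum_univ_four] <;> ring)
  have h_Ur : Q H (!![1, -1, -2, -1; -1, 0, -1, 0; 1, 1, 2, 0; -1, -1, -1, 1] : Matrix (Fin 4) (Fin 4) F) :=
    Q.conji h_u h_rho (by ext i j; fin_cases i <;> fin_cases j <;> simp [Matrix.mul_apply, Fin.sum_univ_four] <;> ring)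
  have h_c1 : Q H (!![3, -1, -2, -1; 0, 2, 2, 1; 0, -1, -1, -1; 1, 0, 0, 1] : Matrix (Fin 4) (Fin 4) F) :=
    Q.comm h_Vr h_Ur (by ext i j; fin_cases i <;> fin_cases j <;> simp [Matrix.mul_apply, Fin.sum_univ_four] <;> ring)
  have h_uc1 : Q H (!![3, -3, -1, 0; 0, 1, 0, 0; 1, -2, 0, 0; 1, -1, 0, 1] : Matrix (Fin 4) (Fin 4) F) :=
    Q.conj h_u h_c1 (by ext i j; fin_cases i <;> fin_cases j <;> simp [Matrix.mul_apply, Fin.sum_univ_four] <;> ring)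
  have h_B : Q H (!![1, 0, 0, 0; 0, 1, 0, 0; 0, 0, 1, 0; 1, -3, -2, 1] : Matrix (Fin 4) (Fin 4) F) :=
    Q.comm h_UVuur h_uc1 (by ext i j; fin_cases i <;> fin_cases j <;> simp [Matrix.mul_apply, Fin.sum_univ_four] <;> ring)
  have h_c2 : Q H (!![4, -5, -10, -5; 3, -3, -8, -4; -3, 4, 9, 4; 4, -6, -12, -5] : Matrix (Fin 4) (Fin 4) F) :=
    Q.comm h_c1 h_Vr (by ext i j; fin_cases i <;> fin_cases j <;> simp [Matrix.mul_apply, Fin.sum_univ_four] <;> ring)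
  have h_uc2 : Q H (!![4, -8, -5, 0; 0, 1, 0, 0; 1, -3, -1, 0; 4, -10, -6, 1] : Matrix (Fin 4) (Fin 4) F) :=
    Q.conj h_u h_c2 (by ext i j; fin_cases i <;> fin_cases j <;> simp [Matrix.mul_apply, Fin.sum_univ_four] <;> ring)
  have h_VVuur : Q H (!![-1, 1, 2, 1; -2, 2, 2, 1; 2, -1, -1, -1; -6, 4, 7, 4] : Matrix (Fin 4) (Fin 4) F) :=
    Q.conji h_v h_Vuur (by ext i j; fin_cases i <;> fin_cases j <;> simp [Matrix.mul_apply, Fin.sum_univ_four] <;> ring)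
  have h_C : Q H (!![1, 0, 0, 0; 0, 1, 0, 0; 0, 0, 1, 0; -1, 4, 3, 1] : Matrix (Fin 4) (Fin 4) F) :=
    Q.comm h_uc2 h_VVuur (by ext i j; fin_cases i <;> fin_cases j <;> simp [Matrix.mul_apply, Fin.sum_univ_four] <;> ring)
  have tA : P H (eV 3) (eV 1) := by
    obtain ⟨g, hg, hv⟩ := h_A
    refine ⟨g, hg, ?_⟩
    rw [hv]
    ext i j
    fin_cases i <;> fin_cases j <;> simp [eV, vecMulVec_apply, Matrix.one_apply]
  have tB : P H (eV 3) (eV 0 - (3 : F) • eV 1 - (2 : F) • eV 2) := by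
    obtain ⟨g, hg, hv⟩ := h_B
    refine ⟨g, hg, ?_⟩
    rw [hv]
    ext i j
    fin_cases i <;> fin_cases j <;> simp [eV, vecMulVec_apply, Matrix.one_apply]
  have tC : P H (eV 3) (-eV 0 + (4 : F) • eV 1 + (3 : F) • eV 2) := by
    obtain ⟨g, hg, hv⟩ := h_C
    refine ⟨g, hg, ?_⟩
    rw [hv]
    ext i j
    fin_cases i <;> fin_cases j <;> simp [eV, vecMulVec_apply, Matrix.one_apply]
  -- `B + C = e₁ + e₂`, so `e₂`, then `e₀`
  have t1 : P H (eV 3) (eV 2) := by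
    have h1 := tB.add_right tC
    have h2 : (eV 0 - (3 : F) • eV 1 - (2 : F) • eV 2) + (-eV 0 + (4 : F) • eV 1 + (3 : F) • eV 2) =
        (eV 1 + eV 2 : Fin 4 → F) := by
      funext i; simp only [Pi.add_apply, Pi.sub_apply, Pi.neg_apply, Pi.smul_apply, smul_eq_mul]; ring
    rw [h2] at h1
    exact h1.of_add_right tA
  have t0 : P H (eV 3) (eV 0) := by
    have h3 : P H (eV 3) (((3 : ℕ) • eV 1 : Fin 4 → F)) := tA.nsmul_right 3
    have h4 : P H (eV 3) (((2 : ℕ) • eV 2 : Fin 4 → F)) := t1.nsmul_right 2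
    have h1 := (tB.add_right h3).add_right h4
    have h2 : (eV 0 - (3 : F) • eV 1 - (2 : F) • eV 2) + ((3 : ℕ) • eV 1 : Fin 4 → F) +
        ((2 : ℕ) • eV 2 : Fin 4 → F) = (eV 0 : Fin 4 → F) := by
      funext i
      simp only [Pi.add_apply, Pi.sub_apply, Pi.smul_apply, smul_eq_mul]
      simp only [nsmul_eq_mul]
      push_cast; ring
    rwa [h2] at h1
  rwa [one_smul]

end Cfsg.Agent.Lib.RegUnip.Small4
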