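import Cfsg.Agent.Lib.RegUnip.Words

/-!
# The root element `x_{4,0}(β³)` in `⟨u, v⟩` for `n = 5`.
-/

set_option autoImplicit false
set_option maxHeartbeats 4000000
set_option linter.unusedSectionVars false
set_option linter.unusedSimpArgs false
set_option linter.style.haveILetI false
set_option linter.unusedVariables false

namespace Cfsg.Agent.Lib.RegUnip.Small5

open Matrix Matrix.SpecialLinearGroup
open Cfsg.Agent.Lib.RegUnip.Basic Cfsg.Agent.Lib.RegUnip.Roots Cfsg.Agent.Lib.RegUnip.Design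
  Cfsg.Agent.Lib.RegUnip.Words

variable {F : Type*} [Field F]
variable {H : Subgroup (SpecialLinearGroup (Fin 5) F)} {β : F}

lemma uM_lit : (uM : Matrix (Fin 5) (Fin 5) F) = !![1, 1, 1, 0, 0; 0, 1, 1, 0, 0; 0, 0, 1, 1, 0; 0, 0, 0, 1, 1; 0, 0, 0, 0, 1] := by
  ext i j; fin_cases i <;> fin_cases j <;> simp [uM]

lemma vM_lit : (vM β : Matrix (Fin 5) (Fin 5) F) = !![1, 0, 0, 0, 0; 0, 1, 1, 0, 0; 0, 0, 1, 1, 0; β, 0, 0, 1, 1; β, 0, 0, 0, 1] := by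
  ext i j; fin_cases i <;> fin_cases j <;> simp [vM]

theorem init5 (hu : uS ∈ H) (hv : vS β (by omega : 3 ≤ 5) ∈ H) :
    P H (eV 4) ((β ^ 3) • eV 0) := by
  have h_u : Q H (!![1, 1, 1, 0, 0; 0, 1, 1, 0, 0; 0, 0, 1, 1, 0; 0, 0, 0, 1, 1; 0, 0, 0, 0, 1] : Matrix (Fin 5) (Fin 5) F) := ⟨uS, hu, by rw [coe_uS, uM_lit]⟩
  have h_v : Q H (!![1, 0, 0, 0, 0; 0, 1, 1, 0, 0; 0, 0, 1, 1, 0; β, 0, 0, 1, 1; β, 0, 0, 0, 1] : Matrix (Fin 5) (Fin 5) F) := ⟨vS β _, hv, by rw [coe_vS, vM_lit]⟩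
  have h_rho : Q H (!![1, -1, -1, 0, 0; 0, 1, 0, 0, 0; 0, 0, 1, 0, 0; 0, 0, 0, 1, 0; β, 0, 0, 0, 1] : Matrix (Fin 5) (Fin 5) F) :=
    Q.ldiv h_u h_v (by ext i j; fin_cases i <;> fin_cases j <;> simp [Matrix.mul_apply, Fin.sum_univ_five] <;> ring)
  have h_Ur : Q H (!![1, -1, -2, -1, 0; -β, -β + 1, -β, 0, 0; β, β, β + 1, 0, 0; -β, -β, -β, 1, 0; β, β, β, 0, 1] : Matrix (Fin 5) (Fin 5) F) :=
    Q.conji h_u h_rho (by ext i j; fin_cases i <;> fin_cases j <;> simp [Matrix.mul_apply, Fin.sum_univ_five] <;> ring)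
  have h_vUr : Q H (!![1, -1, -1, 0, 0; 0, 1, 0, 0, 0; 0, 0, 1, 0, 0; 0, -β, -β, 1, 0; β, 0, -β, 0, 1] : Matrix (Fin 5) (Fin 5) F) :=
    Q.conj h_v h_Ur (by ext i j; fin_cases i <;> fin_cases j <;> simp [Matrix.mul_apply, Fin.sum_univ_five] <;> ring)
  have h_a1 : Q H (!![1, -β, -β, 0, 0; 0, -β + 1, -β, 0, 0; 0, β, β + 1, 0, 0; 0, -β, -β, 1, 0; -β^2, -4*β^2, -5*β^2 - β, -β^2 - β, 1] : Matrix (Fin 5) (Fin 5) F) :=
    Q.comm h_vUr h_Ur (by ext i j; fin_cases i <;> fin_cases j <;> simp [Matrix.mul_apply, Fin.sum_univ_five] <;> ring)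
  have h_Vr : Q H (!![1, -1, -2, -1, 0; -β, 1, 0, 0, 0; β, 0, 1, 0, 0; -β, 0, 0, 1, 0; β, β, 2*β, β, 1] : Matrix (Fin 5) (Fin 5) F) :=
    Q.conji h_v h_rho (by ext i j; fin_cases i <;> fin_cases j <;> simp [Matrix.mul_apply, Fin.sum_univ_five] <;> ring)
  have h_VVr : Q H (!![-β + 1, -1, -3, -3, -1; -β^2 - 4*β, -β + 1, -3*β, -3*β, -β; β^2 + 3*β, β, 3*β + 1, 3*β, β; -β^2 - 2*β, -β, -3*β, -3*β + 1, -β; 2*β^2 + β, 2*β, 6*β, 6*β, 2*β + 1] : Matrix (Fin 5) (Fin 5) F) :=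
    Q.conji h_v h_Vr (by ext i j; fin_cases i <;> fin_cases j <;> simp [Matrix.mul_apply, Fin.sum_univ_five] <;> ring)
  have h_uVVr : Q H (!![-2*β + 1, 2*β - 1, -2, -1, 0; -β, β + 1, 0, 0, 0; β, -β, 1, 0, 0; β^2 - β, -β^2 + 2*β, 2*β, β + 1, 0; 2*β^2 + β, -2*β^2 + β, 4*β, 2*β, 1] : Matrix (Fin 5) (Fin 5) F) :=
    Q.conj h_u h_VVr (by ext i j; fin_cases i <;> fin_cases j <;> simp [Matrix.mul_apply, Fin.sum_univ_five] <;> ring)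
  have h_w3 : Q H (!![1, 0, 0, 0, 0; 0, 1, 0, 0, 0; 0, 0, 1, 0, 0; 0, 0, 0, 1, 0; β^3, -β^3, 0, 0, 1] : Matrix (Fin 5) (Fin 5) F) :=
    Q.comm h_a1 h_uVVr (by ext i j; fin_cases i <;> fin_cases j <;> simp [Matrix.mul_apply, Fin.sum_univ_five] <;> ring)
  have h_ur : Q H (!![1, -1, 0, 0, 0; 0, 1, 0, 0, 0; 0, 0, 1, 0, 0; β, -β, 0, 1, 0; β, -β, 0, 0, 1] : Matrix (Fin 5) (Fin 5) F) :=
    Q.conj h_u h_rho (by ext i j; fin_cases i <;> fin_cases j <;> simp [Matrix.mul_apply, Fin.sum_univ_five] <;> ring)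
  have h_b1 : Q H (!![1, 0, 0, 0, 0; 0, 1, 0, 0, 0; 0, 0, 1, 0, 0; 0, -β, -β, 1, 0; 0, 0, -β, 0, 1] : Matrix (Fin 5) (Fin 5) F) :=
    Q.comm h_ur h_rho (by ext i j; fin_cases i <;> fin_cases j <;> simp [Matrix.mul_apply, Fin.sum_univ_five] <;> ring)
  have h_b2 : Q H (!![1, -β, -β, 0, 0; 0, 1, 0, 0, 0; 0, 0, 1, 0, 0; 0, 0, 0, 1, 0; -β^2, -2*β^2, -3*β^2, -β^2, 1] : Matrix (Fin 5) (Fin 5) F) :=
    Q.comm h_b1 h_Ur (by ext i j; fin_cases i <;> fin_cases j <;> simp [Matrix.mul_apply, Fin.sum_univ_five] <;> ring)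
  have h_b3 : Q H (!![1, 0, 0, 0, 0; 0, 1, 0, 0, 0; 0, 0, 1, 0, 0; 0, β^2, β^2, 1, 0; -β^3, -β^4 + 2*β^2, -β^4 + β^2, 0, 1] : Matrix (Fin 5) (Fin 5) F) :=
    Q.comm h_b2 h_ur (by ext i j; fin_cases i <;> fin_cases j <;> simp [Matrix.mul_apply, Fin.sum_univ_five] <;> ring)
  have h_w4 : Q H (!![1, 0, 0, 0, 0; 0, 1, 0, 0, 0; 0, 0, 1, 0, 0; 0, 0, 0, 1, 0; 0, β^3, 0, 0, 1] : Matrix (Fin 5) (Fin 5) F) :=
    Q.comm h_b3 h_ur (by ext i j; fin_cases i <;> fin_cases j <;> simp [Matrix.mul_apply, Fin.sum_univ_five] <;> ring)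
  have t3 : P H (eV 4) ((β ^ 3) • (eV 0 - eV 1)) := by
    obtain ⟨g, hg, hv⟩ := h_w3
    refine ⟨g, hg, ?_⟩
    rw [hv]
    ext i j
    fin_cases i <;> fin_cases j <;> simp [eV, vecMulVec_apply, Matrix.one_apply]
  have t4 : P H (eV 4) ((β ^ 3) • eV 1) := by
    obtain ⟨g, hg, hv⟩ := h_w4
    refine ⟨g, hg, ?_⟩
    rw [hv]
    ext i j
    fin_cases i <;> fin_cases j <;> simp [eV, vecMulVec_apply, Matrix.one_apply]
  have t5 := t3.add_right t4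
  rwa [← smul_add, sub_add_cancel] at t5

end Cfsg.Agent.Lib.RegUnip.Small5
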