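/-
A growth theorem: a subset of a symplectic space closed under transvection moves and scaling,
containing all non-zero vectors of a suitable non-degenerate subspace, spanning, and "connected",
is the set of all non-zero vectors.
-/
import Mathlib
import Cfsg.Agent.Lib.Classical.Alt

set_option autoImplicit false
set_option linter.unusedSectionVars false
set_option linter.unusedVariables false

namespace Cfsg.Agent.Lib.RegUnip.SpFinal

open Cfsg.Agent.Lib.Classical.Alt

variable {F V : Type*} [Field F] [AddCommGroup V] [Module F V]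
variable {B : LinearMap.BilinForm F V}

/-- Closure of a set of vectors under transvection moves and scaling. -/
structure Closed (B : LinearMap.BilinForm F V) (S : Set V) : Prop where
  ne_zero : ∀ v ∈ S, v ≠ 0
  smul : ∀ v ∈ S, ∀ s : F, s ≠ 0 → s • v ∈ S
  move : ∀ a ∈ S, ∀ b ∈ S, ∀ c : F, b + (c * B b a) • a ∈ S

/-- A subspace whose non-zero vectors are in `S` and on which `B` is non-degenerate. -/
structure Good (B : LinearMap.BilinForm F V) (S : Set V) (W : Submodule F V) : Prop where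
  nd : ∀ x ∈ W, x ≠ 0 → ∃ y ∈ W, B x y ≠ 0
  sub : ∀ x ∈ W, x ≠ 0 → x ∈ S

variable {S : Set V}

theorem Closed.add_of (hS : Closed B S) {a b : V} (ha : a ∈ S) (hb : b ∈ S) (h : B b a ≠ 0) :
    b + a ∈ S := by
  have := hS.move a ha b hb (B b a)⁻¹
  rwa [inv_mul_cancel₀ h, one_smul] at this

theorem Closed.sub_of (hS : Closed B S) {a b : V} (ha : a ∈ S) (hb : b ∈ S) (h : B b a ≠ 0) :
    b - a ∈ S := by
  have := hS.move a ha b hb (-(B b a)⁻¹)
  rwa [neg_mul, inv_mul_cancel₀ h, neg_one_smul, ← sub_eq_add_neg] at this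

/-- All non-zero vectors of a hyperbolic plane in `S`. -/
theorem plane (hS : Closed B S) {a b : V} (ha : a ∈ S) (hb : b ∈ S) (hab : B b a ≠ 0) (α β : F)
    (h : α ≠ 0 ∨ β ≠ 0) : α • a + β • b ∈ S := by
  by_cases hβ : β = 0
  · subst hβ
    have hα : α ≠ 0 := by simpa using h
    simpa using hS.smul a ha α hα
  · by_cases hα : α = 0
    · subst hα
      simpa using hS.smul b hb β hβ
    · have h1 := hS.move a ha b hb ((α / β) * (B b a)⁻¹)
      rw [mul_assoc, inv_mul_cancel₀ hab, mul_one] at h1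
      have h2 := hS.smul _ h1 β hβ
      have h3 : β • (b + (α / β) • a) = α • a + β • b := by
        rw [smul_add, smul_smul, mul_div_cancel₀ _ hβ, add_comm]
      rwa [h3] at h2

theorem Good.exists_both (hB : B.IsAlt) {W : Submodule F V} (hW : Good B S W) {x y : V} (hx : x ∈ W)
    (hy : y ∈ W) (hx0 : x ≠ 0) (hy0 : y ≠ 0) : ∃ z ∈ W, B x z ≠ 0 ∧ B y z ≠ 0 := by
  obtain ⟨z₁, hz₁, h₁⟩ := hW.nd x hx hx0
  obtain ⟨z₂, hz₂, h₂⟩ := hW.nd y hy hy0
  by_cases h₃ : B y z₁ = 0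
  · by_cases h₄ : B x z₂ = 0
    · refine ⟨z₁ + z₂, W.add_mem hz₁ hz₂, ?_, ?_⟩
      · simpa [h₄] using h₁
      · simpa [h₃] using h₂
    · exact ⟨z₂, hz₂, h₄, h₂⟩
  · exact ⟨z₁, hz₁, h₁, h₃⟩

/-- Transitivity of `Sp(W)` on the `W`-components. -/
theorem transit (hB : B.IsAlt) (hS : Closed B S) {W : Submodule F V} (hW : Good B S W) {a : V}
    (ha : ∀ η ∈ W, B η a = 0) {w : V} (hw : w ∈ W) (hw0 : w ≠ 0) (hs : w + a ∈ S) {ξ : V}
    (hξ : ξ ∈ W) (hξ0 : ξ ≠ 0) : ξ + a ∈ S := by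
  have key : ∀ w' ξ', w' ∈ W → ξ' ∈ W → B w' ξ' ≠ 0 → w' + a ∈ S → ξ' + a ∈ S := by
    intro w' ξ' hw' hξ' hne hs'
    have hm : ξ' - w' ∈ W := W.sub_mem hξ' hw'
    have h1 : B w' (ξ' - w') = B w' ξ' := by
      simp [map_sub, hB w']
    have h0 : ξ' - w' ≠ 0 := by
      intro h
      rw [h] at h1
      simp at h1
      exact hne h1.symm
    have hmS := hW.sub _ hm h0
    have h2 : B (w' + a) (ξ' - w') ≠ 0 := by
      have h3 : B a (ξ' - w') = 0 := by
        have := alt_neg hB (ξ' - w') a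
        rw [this, ha _ hm, neg_zero]
      simp only [map_add, LinearMap.add_apply, h3, add_zero, h1]
      exact hne
    have := hS.add_of hmS hs' h2
    have h4 : w' + a + (ξ' - w') = ξ' + a := by abel
    rwa [h4] at this
  obtain ⟨z, hz, h1, h2⟩ := hW.exists_both hB hw hξ hw0 hξ0
  have h3 := key w z hw hz h1 hs
  have h4 : B z ξ ≠ 0 := by
    have := alt_neg hB ξ z
    intro h
    rw [h] at this
    exact h2 (by simpa using this.symm)
  exact key z ξ hz hξ h4 h3

variable [FiniteDimensional F V]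

/-- The growth step. -/
theorem grow (hB : B.IsAlt) (hN : B.Nondegenerate) (hS : Closed B S) (hspan : Submodule.span F S = ⊤)
    {W : Submodule F V} (hW : Good B S W) {ξ₁ ξ₂ : V} (hξ₁ : ξ₁ ∈ W) (hξ₂ : ξ₂ ∈ W) (hξ₁0 : ξ₁ ≠ 0)
    (hξ₂0 : ξ₂ ≠ 0) (hξ0 : ξ₁ + ξ₂ ≠ 0) (hξ12 : B ξ₁ ξ₂ = 0) {s : V} (hs : s ∈ S) (hsW : s ∉ W)
    {η : V} (hη : η ∈ W) (hηs : B η s ≠ 0) :
    ∃ W' : Submodule F V, Good B S W' ∧ W ≤ W' ∧ W < W' := by
  classical
  have hrefl : B.IsRefl := hB.isRefl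
  have hanti : ∀ x y, B y x = - B x y := fun x y => alt_neg hB x y
  have hdisj : Disjoint W (B.orthogonal W) := by
    rw [Submodule.disjoint_def]
    intro x hx hx'
    by_contra hx0
    obtain ⟨y, hy, hxy⟩ := hW.nd x hx hx0
    apply hxy
    have := (LinearMap.BilinForm.mem_orthogonal_iff.1 hx') y hy
    have h2 : B y x = 0 := this
    rw [hanti y x, h2, neg_zero]
  have hcompl : IsCompl W (B.orthogonal W) :=
    (LinearMap.BilinForm.isCompl_orthogonal_iff_disjoint hrefl).2 hdisj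
  have hdec : ∀ v : V, ∃ x ∈ W, ∃ b, (∀ y ∈ W, B y b = 0) ∧ v = x + b := by
    intro v
    have : v ∈ W ⊔ B.orthogonal W := by rw [hcompl.sup_eq_top]; trivial
    obtain ⟨x, hx, b, hb, rfl⟩ := Submodule.mem_sup.1 this
    exact ⟨x, hx, b, fun y hy => (LinearMap.BilinForm.mem_orthogonal_iff.1 hb) y hy, rfl⟩
  obtain ⟨w₁, hw₁, a', ha', rfl⟩ := hdec s
  have hw₁0 : w₁ ≠ 0 := by
    rintro rfl
    apply hηs
    simpa using ha' η hη
  have ha'0 : a' ≠ 0 := by
    rintro rfl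
    apply hsW
    simpa using hw₁
  have hA1 : ∀ ξ ∈ W, ξ ≠ 0 → ξ + a' ∈ S := fun ξ hξ h0 => transit hB hS hW ha' hw₁ hw₁0 hs hξ h0
  have ha'r : ∀ y ∈ W, B a' y = 0 := fun y hy => by rw [hanti y a', ha' y hy, neg_zero]
  -- the second vector
  obtain ⟨b₂, hb₂, hb₂r, hb₂A, he⟩ : ∃ b₂, (∀ y ∈ W, B y b₂ = 0) ∧ (∀ y ∈ W, B b₂ y = 0) ∧
      (∀ ξ ∈ W, ξ ≠ 0 → ξ + b₂ ∈ S) ∧ B a' b₂ ≠ 0 := by
    obtain ⟨s', hs', hne⟩ : ∃ s' ∈ S, B a' s' ≠ 0 := by
      by_contra hcon
      push Not at hcon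
      apply ha'0
      apply hN.1
      intro y
      have hy : y ∈ Submodule.span F S := by rw [hspan]; trivial
      induction hy using Submodule.span_induction with
      | mem x hx => exact hcon x hx
      | zero => simp
      | add x y _ _ hx hy => simp [hx, hy]
      | smul c x _ hx => simp [hx]
    obtain ⟨ξ', hξ', b', hb', rfl⟩ := hdec s'
    have hne' : B a' b' ≠ 0 := by
      simpa [ha'r ξ' hξ'] using hne
    have hb'r : ∀ y ∈ W, B b' y = 0 := fun y hy => by rw [hanti y b', hb' y hy, neg_zero]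
    by_cases hξ'0 : ξ' = 0
    · subst hξ'0
      rw [zero_add] at hs'
      refine ⟨a' + b', ?_, ?_, ?_, ?_⟩
      · intro y hy
        simp [ha' y hy, hb' y hy]
      · intro y hy
        simp [ha'r y hy, hb'r y hy]
      · intro ξ hξ hξ0
        have h1 := hA1 ξ hξ hξ0
        have h2 : B (ξ + a') b' ≠ 0 := by
          simpa [hb' ξ hξ] using hne'
        have := hS.add_of hs' h1 h2
        rwa [add_assoc] at this
      · simpa [hB a'] using hne'
    · exact ⟨b', hb', hb'r, fun ξ hξ hξ0 => transit hB hS hW hb' hξ' hξ'0 hs' hξ hξ0, hne'⟩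
  -- `a'` and `b₂` are in `S`
  set ξ := ξ₁ + ξ₂ with hξdef
  have hξW : ξ ∈ W := W.add_mem hξ₁ hξ₂
  have he' : B b₂ a' = - B a' b₂ := hanti a' b₂
  have hp₁ := hA1 ξ₁ hξ₁ hξ₁0
  have hp₂ := hb₂A ξ₂ hξ₂ hξ₂0
  have hq : ξ + a' + b₂ ∈ S := by
    have h1 : B (ξ₂ + b₂) (ξ₁ + a') ≠ 0 := by
      have h2 : B ξ₂ ξ₁ = 0 := by rw [hanti ξ₁ ξ₂, hξ12, neg_zero]
      simp only [map_add, LinearMap.add_apply, h2, ha' ξ₂ hξ₂, hb₂r ξ₁ hξ₁, zero_add, he']
      exact neg_ne_zero.2 he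
    have := hS.add_of hp₁ hp₂ h1
    have h3 : ξ₂ + b₂ + (ξ₁ + a') = ξ + a' + b₂ := by
      rw [hξdef]; abel
    rwa [h3] at this
  have hb₂S : b₂ ∈ S := by
    have hp := hA1 ξ hξW hξ0
    have h1 : B (ξ + a' + b₂) (ξ + a') ≠ 0 := by
      simp only [map_add, LinearMap.add_apply, hB ξ, hB a', ha' ξ hξW, ha'r ξ hξW, hb₂r ξ hξW, he']
      simpa using he
    have := hS.sub_of hp hq h1
    have h3 : ξ + a' + b₂ - (ξ + a') = b₂ := by abel
    rwa [h3] at this
  have ha'S : a' ∈ S := by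
    have hp := hb₂A ξ hξW hξ0
    have h1 : B (ξ + a' + b₂) (ξ + b₂) ≠ 0 := by
      simp only [map_add, LinearMap.add_apply, hB ξ, hB b₂, hb₂ ξ hξW, hb₂r ξ hξW, ha'r ξ hξW]
      simpa using he
    have := hS.sub_of hp hq h1
    have h3 : ξ + a' + b₂ - (ξ + b₂) = a' := by abel
    rwa [h3] at this
  -- the plane
  have hba : B b₂ a' ≠ 0 := by
    rw [he']; exact neg_ne_zero.2 he
  let W₁ : Submodule F V := Submodule.span F {a', b₂}
  have hW₁mem : ∀ v ∈ W₁, ∃ α β : F, v = α • a' + β • b₂ := by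
    intro v hv
    obtain ⟨α, β, rfl⟩ := Submodule.mem_span_pair.1 hv
    exact ⟨α, β, rfl⟩
  have ha'W₁ : a' ∈ W₁ := Submodule.subset_span (by simp)
  have hb₂W₁ : b₂ ∈ W₁ := Submodule.subset_span (by simp)
  have hW₁ : Good B S W₁ := by
    refine ⟨?_, ?_⟩
    · intro x hx hx0
      obtain ⟨α, β, rfl⟩ := hW₁mem x hx
      by_cases hα : α = 0
      · have hβ : β ≠ 0 := by
          rintro rfl
          apply hx0
          simp [hα]
        refine ⟨a', ha'W₁, ?_⟩
        simp only [map_add, map_smul, LinearMap.add_apply, LinearMap.smul_apply, hα, hB a', smul_eq_mul,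
          zero_mul, zero_add]
        exact mul_ne_zero hβ hba
      · refine ⟨b₂, hb₂W₁, ?_⟩
        simp only [map_add, map_smul, LinearMap.add_apply, LinearMap.smul_apply, hB b₂, smul_eq_mul,
          mul_zero, add_zero]
        exact mul_ne_zero hα he
    · intro x hx hx0
      obtain ⟨α, β, rfl⟩ := hW₁mem x hx
      apply plane hS ha'S hb₂S hba
      by_contra hcon
      push Not at hcon
      apply hx0
      simp [hcon.1, hcon.2]
  have hW₁orth : ∀ v ∈ W₁, ∀ y ∈ W, B y v = 0 ∧ B v y = 0 := by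
    intro v hv y hy
    obtain ⟨α, β, rfl⟩ := hW₁mem v hv
    constructor
    · simp [ha' y hy, hb₂ y hy]
    · simp [ha'r y hy, hb₂r y hy]
  refine ⟨W ⊔ W₁, ⟨?_, ?_⟩, le_sup_left, ?_⟩
  · intro x hx hx0
    obtain ⟨ζ, hζ, b, hb, rfl⟩ := Submodule.mem_sup.1 hx
    by_cases hζ0 : ζ = 0
    · subst hζ0
      rw [zero_add] at hx0 ⊢
      obtain ⟨y, hy, hne⟩ := hW₁.nd b hb hx0
      exact ⟨y, Submodule.mem_sup_right hy, by simpa using hne⟩
    · obtain ⟨y, hy, hne⟩ := hW.nd ζ hζ hζ0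
      refine ⟨y, Submodule.mem_sup_left hy, ?_⟩
      simpa [(hW₁orth b hb y hy).2] using hne
  · intro x hx hx0
    obtain ⟨ζ, hζ, b, hb, rfl⟩ := Submodule.mem_sup.1 hx
    by_cases hζ0 : ζ = 0
    · subst hζ0
      rw [zero_add] at hx0 ⊢
      exact hW₁.sub b hb hx0
    · by_cases hb0 : b = 0
      · subst hb0
        rw [add_zero] at hx0 ⊢
        exact hW.sub ζ hζ hζ0
      · have h1 : ∀ y ∈ W₁, B y ζ = 0 := fun y hy => (hW₁orth y hy ζ hζ).2
        have h2 : a' + ζ ∈ S := by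
          rw [add_comm]; exact hA1 ζ hζ hζ0
        have h3 := transit hB hS hW₁ h1 ha'W₁ (hS.ne_zero a' ha'S) h2 hb hb0
        rwa [add_comm] at h3
  · refine lt_of_le_of_ne le_sup_left ?_
    intro heq
    have h1 : a' ∈ W := by
      rw [heq]
      exact Submodule.mem_sup_right ha'W₁
    obtain ⟨y, hy, hne⟩ := hW.nd a' h1 ha'0
    exact hne (ha'r y hy)

/-- The growth theorem. -/
theorem all_mem (hB : B.IsAlt) (hN : B.Nondegenerate) (hS : Closed B S) (hspan : Submodule.span F S = ⊤)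
    {W₀ : Submodule F V} (hW₀ : Good B S W₀) {ξ₁ ξ₂ : V} (hξ₁ : ξ₁ ∈ W₀) (hξ₂ : ξ₂ ∈ W₀) (hξ₁0 : ξ₁ ≠ 0)
    (hξ₂0 : ξ₂ ≠ 0) (hξ0 : ξ₁ + ξ₂ ≠ 0) (hξ12 : B ξ₁ ξ₂ = 0)
    (hconn : ∀ W : Submodule F V, W₀ ≤ W → Good B S W → W ≠ ⊤ → ∃ s ∈ S, s ∉ W ∧ ∃ η ∈ W, B η s ≠ 0)
    (v : V) (hv : v ≠ 0) : v ∈ S := by
  have main : ∀ k : ℕ, ∀ W : Submodule F V, W₀ ≤ W → Good B S W →
      Module.finrank F V - Module.finrank F W = k → Good B S ⊤ := by
    intro k
    induction k using Nat.strong_induction_on with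
    | _ k ih =>
      intro W hle hW hk
      by_cases htop : W = ⊤
      · rwa [htop] at hW
      obtain ⟨s, hs, hsW, η, hη, hηs⟩ := hconn W hle hW htop
      obtain ⟨W', hW', hWW', hlt⟩ := grow hB hN hS hspan hW (hle hξ₁) (hle hξ₂) hξ₁0 hξ₂0 hξ0 hξ12 hs hsW hη hηs
      have h1 := Submodule.finrank_lt_finrank_of_lt hlt
      have h2 := Submodule.finrank_le W'
      exact ih _ (by omega) W' (hle.trans hWW') hW' rfl
  exact (main _ W₀ le_rfl hW₀ rfl).sub v trivial hv

/-- Connectivity from a chain of vectors of `S`. -/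
theorem conn_chain (hB : B.IsAlt) (hN : B.Nondegenerate) {x : ℕ → V} (hxS : ∀ i, x i ∈ S)
    (hchain : ∀ i, B (x i) (x (i + 1)) ≠ 0) (hspan : Submodule.span F (Set.range x) = ⊤)
    {W : Submodule F V} (hW : Good B S W) {y : V} (hy : y ∈ W) (hy0 : y ≠ 0) (htop : W ≠ ⊤) :
    ∃ s ∈ S, s ∉ W ∧ ∃ η ∈ W, B η s ≠ 0 := by
  by_contra hcon
  push Not at hcon
  have hanti : ∀ x y, B y x = - B x y := fun x y => alt_neg hB x y
  have h1 : ∀ i, x i ∈ W ∨ ∀ η ∈ W, B η (x i) = 0 := by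
    intro i
    by_cases h : x i ∈ W
    · exact Or.inl h
    · exact Or.inr (hcon _ (hxS i) h)
  by_cases h0 : x 0 ∈ W
  · have h2 : ∀ i, x i ∈ W := by
      intro i
      induction i with
      | zero => exact h0
      | succ i ih =>
        rcases h1 (i + 1) with h | h
        · exact h
        · exact absurd (h _ ih) (hchain i)
    apply htop
    rw [eq_top_iff, ← hspan, Submodule.span_le]
    rintro _ ⟨i, rfl⟩
    exact h2 i
  · have h2 : ∀ i, ∀ η ∈ W, B η (x i) = 0 := by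
      intro i
      induction i with
      | zero =>
        rcases h1 0 with h | h
        · exact absurd h h0
        · exact h
      | succ i ih =>
        rcases h1 (i + 1) with h | h
        · exfalso
          have h3 := ih _ h
          rw [hanti (x i) (x (i + 1))] at h3
          exact hchain i (by simpa using h3)
        · exact h
    apply hy0
    apply hN.1
    intro v
    have hv : v ∈ Submodule.span F (Set.range x) := by rw [hspan]; trivial
    induction hv using Submodule.span_induction with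
    | mem z hz =>
      obtain ⟨i, rfl⟩ := hz
      exact h2 i y hy
    | zero => simp
    | add a b _ _ ha hb => simp [ha, hb]
    | smul c a _ ha => simp [ha]

/-- Connectivity from a star of vectors of `S`. -/
theorem conn_star {x : ℕ → V} (hxS : ∀ i, x i ∈ S) {z : V} (hz : ∀ i, B z (x i) ≠ 0)
    (hspan : Submodule.span F (Set.range x) = ⊤) {W : Submodule F V} (hzW : z ∈ W) (htop : W ≠ ⊤) :
    ∃ s ∈ S, s ∉ W ∧ ∃ η ∈ W, B η s ≠ 0 := by
  by_contra hcon
  push Not at hcon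
  apply htop
  rw [eq_top_iff, ← hspan, Submodule.span_le]
  rintro _ ⟨i, rfl⟩
  by_contra hi
  exact hz i (hcon _ (hxS i) hi z hzW)

/-- A hyperbolic plane in a closed set is good. -/
theorem good_plane (hB : B.IsAlt) (hS : Closed B S) {a b : V} (ha : a ∈ S) (hb : b ∈ S) (hab : B b a ≠ 0) :
    Good B S (Submodule.span F {a, b}) := by
  have hanti : ∀ x y, B y x = - B x y := fun x y => alt_neg hB x y
  have he : B a b ≠ 0 := by
    rw [hanti b a]; exact neg_ne_zero.2 hab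
  refine ⟨?_, ?_⟩
  · intro x hx hx0
    obtain ⟨α, β, rfl⟩ := Submodule.mem_span_pair.1 hx
    by_cases hα : α = 0
    · have hβ : β ≠ 0 := by
        rintro rfl
        apply hx0
        simp [hα]
      refine ⟨a, Submodule.subset_span (by simp), ?_⟩
      simp only [map_add, map_smul, LinearMap.add_apply, LinearMap.smul_apply, hα, hB a, smul_eq_mul,
        zero_mul, zero_add]
      exact mul_ne_zero hβ hab
    · refine ⟨b, Submodule.subset_span (by simp), ?_⟩
      simp only [map_add, map_smul, LinearMap.add_apply, LinearMap.smul_apply, hB b, smul_eq_mul,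
        mul_zero, add_zero]
      exact mul_ne_zero hα he
  · intro x hx hx0
    obtain ⟨α, β, rfl⟩ := Submodule.mem_span_pair.1 hx
    apply plane hS ha hb hab
    by_contra hcon
    push Not at hcon
    apply hx0
    simp [hcon.1, hcon.2]

end Cfsg.Agent.Lib.RegUnip.SpFinal
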