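/-
Transvection calculus in the isometry group of an alternating form: the set of vectors with full
root groups in a subgroup, pairs from conjugation, and the Heisenberg group of a vector.
-/
import Mathlib
import Cfsg.Agent.Lib.Classical.Alt
import Cfsg.Agent.Lib.RegUnip.SpFinal

set_option autoImplicit false
set_option linter.unusedSectionVars false
set_option linter.unusedVariables false

namespace Cfsg.Agent.Lib.RegUnip.SpCalc

open Cfsg.Agent.Lib.Classical.Alt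
open Cfsg.Agent.Lib.RegUnip.SpFinal

variable {F V : Type*} [Field F] [AddCommGroup V] [Module F V]
variable {B : LinearMap.BilinForm F V}

theorem apply_inv_apply (g : V ≃ₗ[F] V) (x : V) : g (g⁻¹ x) = x := by
  show (g * g⁻¹) x = x
  rw [mul_inv_cancel]; rfl

theorem inv_apply_apply (g : V ≃ₗ[F] V) (x : V) : g⁻¹ (g x) = x := by
  show (g⁻¹ * g) x = x
  rw [inv_mul_cancel]; rfl

theorem isom_inv {g : V ≃ₗ[F] V} (hg : g ∈ isomGroup B) (x y : V) : B (g⁻¹ x) y = B x (g y) := by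
  have := hg (g⁻¹ x) y
  rw [apply_inv_apply] at this
  exact this.symm

theorem tv_zero (hB : B.IsAlt) (w : V) : tv hB w 0 = 1 := by
  ext x
  simp

theorem tv_pow (hB : B.IsAlt) (w : V) (c : F) (k : ℕ) : (tv hB w c) ^ k = tv hB w ((k : F) * c) := by
  induction k with
  | zero => simp [tv_zero]
  | succ k ih =>
    rw [pow_succ, ih, tv_mul]
    congr 1
    push_cast
    ring

theorem tv_zero_vec (hB : B.IsAlt) (c : F) : tv hB (0 : V) c = 1 := by
  ext x
  simp

/-- The additive group of parameters. -/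
def par (hB : B.IsAlt) (H : Subgroup (V ≃ₗ[F] V)) (w : V) : AddSubgroup F where
  carrier := {e | tv hB w e ∈ H}
  add_mem' := by
    intro a b ha hb
    show tv hB w (a + b) ∈ H
    rw [← tv_mul]
    exact H.mul_mem ha hb
  zero_mem' := by
    show tv hB w 0 ∈ H
    rw [tv_zero]
    exact H.one_mem
  neg_mem' := by
    intro a ha
    show tv hB w (-a) ∈ H
    rw [← tv_inv]
    exact H.inv_mem ha

theorem mem_par {hB : B.IsAlt} {H : Subgroup (V ≃ₗ[F] V)} {w : V} {e : F} :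
    e ∈ par hB H w ↔ tv hB w e ∈ H := Iff.rfl

/-- Vectors with full root group in `H`. -/
def Sset (hB : B.IsAlt) (H : Subgroup (V ≃ₗ[F] V)) : Set V :=
  {v | v ≠ 0 ∧ ∀ c, tv hB v c ∈ H}

theorem Sset_closed (hB : B.IsAlt) (H : Subgroup (V ≃ₗ[F] V)) : Closed B (Sset hB H) := by
  refine ⟨fun v hv => hv.1, ?_, ?_⟩
  · intro v hv s hs
    refine ⟨smul_ne_zero hs hv.1, fun c => ?_⟩
    rw [tv_smul]
    exact hv.2 _
  · intro a ha b hb c
    refine ⟨?_, fun c' => ?_⟩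
    · intro h0
      apply hb.1
      have : (tv hB a c) b = 0 := by rw [tv_apply]; exact h0
      exact (LinearEquiv.map_eq_zero_iff _).1 this
    · have h1 := conj_tv hB (tv hB a c) (tv_mem_isomGroup hB a c) b c'
      rw [tv_apply] at h1
      rw [← h1]
      exact H.mul_mem (H.mul_mem (ha.2 c) (hb.2 c')) (H.inv_mem (ha.2 c))

theorem Sset_stable {hB : B.IsAlt} {H : Subgroup (V ≃ₗ[F] V)} {g : V ≃ₗ[F] V} (hgH : g ∈ H)
    (hg : g ∈ isomGroup B) {v : V} (hv : v ∈ Sset hB H) : g v ∈ Sset hB H := by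
  refine ⟨?_, fun c => ?_⟩
  · intro h0
    apply hv.1
    simpa using h0
  · rw [← conj_tv hB g hg]
    exact H.mul_mem (H.mul_mem hgH (hv.2 c)) (H.inv_mem hgH)

theorem tv_conj_mem {hB : B.IsAlt} {H : Subgroup (V ≃ₗ[F] V)} {g : V ≃ₗ[F] V} (hgH : g ∈ H)
    (hg : g ∈ isomGroup B) {v : V} {c : F} (hv : tv hB v c ∈ H) : tv hB (g v) c ∈ H := by
  rw [← conj_tv hB g hg]
  exact H.mul_mem (H.mul_mem hgH hv) (H.inv_mem hgH)

/-- The pair of transvections obtained from a conjugate of `u`. -/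
theorem pair_mem {hB : B.IsAlt} {H : Subgroup (V ≃ₗ[F] V)} {u : V ≃ₗ[F] V} (huH : u ∈ H)
    (hu : u ∈ isomGroup B) (y : V) (c : F)
    (hv : tv hB y c * u * (tv hB y c)⁻¹ ∈ H) : tv hB y c * tv hB (u y) (-c) ∈ H := by
  have h1 : tv hB (u y) (-c) = u * (tv hB y c)⁻¹ * u⁻¹ := by
    rw [tv_inv, conj_tv hB u hu]
  have h2 : tv hB y c * tv hB (u y) (-c) = (tv hB y c * u * (tv hB y c)⁻¹) * u⁻¹ := by
    rw [h1]; group
  rw [h2]
  exact H.mul_mem hv (H.inv_mem huH)

/-- The generated subgroup. -/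
def gen3 (u g₁ g₂ : V ≃ₗ[F] V) : Subgroup (V ≃ₗ[F] V) :=
  Subgroup.closure {u, g₁ * u * g₁⁻¹, g₂ * u * g₂⁻¹}

theorem gen3_u (u g₁ g₂ : V ≃ₗ[F] V) : u ∈ gen3 u g₁ g₂ :=
  Subgroup.subset_closure (by simp)
theorem gen3_v (u g₁ g₂ : V ≃ₗ[F] V) : g₁ * u * g₁⁻¹ ∈ gen3 u g₁ g₂ :=
  Subgroup.subset_closure (by simp)
theorem gen3_w (u g₁ g₂ : V ≃ₗ[F] V) : g₂ * u * g₂⁻¹ ∈ gen3 u g₁ g₂ :=
  Subgroup.subset_closure (by simp)

theorem gen3_le {u g₁ g₂ : V ≃ₗ[F] V} (hu : u ∈ isomGroup B) (h₁ : g₁ ∈ isomGroup B)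
    (h₂ : g₂ ∈ isomGroup B) : gen3 u g₁ g₂ ≤ isomGroup B := by
  refine (Subgroup.closure_le _).2 ?_
  intro x hx
  rcases hx with rfl | rfl | rfl
  · exact hu
  · exact (isomGroup B).mul_mem ((isomGroup B).mul_mem h₁ hu) ((isomGroup B).inv_mem h₁)
  · exact (isomGroup B).mul_mem ((isomGroup B).mul_mem h₂ hu) ((isomGroup B).inv_mem h₂)

theorem eq_of_all [FiniteDimensional F V] (hB : B.IsAlt) (hN : B.Nondegenerate) {H : Subgroup (V ≃ₗ[F] V)}
    (hle : H ≤ isomGroup B) (hall : ∀ v : V, v ≠ 0 → v ∈ Sset hB H) : H = isomGroup B := by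
  apply le_antisymm hle
  rw [← tGroup_eq_isomGroup hN hB]
  refine (Subgroup.closure_le _).2 ?_
  rintro g ⟨w, c, hg⟩
  by_cases hw : w = 0
  · have : g = 1 := by
      ext x
      rw [hg, hw]
      simp
    rw [this]
    exact H.one_mem
  · have : g = tv hB w c := by
      ext x
      rw [hg, tv_apply]
    rw [this]
    exact (hall w hw).2 c

/-! ### The Heisenberg group of a vector -/

/-- `g` is the element `x ↦ x + B(x,p) z + B(x,z) p + ζ B(x,z) z`. -/
def IsY (B : LinearMap.BilinForm F V) (z : V) (g : V ≃ₗ[F] V) (p : V) (ζ : F) : Prop :=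
  ∀ x, g x = x + (B x p) • z + (B x z) • p + (ζ * B x z) • z

section Y
variable {z p p' : V} {g g' : V ≃ₗ[F] V} {ζ ζ' : F}

theorem IsY.mul (hB : B.IsAlt) (hp : B z p = 0) (hp' : B z p' = 0) (h : IsY B z g p ζ) (h' : IsY B z g' p' ζ') :
    IsY B z (g * g') (p + p') (ζ + ζ' + B p' p) := by
  intro x
  have hzz : B z z = 0 := hB z
  have h1 : B p' z = 0 := by rw [alt_neg hB z p', hp', neg_zero]
  show g (g' x) = _
  rw [h, h']
  simp only [map_add, map_smul, LinearMap.add_apply, LinearMap.smul_apply, hp, hzz, h1, smul_eq_mul,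
    mul_zero, add_zero]
  module

theorem IsY.inv (hB : B.IsAlt) (hp : B z p = 0) (h : IsY B z g p ζ) : IsY B z g⁻¹ (-p) (-ζ) := by
  intro x
  have hzz : B z z = 0 := hB z
  have hpp : B p p = 0 := hB p
  have h1 : B p z = 0 := by rw [alt_neg hB z p, hp, neg_zero]
  have h2 : g (x + (B x (-p)) • z + (B x z) • (-p) + (-ζ * B x z) • z) = x := by
    rw [h]
    simp only [map_add, map_smul, map_neg, LinearMap.add_apply, LinearMap.smul_apply, hp, hzz, hpp, h1,
      LinearMap.neg_apply, smul_eq_mul, mul_zero, add_zero, neg_zero]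
    module
  calc g⁻¹ x = g⁻¹ (g (x + (B x (-p)) • z + (B x z) • (-p) + (-ζ * B x z) • z)) := by rw [h2]
    _ = _ := inv_apply_apply _ _

theorem IsY.conj {h : V ≃ₗ[F] V} (hh : h ∈ isomGroup B) (hz : h z = z) (hg : IsY B z g p ζ) :
    IsY B z (h * g * h⁻¹) (h p) ζ := by
  intro x
  show h (g (h⁻¹ x)) = _
  rw [hg]
  simp only [map_add, map_smul, hz, apply_inv_apply, isom_inv hh]

theorem IsY.eq_tv (hB : B.IsAlt) (h : IsY B z g 0 ζ) : g = tv hB z ζ := by
  ext x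
  rw [h, tv_apply]
  simp

theorem isY_tv (hB : B.IsAlt) (z : V) (ζ : F) : IsY B z (tv hB z ζ) 0 ζ := by
  intro x
  rw [tv_apply]
  simp

end Y

theorem IsY.congr {z p p' : V} {g : V ≃ₗ[F] V} {ζ ζ' : F} (h : IsY B z g p ζ) (hp : p = p') (hζ : ζ = ζ') :
    IsY B z g p' ζ' := by
  subst hp; subst hζ; exact h

/-- A pair of transvections, moved by an element. -/
theorem pair_conj {hB : B.IsAlt} {H : Subgroup (V ≃ₗ[F] V)} {g : V ≃ₗ[F] V} (hgH : g ∈ H)
    (hg : g ∈ isomGroup B) {p q : V} {c d : F} (h : tv hB p c * tv hB q d ∈ H) :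
    tv hB (g p) c * tv hB (g q) d ∈ H := by
  have h1 : tv hB (g p) c * tv hB (g q) d = g * (tv hB p c * tv hB q d) * g⁻¹ := by
    rw [← conj_tv hB g hg, ← conj_tv hB g hg]
    group
  rw [h1]
  exact H.mul_mem (H.mul_mem hgH h) (H.inv_mem hgH)

theorem pow_apply_succ (u : V ≃ₗ[F] V) (i : ℕ) (x : V) : (u ^ (i + 1)) x = u ((u ^ i) x) := by
  rw [pow_succ']; rfl

theorem pow_mem_isom {u : V ≃ₗ[F] V} (hu : u ∈ isomGroup B) (i : ℕ) : u ^ i ∈ isomGroup B :=
  (isomGroup B).pow_mem hu i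

theorem pow_fix {u : V ≃ₗ[F] V} {z : V} (hz : u z = z) (i : ℕ) : (u ^ i) z = z := by
  induction i with
  | zero => rfl
  | succ i ih => rw [pow_apply_succ, ih, hz]

/-- Cyclic vectors are moved to cyclic vectors by commuting surjections. -/
theorem span_image {u : V ≃ₗ[F] V} {a : V} (hspan : Submodule.span F (Set.range fun i : ℕ => (u ^ i) a) = ⊤)
    (ξ : V →ₗ[F] V) (hξ : Function.Surjective ξ) (hc : ∀ x, ξ (u x) = u (ξ x)) :
    Submodule.span F (Set.range fun i : ℕ => (u ^ i) (ξ a)) = ⊤ := by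
  have h1 : ∀ i : ℕ, (u ^ i) (ξ a) = ξ ((u ^ i) a) := by
    intro i
    induction i with
    | zero => rfl
    | succ i ih => rw [pow_apply_succ, pow_apply_succ, ih, hc]
  have h2 : (Set.range fun i : ℕ => (u ^ i) (ξ a)) = ξ '' (Set.range fun i : ℕ => (u ^ i) a) := by
    ext x
    constructor
    · rintro ⟨i, rfl⟩
      exact ⟨_, ⟨i, rfl⟩, (h1 i).symm⟩
    · rintro ⟨_, ⟨i, rfl⟩, rfl⟩
      exact ⟨i, h1 i⟩
  rw [h2, ← Submodule.map_span, hspan, Submodule.map_top, LinearMap.range_eq_top]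
  exact hξ

/-- Halving in a finite field. -/
theorem half_mem [Finite F] (h2 : (2 : F) ≠ 0) (P : AddSubgroup F) {x : F} (hx : 2 * x ∈ P) : x ∈ P := by
  classical
  have := Fintype.ofFinite F
  have hq : 2 ≤ Fintype.card F := Fintype.one_lt_card
  have h3 : (2 : F) ^ (Fintype.card F - 1) = 1 := FiniteField.pow_card_sub_one_eq_one _ h2
  have h4 : x = (2 ^ (Fintype.card F - 2)) • (2 * x) := by
    rw [nsmul_eq_mul]
    push_cast
    rw [← mul_assoc, ← pow_succ, show Fintype.card F - 2 + 1 = Fintype.card F - 1 by omega, h3, one_mul]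
  rw [h4]
  exact P.nsmul_mem hx _

/-- A multiplicative generator of a finite field. -/
theorem exists_gen (F : Type*) [Field F] [Finite F] : ∃ ρ : F, ρ ≠ 0 ∧ ∀ x : F, x ≠ 0 → ∃ k : ℕ, ρ ^ k = x := by
  classical
  have := Fintype.ofFinite F
  obtain ⟨g, hg⟩ := IsCyclic.exists_generator (α := Fˣ)
  refine ⟨g, g.ne_zero, fun x hx => ?_⟩
  have h1 : Units.mk0 x hx ∈ Subgroup.zpowers g := hg _
  rw [← mem_powers_iff_mem_zpowers] at h1
  obtain ⟨k, hk⟩ := h1
  refine ⟨k, ?_⟩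
  have := congrArg Units.val hk
  simpa using this

end Cfsg.Agent.Lib.RegUnip.SpCalc
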