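/-
Three conjugate regular unipotent elements generate `Sp(V)` in characteristic two, `|F| ≥ 4`: the abstract design.
-/
import Mathlib
import Cfsg.Agent.Lib.RegUnip.SpCalc

set_option autoImplicit false
set_option linter.unusedSectionVars false
set_option linter.unusedVariables false
set_option linter.unusedSimpArgs false

namespace Cfsg.Agent.Lib.RegUnip.SpEven

open Cfsg.Agent.Lib.Classical.Alt
open Cfsg.Agent.Lib.RegUnip.SpFinal
open Cfsg.Agent.Lib.RegUnip.SpCalc

variable {F V : Type*} [Field F] [AddCommGroup V] [Module F V]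
variable {B : LinearMap.BilinForm F V}

/-- The relation of two transvections (with parameter `1`) in characteristic two. -/
def Rel (hB : B.IsAlt) (H : Subgroup (V ≃ₗ[F] V)) (p q : V) : Prop :=
  tv hB p 1 * tv hB q 1 ∈ H

section rel
variable {hB : B.IsAlt} {H : Subgroup (V ≃ₗ[F] V)}

theorem tv_sq (h2 : (2 : F) = 0) (hB : B.IsAlt) (p : V) : tv hB p 1 * tv hB p 1 = 1 := by
  rw [tv_mul, one_add_one_eq_two, h2, tv_zero]

theorem tv_inv_one (h2 : (2 : F) = 0) (hB : B.IsAlt) (p : V) : (tv hB p 1)⁻¹ = tv hB p 1 :=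
  inv_eq_of_mul_eq_one_left (tv_sq h2 hB p)

theorem Rel.symm (h2 : (2 : F) = 0) {p q : V} (h : Rel hB H p q) : Rel hB H q p := by
  have := H.inv_mem h
  rwa [mul_inv_rev, tv_inv_one h2, tv_inv_one h2] at this

theorem Rel.trans (h2 : (2 : F) = 0) {p q r : V} (h : Rel hB H p q) (h' : Rel hB H q r) : Rel hB H p r := by
  have := H.mul_mem h h'
  have h3 : tv hB p 1 * tv hB q 1 * (tv hB q 1 * tv hB r 1) = tv hB p 1 * tv hB r 1 := by
    rw [mul_assoc, ← mul_assoc (tv hB q 1), tv_sq h2, one_mul]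
  rwa [h3] at this

theorem Rel.conj {g : V ≃ₗ[F] V} (hgH : g ∈ H) (hg : g ∈ isomGroup B) {p q : V} (h : Rel hB H p q) :
    Rel hB H (g p) (g q) := pair_conj hgH hg h

theorem Rel.move (h2 : (2 : F) = 0) {p q : V} (h : Rel hB H p q) : Rel hB H (tv hB p 1 q) q := by
  have h1 := conj_tv hB (tv hB p 1) (tv_mem_isomGroup hB p 1) q 1
  have h3 : tv hB (tv hB p 1 q) 1 * tv hB q 1 = (tv hB p 1 * tv hB q 1) * (tv hB p 1 * tv hB q 1) := by
    rw [← h1, tv_inv_one h2]
    group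
  show tv hB (tv hB p 1 q) 1 * tv hB q 1 ∈ H
  rw [h3]
  exact H.mul_mem h h

/-- Parallel vectors in a class give a transvection. -/
theorem Rel.par (h2 : (2 : F) = 0) {p : V} {s : F} (h : Rel hB H (s • p) p) : s ^ 2 + 1 ∈ par hB H p := by
  have : tv hB (s • p) 1 * tv hB p 1 = tv hB p (s ^ 2 + 1) := by
    rw [tv_smul, tv_mul, mul_one]
  show tv hB p (s ^ 2 + 1) ∈ H
  rw [← this]
  exact h

end rel

theorem neg_eq_self (h2 : (2 : F) = 0) (x : F) : -x = x := by
  have : x + x = 0 := by rw [← two_mul, h2, zero_mul]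
  exact neg_eq_of_add_eq_zero_left this

theorem sq_surj [Finite F] (h2 : (2 : F) = 0) (x : F) : ∃ z : F, z ^ 2 = x := by
  have hinj : Function.Injective (fun z : F => z ^ 2) := by
    intro z w hzw
    have hzw' : z ^ 2 = w ^ 2 := hzw
    have h3 : (z - w) ^ 2 = 0 := by
      have : (z - w) ^ 2 = z ^ 2 - 2 * z * w + w ^ 2 := by ring
      rw [this, h2, hzw']
      have hw : w ^ 2 + w ^ 2 = 0 := by rw [← two_mul, h2, zero_mul]
      simp only [zero_mul, sub_zero]
      exact hw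
    have := pow_eq_zero_iff (two_ne_zero) |>.1 h3
    exact sub_eq_zero.1 this
  exact (Finite.surjective_of_injective hinj) x

/-- The core of the design: `v₀ = x₂ + h² a` has a full root group. -/
theorem core [Finite F] (hB : B.IsAlt) (h2 : (2 : F) = 0) {H : Subgroup (V ≃ₗ[F] V)}
    {u : V ≃ₗ[F] V} (hu : u ∈ isomGroup B) (huH : u ∈ H) (hle : H ≤ isomGroup B)
    (a : V) {h : F} (h0 : h ≠ 0) (h1 : h ≠ 1) (hgen : ∀ x : F, x ≠ 0 → ∃ k : ℕ, h ^ k = x)
    (ha₁ : B a (u a) = 0) (ha₂ : B a (u (u a)) = 1)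
    (hy : Rel hB H (u a + h • a) (u (u a + h • a)))
    (hy' : Rel hB H ((h + h⁻¹) • a) (u ((h + h⁻¹) • a)))
    (hfex : ∃ f, Rel hB H (u (u a) + (h ^ 2) • a) f ∧ B f a = 0 ∧ B f (u (u a)) = 0) :
    ∀ e : F, tv hB (u (u a) + (h ^ 2) • a) e ∈ H := by
  classical
  have hanti : ∀ x y, B y x = - B x y := fun x y => alt_neg hB x y
  have hneg := neg_eq_self h2
  set x₁ := u a with hx₁
  set x₂ := u x₁ with hx₂
  set v₀ := x₂ + (h ^ 2) • a with hv₀
  have hx₂a : B x₂ a = 1 := by rw [hanti a x₂, ha₂, hneg]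
  have hx₁a : B x₁ a = 0 := by rw [hanti a x₁, ha₁, neg_zero]
  have haa : B a a = 0 := hB a
  have hx₂₂ : B x₂ x₂ = 0 := hB x₂
  obtain ⟨f, hf, hfa, hfx₂⟩ := hfex
  set α := h + h⁻¹ with hα
  -- the torus element
  have hα2 : α ^ 2 * h ^ 2 = h ^ 4 + 1 := by
    have h3 : α ^ 2 = h ^ 2 + (h⁻¹) ^ 2 + 2 * h * h⁻¹ := by rw [hα]; ring
    rw [h3, h2]
    field_simp
    ring
  have hg : Rel hB H (α • a) (α • x₂) := by
    have h3 : Rel hB H (u (α • a)) (u (u (α • a))) := hy'.conj huH hu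
    have h4 := Rel.trans h2 hy' h3
    simpa [map_smul] using h4
  set g := tv hB (α • a) 1 * tv hB (α • x₂) 1 with hgdef
  have hgis : g ∈ isomGroup B := hle hg
  have hgf : g f = f := by
    show tv hB (α • a) 1 (tv hB (α • x₂) 1 f) = f
    simp [hfx₂, hfa]
  have hgv : g v₀ = (h ^ 4) • v₀ := by
    show tv hB (α • a) 1 (tv hB (α • x₂) 1 v₀) = _
    have hv₀x₂ : B v₀ x₂ = h ^ 2 := by
      simp only [hv₀, map_add, map_smul, LinearMap.add_apply, LinearMap.smul_apply, hx₂₂, smul_eq_mul,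
        zero_add, ha₂, mul_one]
    have h3 : tv hB (α • x₂) 1 v₀ = (h ^ 4) • x₂ + (h ^ 2) • a := by
      rw [tv_apply]
      have e1 : B v₀ (α • x₂) = α * h ^ 2 := by
        rw [map_smul, hv₀x₂]; rfl
      have e2 : α * h ^ 2 * α = h ^ 4 + 1 := by rw [← hα2]; ring
      rw [e1, one_mul, smul_smul, e2, hv₀]
      have e3 : (1 : F) + (h ^ 4 + 1) = h ^ 4 := by linear_combination h2
      calc x₂ + (h ^ 2) • a + (h ^ 4 + 1) • x₂ = ((1 : F) + (h ^ 4 + 1)) • x₂ + (h ^ 2) • a := by module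
        _ = _ := by rw [e3]
    rw [h3, tv_apply]
    have h5 : B ((h ^ 4) • x₂ + (h ^ 2) • a) (α • a) = α * h ^ 4 := by
      simp only [map_add, map_smul, LinearMap.add_apply, LinearMap.smul_apply, hx₂a, haa, smul_eq_mul,
        mul_one, mul_zero, add_zero]
    rw [h5, one_mul, smul_smul, hv₀]
    have e4 : α * h ^ 4 * α = h ^ 2 * (h ^ 4 + 1) := by
      have h6 : α * h ^ 4 * α = (α ^ 2 * h ^ 2) * h ^ 2 := by ring
      rw [h6, hα2]; ring
    rw [e4]
    have e5 : h ^ 2 + h ^ 2 * (h ^ 4 + 1) = h ^ 4 * h ^ 2 := by linear_combination (h ^ 2) * h2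
    calc (h ^ 4) • x₂ + (h ^ 2) • a + (h ^ 2 * (h ^ 4 + 1)) • a
        = (h ^ 4) • x₂ + (h ^ 2 + h ^ 2 * (h ^ 4 + 1)) • a := by module
      _ = _ := by rw [e5]; module
  -- powers
  have hpow : ∀ k : ℕ, Rel hB H (((h ^ 4) ^ k) • v₀) f := by
    intro k
    induction k with
    | zero => simpa using hf
    | succ k ih =>
      have := ih.conj (g := g) hg hgis
      rw [map_smul, hgv, hgf, smul_smul] at this
      rwa [pow_succ]
  have hpar : ∀ k : ℕ, ((h ^ 4) ^ k) ^ 2 + 1 ∈ par hB H v₀ := by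
    intro k
    exact Rel.par h2 (Rel.trans h2 (hpow k) (Rel.symm h2 hf))
  have hne1 : ∀ e : F, e ≠ 1 → e ∈ par hB H v₀ := by
    intro e he
    have hr : e + 1 ≠ 0 := by
      intro h3
      apply he
      have := neg_eq_of_add_eq_zero_left h3
      rw [hneg] at this
      exact this.symm
    obtain ⟨z₁, hz₁⟩ := sq_surj h2 (e + 1)
    obtain ⟨z₂, hz₂⟩ := sq_surj h2 z₁
    obtain ⟨z₃, hz₃⟩ := sq_surj h2 z₂
    have hz₃0 : z₃ ≠ 0 := by
      rintro rfl
      apply hr
      rw [← hz₁, ← hz₂, ← hz₃]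
      simp
    obtain ⟨k, hk⟩ := hgen z₃ hz₃0
    have := hpar k
    have h3 : ((h ^ 4) ^ k) ^ 2 = e + 1 := by
      rw [← hz₁, ← hz₂, ← hz₃, ← hk]
      ring
    rw [h3, add_assoc, one_add_one_eq_two, h2, add_zero] at this
    exact this
  intro e
  by_cases he : e = 1
  · subst he
    have h3 := hne1 h h1
    have h4 := hne1 (h + 1) (by simpa using h0)
    have h5 := (par hB H v₀).add_mem h3 h4
    have h6 : h + (h + 1) = 1 := by
      rw [← add_assoc, ← two_mul, h2, zero_mul, zero_add]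
    rwa [h6] at h5
  · exact hne1 e he

/-- A unit plus a nilpotent is surjective. -/
theorem xi_surj (h2 : (2 : F) = 0) (U : Module.End F V) (hnil : IsNilpotent (U - 1)) {c : F} (hc : c ≠ 1) :
    Function.Surjective ⇑(U ^ 2 + c • (1 : Module.End F V)) := by
  have hsplit : U ^ 2 + c • (1 : Module.End F V) = (1 + c) • (1 : Module.End F V) + (U - 1) * (U + 1) := by
    have h1 : (U - 1) * (U + 1) = U ^ 2 - 1 := by noncomm_ring
    rw [h1, add_smul, one_smul]
    abel
  have hn : IsNilpotent ((U - 1) * (U + 1)) := by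
    have hcomm : Commute (U - 1) (U + 1) := by
      show (U - 1) * (U + 1) = (U + 1) * (U - 1)
      noncomm_ring
    exact hcomm.isNilpotent_mul_right hnil
  have h1c : (1 + c) ≠ 0 := by
    intro h3
    apply hc
    have := neg_eq_of_add_eq_zero_left h3
    rw [neg_eq_self h2] at this
    exact this
  have hunit : IsUnit ((1 + c) • (1 : Module.End F V)) := by
    refine ⟨⟨(1 + c) • 1, (1 + c)⁻¹ • 1, ?_, ?_⟩, rfl⟩
    · simp [smul_smul, inv_mul_cancel₀ h1c]
    · simp [smul_smul, mul_inv_cancel₀ h1c]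
  have hcomm2 : Commute ((1 + c) • (1 : Module.End F V)) ((U - 1) * (U + 1)) := by
    show ((1 + c) • (1 : Module.End F V)) * ((U - 1) * (U + 1)) = ((U - 1) * (U + 1)) * ((1 + c) • (1 : Module.End F V))
    simp [smul_mul_assoc, mul_smul_comm]
  have : IsUnit (U ^ 2 + c • (1 : Module.End F V)) := by
    rw [hsplit]
    exact hn.isUnit_add_left_of_commute hunit hcomm2.symm
  exact ((Module.End.isUnit_iff _).1 this).2


section designs
variable [Finite F] [FiniteDimensional F V]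

/-- `v₀` as a moved vector. -/
theorem tv_y_eq (hB : B.IsAlt) (h2 : (2 : F) = 0) {u : V ≃ₗ[F] V} (hu : u ∈ isomGroup B) (a : V) (h : F)
    (ha₁ : B a (u a) = 0) (ha₂ : B a (u (u a)) = 1) :
    tv hB (u a + h • a) 1 (u (u a + h • a)) = u (u a) + (h ^ 2) • a := by
  have hanti : ∀ x y, B y x = - B x y := fun x y => alt_neg hB x y
  have hneg := neg_eq_self h2
  have hx₂a : B (u (u a)) a = 1 := by rw [hanti a, ha₂, hneg]
  have hx₁a : B (u a) a = 0 := by rw [hanti a, ha₁, neg_zero]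
  have hx₂x₁ : B (u (u a)) (u a) = 0 := by
    have := hu (u a) a
    rw [this, hx₁a]
  have hx₁₁ : B (u a) (u a) = 0 := hB _
  have e1 : B (u (u a + h • a)) (u a + h • a) = h := by
    simp only [map_add, map_smul, LinearMap.add_apply, LinearMap.smul_apply, hx₂a, hx₁a, hx₂x₁, hx₁₁,
      smul_eq_mul, mul_one, mul_zero, add_zero, zero_add]
  rw [tv_apply, e1, one_mul]
  simp only [map_add, map_smul]
  have e2 : h + h = 0 := by rw [← two_mul, h2, zero_mul]
  calc u (u a) + h • u a + h • (u a + h • a) = u (u a) + (h + h) • u a + (h * h) • a := by module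
    _ = _ := by rw [e2, zero_smul, add_zero, sq]

theorem design_even_A (hB : B.IsAlt) (hN : B.Nondegenerate) (h2 : (2 : F) = 0) {u : V ≃ₗ[F] V}
    (hu : u ∈ isomGroup B) (hnil : IsNilpotent (((u : V →ₗ[F] V) : Module.End F V) - 1))
    (a : V) {h : F} (h0 : h ≠ 0) (h1 : h ≠ 1) (hgen : ∀ x : F, x ≠ 0 → ∃ k : ℕ, h ^ k = x)
    (ha₁ : B a (u a) = 0) (ha₂ : B a (u (u a)) = 1) (ha₃ : B a (u (u (u a))) = h)
    (hspan : Submodule.span F (Set.range fun i : ℕ => (u ^ i) a) = ⊤) :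
    ∃ g₁ ∈ isomGroup B, ∃ g₂ ∈ isomGroup B, gen3 u g₁ g₂ = isomGroup B := by
  classical
  have hanti : ∀ x y, B y x = - B x y := fun x y => alt_neg hB x y
  have hneg := neg_eq_self h2
  set y := u a + h • a with hy
  set y' := (h + h⁻¹) • a with hy'
  refine ⟨tv hB y 1, tv_mem_isomGroup hB _ _, tv hB y' 1, tv_mem_isomGroup hB _ _, ?_⟩
  set H := gen3 u (tv hB y 1) (tv hB y' 1) with hH
  have huH : u ∈ H := gen3_u _ _ _
  have hle : H ≤ isomGroup B := gen3_le hu (tv_mem_isomGroup hB _ _) (tv_mem_isomGroup hB _ _)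
  have hRy : Rel hB H y (u y) := by
    have := pair_mem huH hu y 1 (gen3_v _ _ _)
    rwa [hneg] at this
  have hRy' : Rel hB H y' (u y') := by
    have := pair_mem huH hu y' 1 (gen3_w u (tv hB y 1) (tv hB y' 1))
    rwa [hneg] at this
  have hv₀eq : tv hB y 1 (u y) = u (u a) + (h ^ 2) • a := tv_y_eq hB h2 hu a h ha₁ ha₂
  set v₀ := u (u a) + (h ^ 2) • a with hv₀
  have hRv : Rel hB H v₀ (u y) := by
    rw [← hv₀eq]
    exact Rel.move h2 hRy
  have hRu : Rel hB H (u y) (u (u y)) := hRy.conj huH hu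
  have hx₂a : B (u (u a)) a = 1 := by rw [hanti a, ha₂, hneg]
  have hx₃a : B (u (u (u a))) a = h := by rw [hanti a, ha₃, hneg]
  have hx₂x₂ : B (u (u a)) (u (u a)) = 0 := hB _
  have hx₃x₂ : B (u (u (u a))) (u (u a)) = 0 := by
    have e1 := hu (u (u a)) (u a)
    have e2 := hu (u a) a
    rw [e1, e2, hanti a, ha₁, neg_zero]
  have hcore := core hB h2 hu huH hle a h0 h1 hgen ha₁ ha₂ hRy hRy' ⟨u (u y), Rel.trans h2 hRv hRu, by
    simp only [hy, map_add, map_smul, LinearMap.add_apply, LinearMap.smul_apply, hx₃a, hx₂a, smul_eq_mul,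
      mul_one]
    rw [← two_mul, h2, zero_mul], by
    simp only [hy, map_add, map_smul, LinearMap.add_apply, LinearMap.smul_apply, hx₃x₂, hx₂x₂, smul_eq_mul,
      mul_zero, add_zero]⟩
  have hh2 : h ^ 2 ≠ 0 := pow_ne_zero _ h0
  have hv₀x₂ : B v₀ (u (u a)) = h ^ 2 := by
    simp only [hv₀, map_add, map_smul, LinearMap.add_apply, LinearMap.smul_apply, hx₂x₂, ha₂, smul_eq_mul,
      mul_one, zero_add]
  have hv₀0 : v₀ ≠ 0 := by
    intro h3
    rw [h3] at hv₀x₂
    simp at hv₀x₂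
    exact hh2 hv₀x₂.symm
  have hS := Sset_closed hB H
  have hv₀S : v₀ ∈ Sset hB H := ⟨hv₀0, hcore⟩
  have hx'S : ∀ i : ℕ, (u ^ i) v₀ ∈ Sset hB H := fun i =>
    Sset_stable (H.pow_mem huH i) (pow_mem_isom hu i) hv₀S
  have hvuv : B v₀ (u v₀) = h ^ 3 := by
    have e1 : B (u (u a)) (u (u (u a))) = 0 := by
      have e2 := hu (u a) (u (u a))
      have e3 := hu a (u a)
      rw [e2, e3, ha₁]
    have e4 : B (u (u a)) (u a) = 0 := by
      have e2 := hu (u a) a
      rw [e2, hanti a, ha₁, neg_zero]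
    simp only [hv₀, map_add, map_smul, LinearMap.add_apply, LinearMap.smul_apply, e1, e4, ha₃, ha₁, smul_eq_mul,
      mul_zero, add_zero, zero_add]
    ring
  have hchain : ∀ i : ℕ, B ((u ^ i) v₀) ((u ^ (i + 1)) v₀) ≠ 0 := by
    intro i
    rw [pow_succ, LinearEquiv.mul_apply, pow_mem_isom hu i, hvuv]
    exact pow_ne_zero _ h0
  have hspan' : Submodule.span F (Set.range fun i : ℕ => (u ^ i) v₀) = ⊤ := by
    let U : Module.End F V := ((u : V →ₗ[F] V) : Module.End F V)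
    have hc : h ^ 2 ≠ 1 := by
      intro h3
      apply h1
      have h4 : (h - 1) ^ 2 = 0 := by
        have : (h - 1) ^ 2 = h ^ 2 - 2 * h + 1 := by ring
        rw [this, h3, h2, zero_mul, sub_zero, one_add_one_eq_two, h2]
      exact sub_eq_zero.1 (pow_eq_zero_iff two_ne_zero |>.1 h4)
    have hsurj := xi_surj h2 U hnil hc
    have e : ∀ z, (U ^ 2 + (h ^ 2) • (1 : Module.End F V)) z = u (u z) + (h ^ 2) • z := by
      intro z
      simp [pow_two, U, Module.End.mul_apply]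
    have := span_image hspan (U ^ 2 + (h ^ 2) • (1 : Module.End F V)) hsurj (by
      intro x
      rw [e, e, map_add, map_smul])
    rwa [e] at this
  have hspanS : Submodule.span F (Sset hB H) = ⊤ := by
    rw [eq_top_iff, ← hspan']
    apply Submodule.span_mono
    rintro _ ⟨i, rfl⟩
    exact hx'S i
  have huvS : u v₀ ∈ Sset hB H := Sset_stable huH hu hv₀S
  have huvv : B (u v₀) v₀ ≠ 0 := by
    rw [hanti v₀, hvuv]
    exact neg_ne_zero.2 (pow_ne_zero _ h0)
  have hvW₀ : v₀ ∈ Submodule.span F {u v₀, v₀} := Submodule.subset_span (by simp)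
  have hhv : h • v₀ ∈ Submodule.span F {u v₀, v₀} := Submodule.smul_mem _ _ hvW₀
  have hne : v₀ + h • v₀ ≠ 0 := by
    have : v₀ + h • v₀ = (1 + h) • v₀ := by module
    rw [this]
    refine smul_ne_zero ?_ hv₀0
    intro h3
    apply h1
    have := neg_eq_of_add_eq_zero_left h3
    rw [hneg] at this
    exact this
  apply eq_of_all hB hN hle
  refine all_mem hB hN hS hspanS (good_plane hB hS huvS hv₀S ?_) hvW₀ hhv hv₀0 (smul_ne_zero h0 hv₀0) hne
    (by simp [hB v₀]) (fun W hW hgood htop => ?_)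
  · rw [hvuv]
    exact pow_ne_zero _ h0
  · exact conn_chain hB hN hx'S hchain hspan' hgood (hW hvW₀) hv₀0 htop

theorem design_even_B (hB : B.IsAlt) (hN : B.Nondegenerate) (h2 : (2 : F) = 0) {u : V ≃ₗ[F] V}
    (hu : u ∈ isomGroup B) (hnil : IsNilpotent (((u : V →ₗ[F] V) : Module.End F V) - 1))
    (a : V) {h : F} (h0 : h ≠ 0) (h1 : h ≠ 1) (hgen : ∀ x : F, x ≠ 0 → ∃ k : ℕ, h ^ k = x)
    (ha₁ : B a (u a) = 0) (ha₂ : B a (u (u a)) = 1) (ha₃ : B a (u (u (u a))) = 0)
    (hu4 : u (u (u (u a))) = a)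
    (hspan : Submodule.span F (Set.range fun i : ℕ => (u ^ i) a) = ⊤) :
    ∃ g₁ ∈ isomGroup B, ∃ g₂ ∈ isomGroup B, gen3 u g₁ g₂ = isomGroup B := by
  classical
  have hanti : ∀ x y, B y x = - B x y := fun x y => alt_neg hB x y
  have hneg := neg_eq_self h2
  set y := u a + h • a with hy
  set y' := (h + h⁻¹) • a with hy'
  refine ⟨tv hB y 1, tv_mem_isomGroup hB _ _, tv hB y' 1, tv_mem_isomGroup hB _ _, ?_⟩
  set H := gen3 u (tv hB y 1) (tv hB y' 1) with hH
  have huH : u ∈ H := gen3_u _ _ _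
  have hle : H ≤ isomGroup B := gen3_le hu (tv_mem_isomGroup hB _ _) (tv_mem_isomGroup hB _ _)
  have hRy : Rel hB H y (u y) := by
    have := pair_mem huH hu y 1 (gen3_v _ _ _)
    rwa [hneg] at this
  have hRy' : Rel hB H y' (u y') := by
    have := pair_mem huH hu y' 1 (gen3_w u (tv hB y 1) (tv hB y' 1))
    rwa [hneg] at this
  have hv₀eq : tv hB y 1 (u y) = u (u a) + (h ^ 2) • a := tv_y_eq hB h2 hu a h ha₁ ha₂
  set v₀ := u (u a) + (h ^ 2) • a with hv₀
  have hRv : Rel hB H v₀ (u y) := by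
    rw [← hv₀eq]
    exact Rel.move h2 hRy
  have hRu : Rel hB H (u y) (u (u y)) := hRy.conj huH hu
  have hRuv : Rel hB H (u v₀) (u (u y)) := hRv.conj huH hu
  have hRvv : Rel hB H v₀ (u v₀) := Rel.trans h2 (Rel.trans h2 hRv hRu) (Rel.symm h2 hRuv)
  -- the Gram table
  set x₁ := u a with hx₁
  set x₂ := u x₁ with hx₂
  set x₃ := u x₂ with hx₃
  have b01 : B a x₁ = 0 := ha₁
  have b02 : B a x₂ = 1 := ha₂
  have b03 : B a x₃ = 0 := ha₃
  have b10 : B x₁ a = 0 := by rw [hanti a, b01, neg_zero]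
  have b20 : B x₂ a = 1 := by rw [hanti a, b02, hneg]
  have b30 : B x₃ a = 0 := by rw [hanti a, b03, neg_zero]
  have b12 : B x₁ x₂ = 0 := by rw [hu a x₁, b01]
  have b13 : B x₁ x₃ = 1 := by rw [hu a x₂, b02]
  have b21 : B x₂ x₁ = 0 := by rw [hanti x₁, b12, neg_zero]
  have b31 : B x₃ x₁ = 1 := by rw [hanti x₁, b13, hneg]
  have b23 : B x₂ x₃ = 0 := by rw [hu x₁ x₂, b12]
  have b32 : B x₃ x₂ = 0 := by rw [hanti x₂, b23, neg_zero]
  have b00 : B a a = 0 := hB a
  have b11 : B x₁ x₁ = 0 := hB x₁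
  have b22 : B x₂ x₂ = 0 := hB x₂
  have b33 : B x₃ x₃ = 0 := hB x₃
  have hcore := core hB h2 hu huH hle a h0 h1 hgen ha₁ ha₂ hRy hRy' ⟨u v₀, hRvv, by
    simp only [hv₀, map_add, map_smul, LinearMap.add_apply, LinearMap.smul_apply, ← hx₁, ← hx₂, ← hx₃, b30, b10,
      smul_eq_mul, mul_zero, add_zero], by
    simp only [hv₀, map_add, map_smul, LinearMap.add_apply, LinearMap.smul_apply, ← hx₁, ← hx₂, ← hx₃, b32, b12,
      smul_eq_mul, mul_zero, add_zero]⟩
  have hh2 : h ^ 2 ≠ 0 := pow_ne_zero _ h0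
  have hv₀x₂ : B v₀ x₂ = h ^ 2 := by
    simp only [hv₀, map_add, map_smul, LinearMap.add_apply, LinearMap.smul_apply, b22, b02, smul_eq_mul,
      mul_one, zero_add]
  have hv₀0 : v₀ ≠ 0 := by
    intro h3
    rw [h3] at hv₀x₂
    simp at hv₀x₂
    exact hh2 hv₀x₂.symm
  have hS := Sset_closed hB H
  have hv₀S : v₀ ∈ Sset hB H := ⟨hv₀0, hcore⟩
  -- the orbit of `v₀`
  have hv₁ : u v₀ = x₃ + (h ^ 2) • x₁ := by
    simp only [hv₀, map_add, map_smul]
    rfl
  have hv₂ : u (u v₀) = a + (h ^ 2) • x₂ := by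
    rw [hv₁]
    simp only [map_add, map_smul]
    rw [show u x₃ = a from hu4]
  have hv₃ : u (u (u v₀)) = x₁ + (h ^ 2) • x₃ := by
    rw [hv₂]
    simp only [map_add, map_smul]
    rfl
  have hv₄ : u (u (u (u v₀))) = v₀ := by
    rw [hv₃]
    simp only [map_add, map_smul]
    rw [show u x₃ = a from hu4]
  have hv₁S : u v₀ ∈ Sset hB H := Sset_stable huH hu hv₀S
  have hv₂S : u (u v₀) ∈ Sset hB H := Sset_stable huH hu hv₁S
  have hv₃S : u (u (u v₀)) ∈ Sset hB H := Sset_stable huH hu hv₂S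
  -- the connecting vector
  set r := tv hB y 1 * tv hB (u y) 1 with hr
  have hrH : r ∈ H := hRy
  have hris : r ∈ isomGroup B := hle hrH
  have hs : r v₀ = (1 + h ^ 2) • x₂ + (h ^ 4) • a + h • x₁ := by
    show tv hB y 1 (tv hB (u y) 1 v₀) = _
    have huy : u y = x₂ + h • x₁ := by
      simp only [hy, map_add, map_smul]
      rfl
    have e1 : B v₀ (x₂ + h • x₁) = h ^ 2 := by
      simp only [hv₀, map_add, map_smul, LinearMap.add_apply, LinearMap.smul_apply, b22, b21, b02, b01,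
        smul_eq_mul, mul_zero, mul_one, add_zero, zero_add]
    have e2 : B (v₀ + (h ^ 2) • (x₂ + h • x₁)) y = h + h ^ 3 := by
      simp only [hv₀, hy, map_add, map_smul, LinearMap.add_apply, LinearMap.smul_apply, b21, b20, b11, b10, b01,
        b00, smul_eq_mul, mul_zero, mul_one, add_zero, zero_add]
      ring
    rw [huy, tv_apply (w := x₂ + h • x₁), one_mul, e1, tv_apply (w := y), one_mul, e2]
    have e3 : v₀ + (h ^ 2) • (x₂ + h • x₁) + (h + h ^ 3) • y
        = (1 + h ^ 2) • x₂ + (h ^ 4) • a + h • x₁ + (2 * h ^ 3) • x₁ + (2 * h ^ 2) • a := by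
      simp only [hv₀, hy]
      module
    rw [e3, h2]
    simp
  have hb1 : B v₀ (r v₀) = h ^ 2 := by
    rw [hs]
    simp only [hv₀, map_add, map_smul, LinearMap.add_apply, LinearMap.smul_apply, b22, b20, b21, b02, b00, b01,
      smul_eq_mul, mul_zero, mul_one, add_zero, zero_add]
    linear_combination (h ^ 4) * h2
  have hb2 : B (r v₀) (u v₀) = h := by
    rw [hs, hv₁]
    simp only [map_add, map_smul, LinearMap.add_apply, LinearMap.smul_apply, b23, b21, b03, b01, b13, b11,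
      smul_eq_mul, mul_zero, mul_one, add_zero, zero_add]
  have hb3 : B (u (u v₀)) v₀ = 1 + h ^ 4 := by
    rw [hv₂]
    simp only [hv₀, map_add, map_smul, LinearMap.add_apply, LinearMap.smul_apply, b02, b00, b22, b20,
      smul_eq_mul, mul_zero, mul_one, add_zero, zero_add]
    ring
  have hh4 : 1 + h ^ 4 ≠ 0 := by
    intro h3
    apply h1
    have h4 : (h - 1) ^ 4 = 0 := by
      linear_combination h3 + (-2 * h ^ 3 + 3 * h ^ 2 - 2 * h) * h2
    exact sub_eq_zero.1 (pow_eq_zero_iff (by norm_num) |>.1 h4)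
  have hb4 : B (u v₀) (u (u (u v₀))) ≠ 0 := by
    rw [hu v₀ (u (u v₀)), hanti (u (u v₀)), hb3]
    exact neg_ne_zero.2 hh4
  have hb5 : B (u (u (u v₀))) (u v₀) ≠ 0 := by
    rw [hanti (u v₀)]
    exact neg_ne_zero.2 hb4
  let x : ℕ → V := fun i => match i with
    | 0 => u (u v₀)
    | 1 => v₀
    | 2 => r v₀
    | k + 3 => if k % 2 = 0 then u v₀ else u (u (u v₀))
  have hxS : ∀ i, x i ∈ Sset hB H := by
    intro i
    match i with
    | 0 => exact hv₂S
    | 1 => exact hv₀S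
    | 2 => exact Sset_stable hrH hris hv₀S
    | k + 3 =>
      show (if k % 2 = 0 then u v₀ else u (u (u v₀))) ∈ _
      split_ifs
      · exact hv₁S
      · exact hv₃S
  have hchain : ∀ i, B (x i) (x (i + 1)) ≠ 0 := by
    intro i
    match i with
    | 0 =>
      show B (u (u v₀)) v₀ ≠ 0
      rw [hb3]; exact hh4
    | 1 =>
      show B v₀ (r v₀) ≠ 0
      rw [hb1]; exact hh2
    | 2 =>
      show B (r v₀) (if 0 % 2 = 0 then u v₀ else u (u (u v₀))) ≠ 0
      rw [if_pos rfl, hb2]; exact h0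
    | k + 3 =>
      show B (if k % 2 = 0 then u v₀ else u (u (u v₀))) (if (k + 1) % 2 = 0 then u v₀ else u (u (u v₀))) ≠ 0
      by_cases hk : k % 2 = 0
      · rw [if_pos hk, if_neg (by omega)]
        exact hb4
      · rw [if_neg hk, if_pos (by omega)]
        exact hb5
  have hspan' : Submodule.span F (Set.range x) = ⊤ := by
    let U : Module.End F V := ((u : V →ₗ[F] V) : Module.End F V)
    have hc : h ^ 2 ≠ 1 := by
      intro h3
      apply h1
      have h4 : (h - 1) ^ 2 = 0 := by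
        have : (h - 1) ^ 2 = h ^ 2 - 2 * h + 1 := by ring
        rw [this, h3, h2, zero_mul, sub_zero, one_add_one_eq_two, h2]
      exact sub_eq_zero.1 (pow_eq_zero_iff two_ne_zero |>.1 h4)
    have hsurj := xi_surj h2 U hnil hc
    have e : ∀ z, (U ^ 2 + (h ^ 2) • (1 : Module.End F V)) z = u (u z) + (h ^ 2) • z := by
      intro z
      simp [pow_two, U, Module.End.mul_apply]
    have h3 := span_image hspan (U ^ 2 + (h ^ 2) • (1 : Module.End F V)) hsurj (by
      intro x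
      rw [e, e, map_add, map_smul])
    rw [e] at h3
    rw [eq_top_iff, ← h3, Submodule.span_le]
    have h5 : ∀ i : ℕ, (u ^ i) v₀ = v₀ ∨ (u ^ i) v₀ = u v₀ ∨ (u ^ i) v₀ = u (u v₀) ∨ (u ^ i) v₀ = u (u (u v₀)) := by
      intro i
      induction i with
      | zero => exact Or.inl rfl
      | succ i ih =>
        rw [pow_apply_succ]
        rcases ih with h6 | h6 | h6 | h6 <;> rw [h6]
        · exact Or.inr (Or.inl rfl)
        · exact Or.inr (Or.inr (Or.inl rfl))
        · exact Or.inr (Or.inr (Or.inr rfl))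
        · exact Or.inl hv₄
    rintro _ ⟨i, rfl⟩
    have h6 : ∀ j, x j ∈ Submodule.span F (Set.range x) := fun j => Submodule.subset_span ⟨j, rfl⟩
    show (u ^ i) v₀ ∈ _
    rcases h5 i with h7 | h7 | h7 | h7 <;> rw [h7]
    · exact h6 1
    · exact h6 3
    · exact h6 0
    · exact h6 4
  have hspanS : Submodule.span F (Sset hB H) = ⊤ := by
    rw [eq_top_iff, ← hspan']
    apply Submodule.span_mono
    rintro _ ⟨i, rfl⟩
    exact hxS i
  have hvW₀ : v₀ ∈ Submodule.span F {v₀, u (u v₀)} := Submodule.subset_span (by simp)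
  have hhv : h • v₀ ∈ Submodule.span F {v₀, u (u v₀)} := Submodule.smul_mem _ _ hvW₀
  have hne : v₀ + h • v₀ ≠ 0 := by
    have : v₀ + h • v₀ = (1 + h) • v₀ := by module
    rw [this]
    refine smul_ne_zero ?_ hv₀0
    intro h3
    apply h1
    have := neg_eq_of_add_eq_zero_left h3
    rw [hneg] at this
    exact this
  apply eq_of_all hB hN hle
  refine all_mem hB hN hS hspanS (good_plane hB hS hv₀S hv₂S ?_) hvW₀ hhv hv₀0 (smul_ne_zero h0 hv₀0) hne
    (by simp [hB v₀]) (fun W hW hgood htop => ?_)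
  · rw [hb3]; exact hh4
  · exact conn_chain hB hN hxS hchain hspan' hgood (hW hvW₀) hv₀0 htop

end designs

end Cfsg.Agent.Lib.RegUnip.SpEven
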