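/-
Three conjugates of a regular unipotent element generate `Sp_{2n}(2)`: the design over the field of two
elements.  The central step works in a path of six vectors, a model of the even subsets of seven points.
-/
import Mathlib
import Cfsg.Agent.Lib.RegUnip.SpEven

set_option autoImplicit false
set_option linter.unusedSectionVars false
set_option linter.unusedVariables false
set_option linter.unusedSimpArgs false

namespace Cfsg.Agent.Lib.RegUnip.SpF2

open Cfsg.Agent.Lib.Classical.Alt
open Cfsg.Agent.Lib.RegUnip.SpFinal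
open Cfsg.Agent.Lib.RegUnip.SpCalc
open Cfsg.Agent.Lib.RegUnip.SpEven

variable {F V : Type*} [Field F] [AddCommGroup V] [Module F V]
variable {B : LinearMap.BilinForm F V}

/-- Booleans in the field. -/
def io (F : Type*) [Field F] (b : Bool) : F := if b then 1 else 0

@[simp] theorem io_true : io F true = 1 := rfl
@[simp] theorem io_false : io F false = 0 := rfl

theorem io_xor (h2 : (2 : F) = 0) (a b : Bool) : io F (a ^^ b) = io F a + io F b := by
  cases a <;> cases b <;> simp
  rw [one_add_one_eq_two, h2]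

theorem io_and (a b : Bool) : io F (a && b) = io F a * io F b := by
  cases a <;> cases b <;> simp

/-- Adjacency in the path. -/
def adj (i j : ℕ) : Bool := (i == j + 1) || (j == i + 1)

/-- The vector with a given mask. -/
def Phi (F : Type*) [Field F] [Module F V] (p : ℕ → V) (m : ℕ) : V :=
  io F (m.testBit 0) • p 0 + io F (m.testBit 1) • p 1 + io F (m.testBit 2) • p 2 +
    io F (m.testBit 3) • p 3 + io F (m.testBit 4) • p 4 + io F (m.testBit 5) • p 5

/-- The form of a mask against a basis vector. -/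
def gr (m i : ℕ) : Bool :=
  (m.testBit 0 && adj 0 i) ^^ (m.testBit 1 && adj 1 i) ^^ (m.testBit 2 && adj 2 i) ^^
    (m.testBit 3 && adj 3 i) ^^ (m.testBit 4 && adj 4 i) ^^ (m.testBit 5 && adj 5 i)

/-- The form on masks. -/
def gr2 (m a : ℕ) : Bool :=
  (a.testBit 0 && gr m 0) ^^ (a.testBit 1 && gr m 1) ^^ (a.testBit 2 && gr m 2) ^^
    (a.testBit 3 && gr m 3) ^^ (a.testBit 4 && gr m 4) ^^ (a.testBit 5 && gr m 5)

/-- The transvection of a basis vector on masks. -/
def act (i m : ℕ) : ℕ := if gr m i then m ^^^ 2 ^ i else m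

section path
variable {p : ℕ → V}

theorem Phi_zero : Phi F p 0 = 0 := by
  simp [Phi]

theorem Phi_xor (h2 : (2 : F) = 0) (m m' : ℕ) : Phi F p (m ^^^ m') = Phi F p m + Phi F p m' := by
  unfold Phi
  simp only [Nat.testBit_xor, io_xor h2, add_smul]
  abel

theorem testBit_single : ∀ i, i < 6 → ∀ j, j < 6 → (2 ^ i : ℕ).testBit j = (i == j) := by
  decide

theorem Phi_single {i : ℕ} (hi : i < 6) : Phi F p (2 ^ i) = p i := by
  unfold Phi
  simp only [testBit_single i hi 0 (by norm_num), testBit_single i hi 1 (by norm_num),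
    testBit_single i hi 2 (by norm_num), testBit_single i hi 3 (by norm_num),
    testBit_single i hi 4 (by norm_num), testBit_single i hi 5 (by norm_num)]
  interval_cases i <;> simp

theorem Phi_one : Phi F p 1 = p 0 := by
  simpa using Phi_single (F := F) (p := p) (i := 0) (by norm_num)

theorem Phi_nine (h2 : (2 : F) = 0) : Phi F p 9 = p 0 + p 3 := by
  have h := Phi_xor (F := F) (p := p) h2 1 8
  rw [show (1 ^^^ 8 : ℕ) = 9 from rfl, Phi_one, show (8 : ℕ) = 2 ^ 3 from rfl, Phi_single (by norm_num)] at h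
  exact h

theorem Phi_eighteen (h2 : (2 : F) = 0) : Phi F p 18 = p 1 + p 4 := by
  have h := Phi_xor (F := F) (p := p) h2 2 16
  rw [show (2 ^^^ 16 : ℕ) = 18 from rfl, show (2 : ℕ) = 2 ^ 1 from rfl, Phi_single (by norm_num),
    show (16 : ℕ) = 2 ^ 4 from rfl, Phi_single (by norm_num)] at h
  exact h

variable (hG : ∀ i j, i < 6 → j < 6 → B (p i) (p j) = io F (adj i j))
include hG

theorem form_Phi_p (h2 : (2 : F) = 0) (m : ℕ) {i : ℕ} (hi : i < 6) :
    B (Phi F p m) (p i) = io F (gr m i) := by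
  unfold Phi gr
  simp only [map_add, map_smul, LinearMap.add_apply, LinearMap.smul_apply, smul_eq_mul, io_xor h2, io_and,
    hG 0 i (by norm_num) hi, hG 1 i (by norm_num) hi, hG 2 i (by norm_num) hi,
    hG 3 i (by norm_num) hi, hG 4 i (by norm_num) hi, hG 5 i (by norm_num) hi]

theorem form_Phi_Phi (h2 : (2 : F) = 0) (m a : ℕ) :
    B (Phi F p m) (Phi F p a) = io F (gr2 m a) := by
  have key : ∀ x : V, B x (Phi F p a) = io F (a.testBit 0) * B x (p 0) + io F (a.testBit 1) * B x (p 1) +
      io F (a.testBit 2) * B x (p 2) + io F (a.testBit 3) * B x (p 3) + io F (a.testBit 4) * B x (p 4) +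
      io F (a.testBit 5) * B x (p 5) := by
    intro x
    unfold Phi
    simp only [map_add, map_smul, smul_eq_mul]
  rw [key]
  unfold gr2
  simp only [io_xor h2, io_and,
    form_Phi_p hG h2 m (i := 0) (by norm_num), form_Phi_p hG h2 m (i := 1) (by norm_num),
    form_Phi_p hG h2 m (i := 2) (by norm_num), form_Phi_p hG h2 m (i := 3) (by norm_num),
    form_Phi_p hG h2 m (i := 4) (by norm_num), form_Phi_p hG h2 m (i := 5) (by norm_num)]

theorem act_eq (hB : B.IsAlt) (h2 : (2 : F) = 0) (m : ℕ) {i : ℕ} (hi : i < 6) :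
    tv hB (p i) 1 (Phi F p m) = Phi F p (act i m) := by
  rw [tv_apply, one_mul, form_Phi_p hG h2 m hi, act]
  cases h : gr m i
  · simp
  · simp [Phi_xor h2, Phi_single hi]

omit hG in
/-- Seven transvections of a totally isotropic space of dimension three. -/
theorem seven (hB : B.IsAlt) (h2 : (2 : F) = 0) {f₁ f₂ f₃ : V} (h12 : B f₁ f₂ = 0) (h13 : B f₁ f₃ = 0)
    (h23 : B f₂ f₃ = 0) :
    (tv hB f₁ 1 * tv hB f₂ 1) * (tv hB (f₁ + f₂) 1 * tv hB f₃ 1) * (tv hB (f₁ + f₃) 1 * tv hB (f₂ + f₃) 1)
      = tv hB (f₁ + f₂ + f₃) 1 := by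
  have h21 : B f₂ f₁ = 0 := by rw [alt_neg hB f₁ f₂, h12, neg_zero]
  have h31 : B f₃ f₁ = 0 := by rw [alt_neg hB f₁ f₃, h13, neg_zero]
  have h32 : B f₃ f₂ = 0 := by rw [alt_neg hB f₂ f₃, h23, neg_zero]
  have h11 : B f₁ f₁ = 0 := hB f₁
  have h22 : B f₂ f₂ = 0 := hB f₂
  have h33 : B f₃ f₃ = 0 := hB f₃
  ext x
  simp only [LinearEquiv.mul_apply, tv_apply, map_add, map_smul, LinearMap.add_apply, LinearMap.smul_apply,
    smul_eq_mul, h12, h13, h23, h21, h31, h32, h11, h22, h33, one_mul, mul_zero, add_zero]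
  set α := B x f₁
  set β := B x f₂
  set γ := B x f₃
  refine sub_eq_zero.1 ?_
  calc _ = (2 : F) • (α • f₁ + β • f₂ + γ • f₃) := by module
    _ = 0 := by rw [h2, zero_smul]

set_option maxRecDepth 100000 in
/-- The core of the design: all transvections of the path space. -/
theorem core_all (hB : B.IsAlt) (h2 : (2 : F) = 0) {H : Subgroup (V ≃ₗ[F] V)}
    (hrel : ∀ i j, i < 6 → j < 6 → Rel hB H (p i) (p j))
    (hz : Rel hB H (p 0 + p 3) (p 1 + p 4)) :
    ∀ m, m < 64 → m ≠ 0 → tv hB (Phi F p m) 1 ∈ H := by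
  let InS : ℕ → Prop := fun m => tv hB (Phi F p m) 1 ∈ H
  have hisom : ∀ i j, tv hB (p i) 1 * tv hB (p j) 1 ∈ isomGroup B := fun i j =>
    (isomGroup B).mul_mem (tv_mem_isomGroup hB _ _) (tv_mem_isomGroup hB _ _)
  have hmove : ∀ i j, i < 6 → j < 6 → ∀ m : ℕ,
      (tv hB (p i) 1 * tv hB (p j) 1) (Phi F p m) = Phi F p (act i (act j m)) := by
    intro i j hi hj m
    rw [LinearEquiv.mul_apply, act_eq hG hB h2 m hj, act_eq hG hB h2 _ hi]
  have R2 : ∀ i j, i < 6 → j < 6 → ∀ {m m' n n' : ℕ}, Rel hB H (Phi F p m) (Phi F p m') →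
      act i (act j m) = n → act i (act j m') = n' → Rel hB H (Phi F p n) (Phi F p n') := by
    intro i j hi hj m m' n n' h e e'
    have := Rel.conj (hrel i j hi hj) (hisom i j) h
    rw [hmove i j hi hj, hmove i j hi hj, e, e'] at this
    exact this
  have r0 : Rel hB H (Phi F p 9) (Phi F p 18) := by
    rw [Phi_nine h2, Phi_eighteen h2]
    exact hz
  have r1 : Rel hB H (Phi F p 5) (Phi F p 22) :=
    R2 3 2 (by norm_num) (by norm_num) r0 (by decide) (by decide)
  have r2 : Rel hB H (Phi F p 19) (Phi F p 52) :=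
    R2 1 2 (by norm_num) (by norm_num)
      (R2 3 4 (by norm_num) (by norm_num) (R2 3 5 (by norm_num) (by norm_num) r0 rfl rfl) rfl rfl)
      (by decide) (by decide)
  have r3 : Rel hB H (Phi F p 49) (Phi F p 34) :=
    R2 3 5 (by norm_num) (by norm_num) (R2 4 5 (by norm_num) (by norm_num) r0 rfl rfl)
      (by decide) (by decide)
  have hf12 : B (Phi F p 5) (Phi F p 22) = 0 := by
    rw [form_Phi_Phi hG h2, show gr2 5 22 = false by decide, io_false]
  have hf13 : B (Phi F p 5) (Phi F p 52) = 0 := by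
    rw [form_Phi_Phi hG h2, show gr2 5 52 = false by decide, io_false]
  have hf23 : B (Phi F p 22) (Phi F p 52) = 0 := by
    rw [form_Phi_Phi hG h2, show gr2 22 52 = false by decide, io_false]
  have e19 : Phi F p 19 = Phi F p 5 + Phi F p 22 := Phi_xor h2 5 22
  have e49 : Phi F p 49 = Phi F p 5 + Phi F p 52 := Phi_xor h2 5 52
  have e34 : Phi F p 34 = Phi F p 22 + Phi F p 52 := Phi_xor h2 22 52
  have e39 : Phi F p 39 = Phi F p 5 + Phi F p 22 + Phi F p 52 := by
    rw [← e19]
    exact Phi_xor h2 19 52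
  have h39 : InS 39 := by
    show tv hB (Phi F p 39) 1 ∈ H
    rw [e39, ← seven hB h2 hf12 hf13 hf23, ← e19, ← e49, ← e34]
    exact H.mul_mem (H.mul_mem r1 r2) r3
  have st2 : ∀ (i j : ℕ), i < 6 → j < 6 → ∀ {m n : ℕ}, InS m → act i (act j m) = n → InS n := by
    intro i j hi hj m n h e
    have := tv_conj_mem (c := 1) (hrel i j hi hj) (hisom i j) h
    rw [hmove i j hi hj, e] at this
    exact this
  have add_st : ∀ {a b n : ℕ}, InS a → InS b → gr2 b a = true → a ^^^ b = n → InS n := by
    intro a b n ha hb hg e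
    have := tv_conj_mem (c := 1) ha (tv_mem_isomGroup hB _ _) hb
    rw [tv_apply, form_Phi_Phi hG h2, hg, io_true, one_mul, one_smul, add_comm, ← Phi_xor h2, e] at this
    exact this
  have hsingle : ∀ i, i < 6 → InS 1 → tv hB (p i) 1 ∈ H := by
    intro i hi h
    have h' : tv hB (p 0) 1 ∈ H := by
      have : InS 1 := h
      simpa only [InS, Phi_one] using this
    have := H.mul_mem (hrel i 0 hi (by norm_num)) h'
    rwa [mul_assoc, tv_sq h2, mul_one] at this
  have h34 : InS 34 := st2 0 2 (by norm_num) (by norm_num) h39 (by decide)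
  have h58 : InS 58 := st2 3 4 (by norm_num) (by norm_num) h34 (by decide)
  have h10 : InS 10 := st2 4 5 (by norm_num) (by norm_num) h58 (by decide)
  have h55 : InS 55 := st2 1 4 (by norm_num) (by norm_num) h39 (by decide)
  have h19 : InS 19 := st2 2 5 (by norm_num) (by norm_num) h55 (by decide)
  have h11 : InS 11 := st2 4 3 (by norm_num) (by norm_num) h19 (by decide)
  have h33 : InS 33 := st2 1 2 (by norm_num) (by norm_num) h39 (by decide)
  have h57 : InS 57 := st2 3 4 (by norm_num) (by norm_num) h33 (by decide)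
  have h29 : InS 29 := st2 2 5 (by norm_num) (by norm_num) h57 (by decide)
  have h5 : InS 5 := st2 3 4 (by norm_num) (by norm_num) h29 (by decide)
  have h46 : InS 46 := st2 0 3 (by norm_num) (by norm_num) h39 (by decide)
  have h40 : InS 40 := st2 2 1 (by norm_num) (by norm_num) h46 (by decide)
  have h1 : InS 1 := add_st h10 h11 (by decide) (by decide)
  have hp : ∀ i, i < 6 → tv hB (p i) 1 ∈ H := fun i hi => hsingle i hi h1
  have st1 : ∀ (i : ℕ), i < 6 → ∀ {m n : ℕ}, InS m → act i m = n → InS n := by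
    intro i hi m n h e
    have := tv_conj_mem (c := 1) (hp i hi) (tv_mem_isomGroup hB (p i) 1) h
    rw [act_eq hG hB h2 m hi, e] at this
    exact this
  have h45 : InS 45 := add_st h5 h40 (by decide) (by decide)
  have h13 : InS 13 := st1 3 (by norm_num) h5 (by decide)
  have h26 : InS 26 := st1 4 (by norm_num) h10 (by decide)
  have h9 : InS 9 := st1 1 (by norm_num) h11 (by decide)
  have h27 : InS 27 := st1 4 (by norm_num) h11 (by decide)
  have h18 : InS 18 := st1 0 (by norm_num) h19 (by decide)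
  have h17 : InS 17 := st1 1 (by norm_num) h19 (by decide)
  have h23 : InS 23 := st1 2 (by norm_num) h19 (by decide)
  have h51 : InS 51 := st1 5 (by norm_num) h19 (by decide)
  have h25 : InS 25 := st1 2 (by norm_num) h29 (by decide)
  have h61 : InS 61 := st1 5 (by norm_num) h29 (by decide)
  have h35 : InS 35 := st1 1 (by norm_num) h33 (by decide)
  have h49 : InS 49 := st1 4 (by norm_num) h33 (by decide)
  have h38 : InS 38 := st1 2 (by norm_num) h34 (by decide)
  have h50 : InS 50 := st1 4 (by norm_num) h34 (by decide)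
  have h47 : InS 47 := st1 3 (by norm_num) h39 (by decide)
  have h44 : InS 44 := st1 2 (by norm_num) h40 (by decide)
  have h54 : InS 54 := st1 0 (by norm_num) h55 (by decide)
  have h59 : InS 59 := st1 1 (by norm_num) h57 (by decide)
  have h3 : InS 3 := st1 1 (by norm_num) h1 (by decide)
  have h41 : InS 41 := st1 2 (by norm_num) h45 (by decide)
  have h37 : InS 37 := st1 3 (by norm_num) h45 (by decide)
  have h22 : InS 22 := st1 2 (by norm_num) h18 (by decide)
  have h36 : InS 36 := st1 1 (by norm_num) h38 (by decide)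
  have h52 : InS 52 := st1 1 (by norm_num) h54 (by decide)
  have h2 : InS 2 := st1 0 (by norm_num) h3 (by decide)
  have h7 : InS 7 := st1 2 (by norm_num) h3 (by decide)
  have h43 : InS 43 := st1 1 (by norm_num) h41 (by decide)
  have h53 : InS 53 := st1 4 (by norm_num) h37 (by decide)
  have h20 : InS 20 := st1 1 (by norm_num) h22 (by decide)
  have h6 : InS 6 := st1 2 (by norm_num) h2 (by decide)
  have h15 : InS 15 := st1 3 (by norm_num) h7 (by decide)
  have h42 : InS 42 := st1 0 (by norm_num) h43 (by decide)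
  have h21 : InS 21 := st1 5 (by norm_num) h53 (by decide)
  have h4 : InS 4 := st1 1 (by norm_num) h6 (by decide)
  have h14 : InS 14 := st1 3 (by norm_num) h6 (by decide)
  have h31 : InS 31 := st1 4 (by norm_num) h15 (by decide)
  have h12 : InS 12 := st1 3 (by norm_num) h4 (by decide)
  have h30 : InS 30 := st1 4 (by norm_num) h14 (by decide)
  have h63 : InS 63 := st1 5 (by norm_num) h31 (by decide)
  have h8 : InS 8 := st1 2 (by norm_num) h12 (by decide)
  have h28 : InS 28 := st1 4 (by norm_num) h12 (by decide)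
  have h62 : InS 62 := st1 5 (by norm_num) h30 (by decide)
  have h24 : InS 24 := st1 4 (by norm_num) h8 (by decide)
  have h60 : InS 60 := st1 5 (by norm_num) h28 (by decide)
  have h16 : InS 16 := st1 3 (by norm_num) h24 (by decide)
  have h56 : InS 56 := st1 5 (by norm_num) h24 (by decide)
  have h48 : InS 48 := st1 5 (by norm_num) h16 (by decide)
  have h32 : InS 32 := st1 4 (by norm_num) h48 (by decide)
  intro m hm h0
  interval_cases m
  · exact absurd rfl h0
  · exact h1
  · exact h2
  · exact h3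
  · exact h4
  · exact h5
  · exact h6
  · exact h7
  · exact h8
  · exact h9
  · exact h10
  · exact h11
  · exact h12
  · exact h13
  · exact h14
  · exact h15
  · exact h16
  · exact h17
  · exact h18
  · exact h19
  · exact h20
  · exact h21
  · exact h22
  · exact h23
  · exact h24
  · exact h25
  · exact h26
  · exact h27
  · exact h28
  · exact h29
  · exact h30
  · exact h31
  · exact h32
  · exact h33
  · exact h34
  · exact h35
  · exact h36
  · exact h37
  · exact h38
  · exact h39
  · exact h40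
  · exact h41
  · exact h42
  · exact h43
  · exact h44
  · exact h45
  · exact h46
  · exact h47
  · exact h48
  · exact h49
  · exact h50
  · exact h51
  · exact h52
  · exact h53
  · exact h54
  · exact h55
  · exact h56
  · exact h57
  · exact h58
  · exact h59
  · exact h60
  · exact h61
  · exact h62
  · exact h63

end path

section design
variable [FiniteDimensional F V]

theorem exists_gr : ∀ m, m < 64 → m ≠ 0 → ∃ i, i < 6 ∧ gr m i = true := by
  decide

theorem Rel.refl' (h2 : (2 : F) = 0) (hB : B.IsAlt) (H : Subgroup (V ≃ₗ[F] V)) (v : V) : Rel hB H v v := by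
  show tv hB v 1 * tv hB v 1 ∈ H
  rw [tv_sq h2]
  exact H.one_mem

/-- The classes of the orbit of `a`. -/
theorem orbit_rel (hB : B.IsAlt) (h2 : (2 : F) = 0) {u : V ≃ₗ[F] V} (hu : u ∈ isomGroup B)
    {H : Subgroup (V ≃ₗ[F] V)} (huH : u ∈ H) {a : V} (ha : Rel hB H a (u a)) (i : ℕ) :
    Rel hB H ((u ^ i) a) a := by
  induction i with
  | zero => exact Rel.refl' h2 hB H a
  | succ i ih =>
    have h1 := Rel.conj (H.pow_mem huH i) (pow_mem_isom hu i) ha
    have h3 : (u ^ i) (u a) = (u ^ (i + 1)) a := by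
      rw [pow_succ]
      rfl
    rw [h3] at h1
    exact Rel.trans h2 (Rel.symm h2 h1) ih

theorem design_f2 (hF : ∀ c : F, c = 0 ∨ c = 1) (hB : B.IsAlt) (hN : B.Nondegenerate) (h2 : (2 : F) = 0)
    {u : V ≃ₗ[F] V} (hu : u ∈ isomGroup B) (a : V) {p : ℕ → V}
    (hG : ∀ i j, i < 6 → j < 6 → B (p i) (p j) = io F (adj i j))
    (hrelp : ∀ H : Subgroup (V ≃ₗ[F] V), (∀ i : ℕ, Rel hB H ((u ^ i) a) a) → ∀ i, i < 6 → Rel hB H (p i) a)
    (z : V) (hz₁ : p 0 + p 3 = z) (hz₂ : u z = p 1 + p 4)
    (hchain : B a (u a) ≠ 0)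
    (hspan : Submodule.span F (Set.range fun i : ℕ => (u ^ i) a) = ⊤) :
    ∃ g₁ ∈ isomGroup B, ∃ g₂ ∈ isomGroup B, gen3 u g₁ g₂ = isomGroup B := by
  classical
  refine ⟨tv hB a 1, tv_mem_isomGroup hB _ _, tv hB z 1, tv_mem_isomGroup hB _ _, ?_⟩
  set H := gen3 u (tv hB a 1) (tv hB z 1) with hH
  have huH : u ∈ H := gen3_u _ _ _
  have hle : H ≤ isomGroup B := gen3_le hu (tv_mem_isomGroup hB _ _) (tv_mem_isomGroup hB _ _)
  have hneg : (-1 : F) = 1 := neg_eq_self h2 1
  have Ra : Rel hB H a (u a) := by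
    have := pair_mem huH hu a 1 (gen3_v _ _ _)
    rwa [hneg] at this
  have Rz : Rel hB H z (u z) := by
    have := pair_mem huH hu z 1 (gen3_w _ _ _)
    rwa [hneg] at this
  have hx : ∀ i : ℕ, Rel hB H ((u ^ i) a) a := orbit_rel hB h2 hu huH Ra
  have hrp := hrelp H hx
  have hrel : ∀ i j, i < 6 → j < 6 → Rel hB H (p i) (p j) := fun i j hi hj =>
    Rel.trans h2 (hrp i hi) (Rel.symm h2 (hrp j hj))
  have hz' : Rel hB H (p 0 + p 3) (p 1 + p 4) := by
    rw [hz₁, ← hz₂]
    exact Rz
  have hall := core_all hG hB h2 hrel hz'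
  have hfull : ∀ v : V, tv hB v 1 ∈ H → ∀ c : F, tv hB v c ∈ H := by
    intro v hv c
    rcases hF c with rfl | rfl
    · rw [tv_zero]
      exact H.one_mem
    · exact hv
  have hio1 : io F true = 1 := rfl
  have h01 : (1 : F) ≠ 0 := one_ne_zero
  let W₀ : Submodule F V :=
    { carrier := {v | ∃ m, m < 64 ∧ v = Phi F p m}
      add_mem' := by
        rintro _ _ ⟨m, hm, rfl⟩ ⟨m', hm', rfl⟩
        exact ⟨m ^^^ m', Nat.xor_lt_two_pow (n := 6) hm hm', (Phi_xor h2 m m').symm⟩
      zero_mem' := ⟨0, by norm_num, Phi_zero.symm⟩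
      smul_mem' := by
        rintro c _ ⟨m, hm, rfl⟩
        rcases hF c with rfl | rfl
        · exact ⟨0, by norm_num, by rw [Phi_zero, zero_smul]⟩
        · exact ⟨m, hm, by rw [one_smul]⟩ }
  have hpW : ∀ i, i < 6 → p i ∈ W₀ := fun i hi => by
    refine ⟨2 ^ i, ?_, (Phi_single hi).symm⟩
    interval_cases i <;> norm_num
  have hW₀ : Good B (Sset hB H) W₀ := by
    refine ⟨?_, ?_⟩
    · rintro _ ⟨m, hm, rfl⟩ hx0
      have hm0 : m ≠ 0 := by
        rintro rfl
        exact hx0 Phi_zero
      obtain ⟨i, hi, hgr⟩ := exists_gr m hm hm0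
      refine ⟨p i, hpW i hi, ?_⟩
      rw [form_Phi_p hG h2 m hi, hgr, hio1]
      exact h01
    · rintro _ ⟨m, hm, rfl⟩ hx0
      have hm0 : m ≠ 0 := by
        rintro rfl
        exact hx0 Phi_zero
      exact ⟨hx0, hfull _ (hall m hm hm0)⟩
  have hp01 : B (p 0) (p 1) = 1 := by
    rw [hG 0 1 (by norm_num) (by norm_num), show adj 0 1 = true by decide, hio1]
  have hp21 : B (p 2) (p 1) = 1 := by
    rw [hG 2 1 (by norm_num) (by norm_num), show adj 2 1 = true by decide, hio1]
  have hp02 : B (p 0) (p 2) = 0 := by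
    rw [hG 0 2 (by norm_num) (by norm_num), show adj 0 2 = false by decide]
    rfl
  have hp03 : B (p 0) (p 3) = 0 := by
    rw [hG 0 3 (by norm_num) (by norm_num), show adj 0 3 = false by decide]
    rfl
  have hp23 : B (p 2) (p 3) = 1 := by
    rw [hG 2 3 (by norm_num) (by norm_num), show adj 2 3 = true by decide, hio1]
  have hp00 : p 0 ≠ 0 := by
    intro h0
    rw [h0] at hp01
    simp at hp01
  have hp20 : p 2 ≠ 0 := by
    intro h0
    rw [h0] at hp21
    simp at hp21
  have hp0p2 : p 0 + p 2 ≠ 0 := by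
    intro h0
    have : B (p 0 + p 2) (p 3) = 1 := by
      rw [map_add, LinearMap.add_apply, hp03, hp23, zero_add]
    rw [h0] at this
    simp at this
  have hT0 : tv hB a 1 ∈ H := by
    have h1 : tv hB (p 0) 1 ∈ H := by
      have := hall 1 (by norm_num) (by norm_num)
      rwa [Phi_one] at this
    have := H.mul_mem (Rel.symm h2 (hrp 0 (by norm_num))) h1
    rwa [mul_assoc, tv_sq h2, mul_one] at this
  have ha0 : a ≠ 0 := by
    rintro rfl
    simp at hchain
  have hxS : ∀ i : ℕ, (u ^ i) a ∈ Sset hB H := by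
    intro i
    refine ⟨?_, hfull _ ?_⟩
    · intro h0
      apply ha0
      simpa using h0
    · have := H.mul_mem (hx i) hT0
      rwa [mul_assoc, tv_sq h2, mul_one] at this
  have hchain' : ∀ i : ℕ, B ((u ^ i) a) ((u ^ (i + 1)) a) ≠ 0 := by
    intro i
    have h3 : (u ^ (i + 1)) a = (u ^ i) (u a) := by
      rw [pow_succ]
      rfl
    rw [h3, pow_mem_isom hu i a (u a)]
    exact hchain
  have hspanS : Submodule.span F (Sset hB H) = ⊤ := by
    rw [eq_top_iff, ← hspan]
    apply Submodule.span_mono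
    rintro _ ⟨i, rfl⟩
    exact hxS i
  have hallS : ∀ v : V, v ≠ 0 → v ∈ Sset hB H := by
    refine all_mem hB hN (Sset_closed hB H) hspanS hW₀ (hpW 0 (by norm_num)) (hpW 2 (by norm_num)) hp00 hp20
      hp0p2 hp02 ?_
    intro W hWle hW htop
    exact conn_chain hB hN hxS hchain' hspan hW (hWle (hpW 0 (by norm_num))) hp00 htop
  exact eq_of_all hB hN hle hallS

end design

end Cfsg.Agent.Lib.RegUnip.SpF2
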