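/-
The model of a regular unipotent element of `Sp_{2n}`: the form `ℓ (p q' - p' q)` on `A × A`, where
`A = F[w]/(w^n)`, and the element `[[1+w, 1], [w, 1]]` of `SL₂(A)`.
-/
import Mathlib
import Cfsg.Agent.Lib.Classical.Alt

set_option autoImplicit false
set_option linter.unusedSectionVars false
set_option linter.unusedVariables false

namespace Cfsg.Agent.Lib.RegUnip.SpModel

open Cfsg.Agent.Lib.Classical.Alt

variable {F A : Type*} [Field F] [CommRing A] [Algebra F A]

/-- The form on `A × A`. -/
noncomputable def form (ℓ : A →ₗ[F] F) : LinearMap.BilinForm F (A × A) :=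
  LinearMap.mk₂ F (fun x y => ℓ (x.1 * y.2 - y.1 * x.2))
    (fun a b c => by
      rw [← map_add]; congr 1
      simp only [Prod.fst_add, Prod.snd_add]; ring)
    (fun c a b => by
      show ℓ _ = c • ℓ _
      rw [← map_smul]; congr 1
      simp only [Prod.smul_fst, Prod.smul_snd, smul_mul_assoc, mul_smul_comm, smul_sub])
    (fun a b c => by
      rw [← map_add]; congr 1
      simp only [Prod.fst_add, Prod.snd_add]; ring)
    (fun c a b => by
      show ℓ _ = c • ℓ _
      rw [← map_smul]; congr 1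
      simp only [Prod.smul_fst, Prod.smul_snd, smul_mul_assoc, mul_smul_comm, smul_sub])

@[simp] theorem form_apply (ℓ : A →ₗ[F] F) (x y : A × A) :
    form ℓ x y = ℓ (x.1 * y.2 - y.1 * x.2) := rfl

theorem form_isAlt (ℓ : A →ₗ[F] F) : (form ℓ).IsAlt := by
  intro x
  simp

/-- The linear map of the regular unipotent element. -/
noncomputable def uLin (w : A) : (A × A) →ₗ[F] (A × A) where
  toFun x := ((1 + w) * x.1 + x.2, w * x.1 + x.2)
  map_add' x y := by
    ext <;> simp <;> ring
  map_smul' c x := by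
    ext <;> simp [mul_smul_comm, smul_add]

/-- The inverse linear map. -/
noncomputable def uInv (w : A) : (A × A) →ₗ[F] (A × A) where
  toFun x := (x.1 - x.2, (-w) * x.1 + (1 + w) * x.2)
  map_add' x y := by
    ext <;> simp <;> ring
  map_smul' c x := by
    ext <;> simp [mul_smul_comm, smul_add, smul_sub]

/-- The regular unipotent element. -/
noncomputable def uEl (w : A) : (A × A) ≃ₗ[F] (A × A) :=
  LinearEquiv.ofLinearMap (uLin w) (uInv w)
    (by ext x <;> simp [uLin, uInv] <;> ring)
    (by ext x <;> simp [uLin, uInv] <;> ring)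

@[simp] theorem uEl_apply (w : A) (x : A × A) :
    (uEl (F := F) w) x = ((1 + w) * x.1 + x.2, w * x.1 + x.2) := rfl

theorem uEl_fst (w : A) (x : A × A) : ((uEl (F := F) w) x).1 = (1 + w) * x.1 + x.2 := rfl
theorem uEl_snd (w : A) (x : A × A) : ((uEl (F := F) w) x).2 = w * x.1 + x.2 := rfl

theorem uEl_mem (ℓ : A →ₗ[F] F) (w : A) : uEl (F := F) w ∈ isomGroup (form ℓ) := by
  intro x y
  rw [form_apply, form_apply, uEl_fst, uEl_snd, uEl_fst, uEl_snd]
  congr 1
  ring

/-- The nilpotent part `u - 1`. -/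
noncomputable abbrev nPart (w : A) : Module.End F (A × A) :=
  ((uEl (F := F) w : (A × A) →ₗ[F] (A × A)) : Module.End F (A × A)) - 1

theorem nPart_apply (w : A) (x : A × A) : nPart (F := F) w x = (w * x.1 + x.2, w * x.1) := by
  show (uEl (F := F) w) x - x = _
  ext <;> simp <;> ring

/-- Multiplication by `w`. -/
noncomputable def mw (w : A) : Module.End F (A × A) where
  toFun x := (w * x.1, w * x.2)
  map_add' x y := by
    ext <;> simp <;> ring
  map_smul' c x := by
    ext <;> simp [mul_smul_comm]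

theorem mw_apply (w : A) (x : A × A) : mw (F := F) w x = (w * x.1, w * x.2) := rfl

theorem mw_pow (w : A) (k : ℕ) (x : A × A) : ((mw (F := F) w) ^ k) x = (w ^ k * x.1, w ^ k * x.2) := by
  induction k with
  | zero => simp
  | succ k ih =>
    rw [pow_succ', Module.End.mul_apply, ih, mw_apply]
    ext <;> simp <;> ring

theorem nPart_sq (w : A) : nPart (F := F) w * nPart (F := F) w =
    mw (F := F) w * ((uEl (F := F) w : (A × A) →ₗ[F] (A × A)) : Module.End F (A × A)) := by
  refine LinearMap.ext fun x => ?_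
  rw [Module.End.mul_apply, Module.End.mul_apply, nPart_apply, nPart_apply, mw_apply]
  show _ = (w * ((uEl (F := F) w) x).1, w * ((uEl (F := F) w) x).2)
  rw [uEl_fst, uEl_snd]
  ext <;> simp <;> ring

section trunc
variable {n : ℕ} {w : A} {ℓ : A →ₗ[F] F}

theorem nPart_pow (hw : w ^ n = 0) : (nPart (F := F) w) ^ (2 * n) = 0 := by
  have hc : Commute (mw (F := F) w) ((uEl (F := F) w : (A × A) →ₗ[F] (A × A)) : Module.End F (A × A)) := by
    show _ * _ = _ * _
    refine LinearMap.ext fun x => ?_
    rw [Module.End.mul_apply, Module.End.mul_apply, mw_apply]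
    show (w * ((uEl (F := F) w) x).1, w * ((uEl (F := F) w) x).2) = (uEl (F := F) w) (w * x.1, w * x.2)
    rw [uEl_fst, uEl_snd]
    ext <;> simp <;> ring
  have h0 : (mw (F := F) w) ^ n = 0 := by
    refine LinearMap.ext fun x => ?_
    rw [mw_pow, hw]
    simp
  rw [pow_mul, sq, nPart_sq, hc.mul_pow, h0, zero_mul]

theorem isNilpotent_nPart (hw : w ^ n = 0) : IsNilpotent (nPart (F := F) w) := ⟨_, nPart_pow hw⟩

/-- The cyclic vector. -/
def aV (A : Type*) [CommRing A] : A × A := (0, 1)

theorem decomp (hdec : ∀ q : A, ∃ (α : F) (r : A), q = α • (1 : A) + w * r) (z : A × A) :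
    ∃ (α : F) (t : A × A), z = α • aV A + nPart (F := F) w t := by
  obtain ⟨α, r, hr⟩ := hdec z.2
  refine ⟨α, (r, z.1 - w * r), ?_⟩
  rw [nPart_apply]
  ext
  · simp [aV]
  · simp [aV, hr]

theorem span_cyclic (hw : w ^ n = 0) (hdec : ∀ q : A, ∃ (α : F) (r : A), q = α • (1 : A) + w * r) :
    Submodule.span F (Set.range fun i : ℕ => ((uEl (F := F) w) ^ i) (aV A)) = ⊤ := by
  set U := Submodule.span F (Set.range fun i : ℕ => ((uEl (F := F) w) ^ i) (aV A)) with hU
  have hmem : ∀ i : ℕ, ((uEl (F := F) w) ^ i) (aV A) ∈ U := fun i => Submodule.subset_span ⟨i, rfl⟩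
  have hu : ∀ x ∈ U, (uEl (F := F) w) x ∈ U := by
    intro x hx
    induction hx using Submodule.span_induction with
    | mem x hx =>
      obtain ⟨i, rfl⟩ := hx
      have := hmem (i + 1)
      rwa [pow_succ'] at this
    | zero => rw [map_zero]; exact U.zero_mem
    | add x y _ _ hx hy => rw [map_add]; exact U.add_mem hx hy
    | smul c x _ hx => rw [map_smul]; exact U.smul_mem c hx
  have hN : ∀ x ∈ U, nPart (F := F) w x ∈ U := by
    intro x hx
    have : nPart (F := F) w x = (uEl (F := F) w) x - x := rfl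
    rw [this]
    exact U.sub_mem (hu x hx) hx
  have hNa : ∀ m : ℕ, ((nPart (F := F) w) ^ m) (aV A) ∈ U := by
    intro m
    induction m with
    | zero => simpa using hmem 0
    | succ m ih =>
      rw [pow_succ', Module.End.mul_apply]
      exact hN _ ih
  have hall : ∀ (m : ℕ) (x : A × A), ∃ y ∈ U, ∃ z, x = y + ((nPart (F := F) w) ^ m) z := by
    intro m
    induction m with
    | zero => exact fun x => ⟨0, U.zero_mem, x, by simp⟩
    | succ m ih =>
      intro x
      obtain ⟨y, hy, z, rfl⟩ := ih x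
      obtain ⟨α, t, rfl⟩ := decomp (F := F) hdec z
      refine ⟨y + α • ((nPart (F := F) w) ^ m) (aV A), U.add_mem hy (U.smul_mem α (hNa m)), t, ?_⟩
      rw [map_add, map_smul, pow_succ, Module.End.mul_apply, add_assoc]
  rw [eq_top_iff]
  intro x _
  obtain ⟨y, hy, z, rfl⟩ := hall (2 * n) x
  rw [nPart_pow hw]
  simpa using hy

/-- A Frobenius property. -/
theorem frob (hn : 1 ≤ n) (hw : w ^ n = 0) (hdec : ∀ q : A, ∃ (α : F) (r : A), q = α • (1 : A) + w * r)
    (hℓ : ℓ (w ^ (n - 1)) ≠ 0) (x : A) (hx : x ≠ 0) : ∃ y, ℓ (x * y) ≠ 0 := by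
  have key : ∀ (d m : ℕ) (r : A), m + d = n → w ^ m * r ≠ 0 → ∃ y, ℓ (w ^ m * r * y) ≠ 0 := by
    intro d
    induction d with
    | zero =>
      intro m r hm h
      rw [add_zero] at hm
      subst hm
      simp [hw] at h
    | succ d ih =>
      intro m r hm h
      obtain ⟨α, r', rfl⟩ := hdec r
      by_cases hα : α = 0
      · subst hα
        have e : w ^ m * ((0 : F) • (1 : A) + w * r') = w ^ (m + 1) * r' := by
          simp only [zero_smul, zero_add]
          ring
        rw [e] at h ⊢
        exact ih (m + 1) r' (by omega) h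
      · refine ⟨w ^ d, ?_⟩
        have e1 : n - 1 = m + d := by omega
        have e2 : n = m + d + 1 := by omega
        have e : w ^ m * (α • (1 : A) + w * r') * w ^ d = α • w ^ (n - 1) + w ^ n * r' := by
          rw [e1, e2]
          simp only [Nat.add_sub_cancel, smul_add, mul_add, add_mul, mul_smul_comm, smul_mul_assoc,
            mul_one]
          ring_nf
        rw [e, hw, zero_mul, add_zero, map_smul]
        exact smul_ne_zero hα hℓ
  simpa using key n 0 x (by omega) (by simpa using hx)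

theorem form_nondeg (hn : 1 ≤ n) (hw : w ^ n = 0)
    (hdec : ∀ q : A, ∃ (α : F) (r : A), q = α • (1 : A) + w * r)
    (hℓ : ℓ (w ^ (n - 1)) ≠ 0) : (form ℓ).Nondegenerate := by
  have hL : LinearMap.SeparatingLeft (form ℓ) := by
    intro x hx
    ext
    · by_contra h
      obtain ⟨y, hy⟩ := frob hn hw hdec hℓ x.1 h
      apply hy
      have := hx (0, y)
      simpa using this
    · by_contra h
      obtain ⟨y, hy⟩ := frob hn hw hdec hℓ x.2 h
      apply hy
      have := hx (y, 0)
      have h2 : ℓ (x.2 * y) = - ℓ (x.1 * 0 - y * x.2) := by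
        rw [← map_neg]
        congr 1
        ring
      rw [h2]
      simpa using this
  exact (LinearMap.IsRefl.nondegenerate_iff_separatingLeft (form_isAlt ℓ).isRefl).2 hL

/-- The vector `N^{2n-1} a`. -/
theorem nPart_pow_odd (hn : 1 ≤ n) (hw : w ^ n = 0) :
    ((nPart (F := F) w) ^ (2 * n - 1)) (aV A) = (w ^ (n - 1), 0) := by
  have hk : ∀ k : ℕ, ∃ s r : A, ((uEl (F := F) w) ^ k) (aV A) = (s, 1 + w * r) := by
    intro k
    induction k with
    | zero => exact ⟨0, 0, by simp [aV]⟩
    | succ k ih =>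
      obtain ⟨s, r, h⟩ := ih
      refine ⟨(1 + w) * s + (1 + w * r), s + r, ?_⟩
      rw [pow_succ', LinearEquiv.mul_apply, h, uEl_apply]
      ext
      · rfl
      · simp only
        ring
  have hc : Commute (mw (F := F) w) ((uEl (F := F) w : (A × A) →ₗ[F] (A × A)) : Module.End F (A × A)) := by
    show _ * _ = _ * _
    refine LinearMap.ext fun x => ?_
    rw [Module.End.mul_apply, Module.End.mul_apply, mw_apply]
    show (w * ((uEl (F := F) w) x).1, w * ((uEl (F := F) w) x).2) = (uEl (F := F) w) (w * x.1, w * x.2)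
    rw [uEl_fst, uEl_snd]
    ext <;> simp <;> ring
  have e1 : 2 * n - 1 = 1 + 2 * (n - 1) := by omega
  have hpow : ∀ k : ℕ, ((((uEl (F := F) w : (A × A) →ₗ[F] (A × A)) : Module.End F (A × A))) ^ k) (aV A)
      = ((uEl (F := F) w) ^ k) (aV A) := by
    intro k
    induction k with
    | zero => rfl
    | succ k ih =>
      rw [pow_succ', Module.End.mul_apply, ih, pow_succ', LinearEquiv.mul_apply]
      rfl
  rw [e1, pow_add, pow_one, pow_mul, sq, nPart_sq, hc.mul_pow, Module.End.mul_apply, Module.End.mul_apply,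
    hpow]
  obtain ⟨s, r, h⟩ := hk (n - 1)
  rw [h, mw_pow, nPart_apply]
  have e2 : w * (w ^ (n - 1) * s) = 0 := by
    rw [← mul_assoc, ← pow_succ', show n - 1 + 1 = n by omega, hw, zero_mul]
  have e3 : w ^ (n - 1) * (1 + w * r) = w ^ (n - 1) := by
    have : w ^ (n - 1) * (1 + w * r) = w ^ (n - 1) + (w ^ (n - 1) * w) * r := by ring
    rw [this, ← pow_succ, show n - 1 + 1 = n by omega, hw, zero_mul, add_zero]
  simp only
  rw [e2, e3, zero_add]

end trunc

section instance_trunc
open Polynomial

variable (F)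

/-- The truncated polynomial ring. -/
abbrev TrA (n : ℕ) : Type _ := AdjoinRoot ((X : F[X]) ^ n)

/-- Its generator. -/
noncomputable def trW (n : ℕ) : TrA F n := AdjoinRoot.root _

theorem trW_pow (n : ℕ) : trW F n ^ n = 0 := by
  unfold trW
  rw [← AdjoinRoot.mk_X, ← map_pow, AdjoinRoot.mk_self]

theorem trW_dec (n : ℕ) (q : TrA F n) : ∃ (α : F) (r : TrA F n), q = α • (1 : TrA F n) + trW F n * r := by
  obtain ⟨p, rfl⟩ := AdjoinRoot.mk_surjective q
  refine ⟨p.coeff 0, AdjoinRoot.mk _ p.divX, ?_⟩
  conv_lhs => rw [← Polynomial.divX_mul_X_add p]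
  rw [map_add, map_mul, AdjoinRoot.mk_X, Algebra.smul_def, mul_one, trW, mul_comm, add_comm]
  rfl

/-- The power basis. -/
noncomputable def trPB (n : ℕ) : PowerBasis F (TrA F n) :=
  AdjoinRoot.powerBasis' (monic_X_pow n)

theorem trPB_dim (n : ℕ) : (trPB F n).dim = n := by
  simp [trPB]

theorem trPB_gen (n : ℕ) : (trPB F n).gen = trW F n := by
  simp [trPB, trW]

instance trA_finite (n : ℕ) : Module.Finite F (TrA F n) := (trPB F n).finite

theorem trA_finrank (n : ℕ) : Module.finrank F (TrA F n) = n := by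
  rw [(trPB F n).finrank, trPB_dim]

/-- The functional with prescribed values on powers of `w`. -/
noncomputable def trL (n : ℕ) (c : ℕ → F) : TrA F n →ₗ[F] F :=
  (trPB F n).basis.constr F (fun i => c i)

theorem trL_pow (n : ℕ) (c : ℕ → F) (hc : ∀ j, n ≤ j → c j = 0) (j : ℕ) :
    trL F n c (trW F n ^ j) = c j := by
  by_cases hj : j < n
  · have hj' : j < (trPB F n).dim := by rwa [trPB_dim]
    have h1 : trW F n ^ j = (trPB F n).basis ⟨j, hj'⟩ := by
      rw [PowerBasis.coe_basis, trPB_gen]
    rw [h1, trL, Module.Basis.constr_basis]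
  · have h1 : trW F n ^ j = 0 := by
      have : j = n + (j - n) := by omega
      rw [this, pow_add, trW_pow, zero_mul]
    rw [h1, map_zero, hc j (by omega)]

end instance_trunc

end Cfsg.Agent.Lib.RegUnip.SpModel
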