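/-
Three conjugate regular unipotent elements generate `Sp(V)` in odd characteristic: the abstract design.
-/
import Mathlib
import Cfsg.Agent.Lib.RegUnip.SpCalc

set_option autoImplicit false
set_option linter.unusedSectionVars false
set_option linter.unusedVariables false
set_option linter.unusedSimpArgs false

namespace Cfsg.Agent.Lib.RegUnip.SpOdd

open Cfsg.Agent.Lib.Classical.Alt
open Cfsg.Agent.Lib.RegUnip.SpFinal
open Cfsg.Agent.Lib.RegUnip.SpCalc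

variable {F V : Type*} [Field F] [AddCommGroup V] [Module F V]
variable {B : LinearMap.BilinForm F V}

theorem design_odd [Finite F] [FiniteDimensional F V] (hB : B.IsAlt) (hN : B.Nondegenerate)
    (h2 : (2 : F) ≠ 0) {u : V ≃ₗ[F] V} (hu : u ∈ isomGroup B)
    (hnil : IsNilpotent (((u : V →ₗ[F] V) : Module.End F V) - 1))
    (a z₀ z₁ : V) (huz₀ : u z₀ = z₀) (huz₁ : u z₁ = z₁ + z₀) (hz : B z₀ z₁ = 0)
    (hκ : B z₀ a ≠ 0) (ha₁ : B a (u a) = 0) (ha₂ : B a (u (u a)) ≠ 0)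
    (hspan : Submodule.span F (Set.range fun i : ℕ => (u ^ i) a) = ⊤) :
    ∃ g₁ ∈ isomGroup B, ∃ g₂ ∈ isomGroup B, gen3 u g₁ g₂ = isomGroup B := by
  classical
  have hanti : ∀ x y, B y x = - B x y := fun x y => alt_neg hB x y
  set x₁ := u a with hx₁
  set x₂ := u x₁ with hx₂
  set n₀ := x₁ - a with hn₀
  set n₁ := x₂ - x₁ with hn₁
  set κ := B z₀ a with hκdef
  set a₂ := B a x₂ with ha₂def
  have hun₀ : u n₀ = n₁ := by
    show u (x₁ - a) = u x₁ - x₁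
    rw [map_sub]
  have hzz : B z₀ z₀ = 0 := hB z₀
  have hz1 : B z₁ z₀ = 0 := by rw [hanti z₀ z₁, hz, neg_zero]
  have h11 : B z₁ z₁ = 0 := hB z₁
  have hzx₁ : B z₀ x₁ = κ := by
    have := hu z₀ a
    rwa [huz₀] at this
  have hzx₂ : B z₀ x₂ = κ := by
    have := hu z₀ x₁
    rw [huz₀] at this
    rw [this, hzx₁]
  have hzn₀ : B z₀ n₀ = 0 := by simp [hn₀, hzx₁, hκdef]
  have hzn₁ : B z₀ n₁ = 0 := by simp [hn₁, hzx₁, hzx₂]
  have hn₀z : B n₀ z₀ = 0 := by rw [hanti z₀ n₀, hzn₀, neg_zero]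
  have hn₁z : B n₁ z₀ = 0 := by rw [hanti z₀ n₁, hzn₁, neg_zero]
  have hax₁ : B a x₁ = 0 := ha₁
  have hx₁a : B x₁ a = 0 := by rw [hanti a x₁, hax₁, neg_zero]
  have hx₁x₂ : B x₁ x₂ = 0 := by
    have := hu a x₁
    rw [hax₁] at this
    exact this
  have hx₂x₁ : B x₂ x₁ = 0 := by rw [hanti x₁ x₂, hx₁x₂, neg_zero]
  have hx₂a : B x₂ a = - a₂ := hanti a x₂
  have haa : B a a = 0 := hB a
  have hx₁₁ : B x₁ x₁ = 0 := hB x₁
  have hx₂₂ : B x₂ x₂ = 0 := hB x₂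
  have hg : B n₀ n₁ = - a₂ := by
    have h : B a x₂ = a₂ := rfl
    simp only [hn₀, hn₁, map_sub, LinearMap.sub_apply, hx₁x₂, hx₁₁, hax₁, haa, h]
    ring
  have hn₀₀ : B n₀ n₀ = 0 := hB n₀
  have hn₁₁ : B n₁ n₁ = 0 := hB n₁
  have hn₁n₀ : B n₁ n₀ = a₂ := by
    rw [hanti n₀ n₁, hg, neg_neg]
  obtain ⟨ρ, hρ0, hρ⟩ := exists_gen F
  set gg := - a₂ with hgg
  have hgg0 : gg ≠ 0 := neg_ne_zero.2 ha₂
  set a₀ := ρ * gg⁻¹ with ha₀
  have ha₀0 : a₀ ≠ 0 := mul_ne_zero hρ0 (inv_ne_zero hgg0)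
  have ha₀g : a₀ * gg = ρ := by
    rw [ha₀, mul_assoc, inv_mul_cancel₀ hgg0, mul_one]
  set t := a₀ / 2 with ht
  have h2t : 2 * t = a₀ := by
    rw [ht]; field_simp
  set c' := - κ⁻¹ with hc'
  have hc'κ : c' * κ = -1 := by
    rw [hc', neg_mul, inv_mul_cancel₀ hκ]
  have hc'0 : c' ≠ 0 := neg_ne_zero.2 (inv_ne_zero hκ)
  refine ⟨tv hB a c', tv_mem_isomGroup hB _ _, tv hB z₁ t, tv_mem_isomGroup hB _ _, ?_⟩
  set H := gen3 u (tv hB a c') (tv hB z₁ t) with hH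
  have huH : u ∈ H := gen3_u _ _ _
  have huinvH : u⁻¹ ∈ H := H.inv_mem huH
  have huinv : u⁻¹ ∈ isomGroup B := (isomGroup B).inv_mem hu
  have hle : H ≤ isomGroup B := gen3_le hu (tv_mem_isomGroup hB _ _) (tv_mem_isomGroup hB _ _)
  have hr : tv hB a c' * tv hB x₁ (-c') ∈ H := pair_mem huH hu a c' (gen3_v _ _ _)
  have hs : tv hB z₁ t * tv hB (z₁ + z₀) (-t) ∈ H := by
    have := pair_mem huH hu z₁ t (gen3_w u (tv hB a c') (tv hB z₁ t))
    rwa [huz₁] at this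
  set r := tv hB a c' * tv hB x₁ (-c') with hrdef
  have hris : r ∈ isomGroup B :=
    (isomGroup B).mul_mem (tv_mem_isomGroup hB _ _) (tv_mem_isomGroup hB _ _)
  -- O1
  have hpz₀ : a₀ ∈ par hB H z₀ := by
    have h1 : tv hB (z₁ + z₀) t * tv hB (z₁ + z₀ + z₀) (-t) ∈ H := by
      have := pair_conj huH hu hs
      rwa [huz₁, map_add, huz₁, huz₀] at this
    have h3 : tv hB (z₁ + z₀) t * tv hB (z₁ + z₀ + z₀) (-t) =
        tv hB z₀ (-(2 * t)) * (tv hB z₁ t * tv hB (z₁ + z₀) (-t)) := by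
      ext x
      simp only [LinearEquiv.mul_apply, tv_apply, map_add, map_smul, LinearMap.add_apply,
        LinearMap.smul_apply, hzz, hz, hz1, h11, smul_eq_mul, mul_zero, add_zero, zero_add, mul_neg]
      module
    have h4 : tv hB z₀ (-(2 * t)) ∈ H := by
      have h5 : tv hB z₀ (-(2 * t)) =
          (tv hB (z₁ + z₀) t * tv hB (z₁ + z₀ + z₀) (-t)) * (tv hB z₁ t * tv hB (z₁ + z₀) (-t))⁻¹ := by
        rw [h3]; group
      rw [h5]
      exact H.mul_mem h1 (H.inv_mem hs)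
    have h6 := (par hB H z₀).neg_mem (mem_par.2 h4)
    rwa [neg_neg, h2t] at h6
  -- O2
  have hrz : r z₀ = z₀ + n₀ := by
    have h1 : tv hB x₁ (-c') z₀ = z₀ + x₁ := by
      rw [tv_apply, hzx₁, neg_mul, hc'κ, neg_neg, one_smul]
    show tv hB a c' (tv hB x₁ (-c') z₀) = _
    rw [h1, tv_apply]
    have h3 : B (z₀ + x₁) a = κ := by
      rw [map_add, LinearMap.add_apply, hx₁a, add_zero]
    rw [h3, hc'κ, neg_one_smul, hn₀]
    abel
  have hrn : r n₀ = n₀ := by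
    show tv hB a c' (tv hB x₁ (-c') n₀) = _
    have h1 : B n₀ x₁ = 0 := by simp [hn₀, hx₁₁, hax₁]
    have h2' : B n₀ a = 0 := by simp [hn₀, hx₁a, haa]
    simp only [tv_apply, h1, h2', mul_zero, zero_smul, add_zero]
  have hrinvz : r⁻¹ z₀ = z₀ - n₀ := by
    have h1 : r (z₀ - n₀) = z₀ := by
      rw [map_sub, hrz, hrn]; abel
    calc r⁻¹ z₀ = r⁻¹ (r (z₀ - n₀)) := by rw [h1]
      _ = _ := inv_apply_apply _ _
  have hplus : ∀ e, tv hB z₀ e ∈ H → tv hB (z₀ + n₀) e ∈ H := by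
    intro e he
    have := tv_conj_mem (hB := hB) hr hris he
    rwa [hrz] at this
  have hminus : ∀ e, tv hB z₀ e ∈ H → tv hB (z₀ - n₀) e ∈ H := by
    intro e he
    have := tv_conj_mem (hB := hB) (H.inv_mem hr) ((isomGroup B).inv_mem hris) he
    rwa [hrinvz] at this
  -- O3
  have hpn₀ : a₀ ∈ par hB H n₀ := by
    apply half_mem h2
    have h1 : tv hB (z₀ + n₀) a₀ * tv hB (z₀ - n₀) a₀ = tv hB n₀ (2 * a₀) * tv hB z₀ (2 * a₀) := by
      ext x
      simp only [LinearEquiv.mul_apply, tv_apply, map_add, map_sub, map_smul, LinearMap.add_apply,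
        LinearMap.sub_apply, LinearMap.smul_apply, hzz, hzn₀, hn₀z, hn₀₀, smul_eq_mul, mul_zero,
        add_zero, zero_add, sub_zero, zero_sub, mul_neg, sub_self]
      module
    have h3 : tv hB n₀ (2 * a₀) = (tv hB (z₀ + n₀) a₀ * tv hB (z₀ - n₀) a₀) * (tv hB z₀ (2 * a₀))⁻¹ := by
      rw [h1]; group
    show tv hB n₀ (2 * a₀) ∈ H
    rw [h3]
    refine H.mul_mem (H.mul_mem (hplus _ hpz₀) (hminus _ hpz₀)) (H.inv_mem ?_)
    have h4 : (2 : F) * a₀ = a₀ + a₀ := two_mul _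
    rw [h4]
    exact (par hB H z₀).add_mem hpz₀ hpz₀
  have hpn₁ : a₀ ∈ par hB H n₁ := by
    have := tv_conj_mem (hB := hB) huH hu hpn₀
    rwa [hun₀] at this
  -- the Heisenberg group
  let Γ : V → Prop := fun p => B z₀ p = 0 ∧ ∃ g ∈ H, ∃ ζ, IsY B z₀ g p ζ
  have Γadd : ∀ p q, Γ p → Γ q → Γ (p + q) := by
    rintro p q ⟨hp, g, hg, ζ, h⟩ ⟨hq, g', hg', ζ', h'⟩
    exact ⟨by simp [hp, hq], g * g', H.mul_mem hg hg', _, h.mul hB hp hq h'⟩
  have Γneg : ∀ p, Γ p → Γ (-p) := by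
    rintro p ⟨hp, g, hg, ζ, h⟩
    exact ⟨by simp [hp], g⁻¹, H.inv_mem hg, _, h.inv hB hp⟩
  have Γconj : ∀ h, h ∈ H → h ∈ isomGroup B → h z₀ = z₀ → ∀ p, Γ p → Γ (h p) := by
    rintro h hh hhi hfix p ⟨hp, g, hg, ζ, hy⟩
    refine ⟨?_, h * g * h⁻¹, H.mul_mem (H.mul_mem hh hg) (H.inv_mem hh), ζ, hy.conj hhi hfix⟩
    have := hhi z₀ p
    rw [hfix] at this
    rw [this, hp]
  have Γu : ∀ p, Γ p → Γ (u p) := Γconj u huH hu huz₀
  have huinvz : u⁻¹ z₀ = z₀ := by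
    calc u⁻¹ z₀ = u⁻¹ (u z₀) := by rw [huz₀]
      _ = z₀ := inv_apply_apply _ _
  have Γuinv : ∀ p, Γ p → Γ (u⁻¹ p) := Γconj u⁻¹ huinvH huinv huinvz
  have Γ0 : Γ 0 := ⟨by simp, 1, H.one_mem, 0, fun x => by simp⟩
  -- start
  have hstart : Γ (a₀ • n₀) := by
    refine ⟨by simp [hzn₀], tv hB (z₀ + n₀) a₀ * tv hB z₀ (-a₀) * tv hB n₀ (-a₀),
      H.mul_mem (H.mul_mem (hplus _ hpz₀) ((par hB H z₀).neg_mem hpz₀)) ((par hB H n₀).neg_mem hpn₀), 0, ?_⟩
    intro x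
    simp only [LinearEquiv.mul_apply, tv_apply, map_add, map_smul, LinearMap.add_apply,
      LinearMap.smul_apply, hzz, hzn₀, hn₀z, hn₀₀, smul_eq_mul, mul_zero, add_zero, zero_add, mul_neg,
      zero_mul]
    module
  -- growth of the parameters
  have hstep : ∀ b, Γ (b • n₀) → Γ ((b * ρ) • n₀) := by
    intro b hb
    have hfix : tv hB n₁ a₀ z₀ = z₀ := by simp [hzn₁]
    have h1 := Γconj _ hpn₁ (tv_mem_isomGroup hB _ _) hfix _ hb
    have h3 : tv hB n₁ a₀ (b • n₀) = b • n₀ + (a₀ * (b * gg)) • n₁ := by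
      rw [tv_apply]
      simp only [map_smul, LinearMap.smul_apply, smul_eq_mul, hg, hgg]
    rw [h3] at h1
    have h4 : Γ ((a₀ * (b * gg)) • n₁) := by
      have := Γadd _ _ (Γneg _ hb) h1
      rwa [neg_add_cancel_left] at this
    have h5 := Γuinv _ h4
    have h6 : u⁻¹ n₁ = n₀ := by
      rw [← hun₀]; exact inv_apply_apply _ _
    rw [map_smul, h6] at h5
    have h7 : a₀ * (b * gg) = b * ρ := by
      rw [← ha₀g]; ring
    rwa [h7] at h5
  have hpow : ∀ k : ℕ, Γ ((a₀ * ρ ^ k) • n₀) := by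
    intro k
    induction k with
    | zero => simpa using hstart
    | succ k ih =>
      have := hstep _ ih
      rwa [mul_assoc, ← pow_succ] at this
  have hall₀ : ∀ b : F, Γ (b • n₀) := by
    intro b
    by_cases hb : b = 0
    · subst hb
      simpa using Γ0
    · obtain ⟨k, hk⟩ := hρ (b / a₀) (div_ne_zero hb ha₀0)
      have := hpow k
      rw [hk, mul_div_cancel₀ _ ha₀0] at this
      exact this
  have hall₁ : ∀ b : F, Γ (b • n₁) := by
    intro b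
    have := Γu _ (hall₀ b)
    rwa [map_smul, hun₀] at this
  -- O6
  have hzall : ∀ e, tv hB z₀ e ∈ H := by
    intro e
    obtain ⟨hp, g, hg', ζ, hy⟩ := hall₀ (e / (2 * a₂))
    obtain ⟨hq, g', hg'', ζ', hy'⟩ := hall₁ 1
    set p := (e / (2 * a₂)) • n₀ with hpdef
    set q := (1 : F) • n₁ with hqdef
    have h1 := hy.mul hB hp hq hy'
    have h3 := hy'.mul hB hq hp hy
    have h4 := h1.mul hB (by simp [hp, hq]) (by simp [hp, hq]) (h3.inv hB (by simp [hp, hq]))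
    have hqp : B q p = e / 2 := by
      rw [hpdef, hqdef]
      simp only [map_smul, LinearMap.smul_apply, smul_eq_mul, one_mul, hn₁n₀]
      field_simp
    have hpq : B p q = - (e / 2) := by rw [hanti q p, hqp]
    have h5 : B (-(q + p)) (p + q) = 0 := by
      rw [add_comm q p]
      simp [hB p, hB q, hpq, hqp]
    have h6 := h4.congr (p' := 0) (ζ' := e) (by abel) (by
      rw [h5, hqp, hpq]
      field_simp
      ring)
    rw [← h6.eq_tv hB]
    exact H.mul_mem (H.mul_mem hg' hg'') (H.inv_mem (H.mul_mem hg'' hg'))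
  -- O7
  have hn₀all : ∀ e, tv hB n₀ e ∈ H := by
    intro e
    obtain ⟨hp, g, hg', ζ, hy⟩ := hall₀ e
    have h1 := (isY_tv hB z₀ (-ζ)).mul (B := B) hB (by simp) hp hy
    have h3 : IsY B z₀ (tv hB z₀ (-ζ) * g) (e • n₀) 0 := h1.congr (by simp) (by simp)
    have hg₀ : tv hB z₀ (-ζ) * g ∈ H := H.mul_mem (hzall _) hg'
    set g₀ := tv hB z₀ (-ζ) * g with hg₀def
    have h4 : tv hB (z₀ + n₀) e = tv hB z₀ e * g₀ * tv hB n₀ e := by
      ext x
      simp only [LinearEquiv.mul_apply, h3 _]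
      simp only [tv_apply, map_add, map_smul, LinearMap.add_apply, LinearMap.smul_apply, hzz, hzn₀, hn₀z,
        hn₀₀, smul_eq_mul, mul_zero, add_zero, zero_add, zero_mul]
      module
    have h5 : tv hB n₀ e = (tv hB z₀ e * g₀)⁻¹ * tv hB (z₀ + n₀) e := by
      rw [h4]; group
    rw [h5]
    exact H.mul_mem (H.inv_mem (H.mul_mem (hzall _) hg₀)) (hplus _ (hzall _))
  -- O8
  have hS := Sset_closed hB H
  have hz₀0 : z₀ ≠ 0 := by
    rintro h
    apply hκ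
    rw [hκdef, h]
    simp
  have hn₀0 : n₀ ≠ 0 := by
    rintro h
    apply hgg0
    rw [← hg, h]
    simp
  have hz₀S : z₀ ∈ Sset hB H := ⟨hz₀0, hzall⟩
  have hn₀S : n₀ ∈ Sset hB H := ⟨hn₀0, hn₀all⟩
  have hn₁S : n₁ ∈ Sset hB H := by
    have := Sset_stable huH hu hn₀S
    rwa [hun₀] at this
  have hrn₁ : r n₁ = n₁ + (c' * (- a₂)) • a := by
    show tv hB a c' (tv hB x₁ (-c') n₁) = _
    have h1 : B n₁ x₁ = 0 := by
      simp only [hn₁, map_sub, LinearMap.sub_apply, hx₂x₁, hx₁₁, sub_self]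
    have h3 : B n₁ a = - a₂ := by
      simp only [hn₁, map_sub, LinearMap.sub_apply, hx₂a, hx₁a, sub_zero, hgg]
    simp only [tv_apply, h1, h3, mul_zero, zero_smul, add_zero]
  set d := c' * (- a₂) with hd
  have hd0 : d ≠ 0 := mul_ne_zero hc'0 (neg_ne_zero.2 ha₂)
  have hv : d⁻¹ • n₁ + a ∈ Sset hB H := by
    have h1 := Sset_stable hr hris hn₁S
    rw [hrn₁] at h1
    have h3 := hS.smul _ h1 d⁻¹ (inv_ne_zero hd0)
    rwa [smul_add, smul_smul, inv_mul_cancel₀ hd0, one_smul] at h3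
  set v' := d⁻¹ • n₁ + a with hv'
  -- the cyclic vector
  let Ne : Module.End F V := ((u : V →ₗ[F] V) : Module.End F V) - 1
  let Ue : Module.End F V := ((u : V →ₗ[F] V) : Module.End F V)
  have hcomm : Commute Ne Ue := by
    show (Ue - 1) * Ue = Ue * (Ue - 1)
    noncomm_ring
  have hnil' : IsNilpotent (d⁻¹ • (Ne * Ue)) :=
    (hcomm.isNilpotent_mul_right hnil).smul _
  let ξ : Module.End F V := 1 + d⁻¹ • (Ne * Ue)
  have hξunit : IsUnit ξ := hnil'.isUnit_one_add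
  have hξsurj : Function.Surjective ξ := ((Module.End.isUnit_iff _).1 hξunit).2
  have hξa : ξ a = v' := by
    show a + d⁻¹ • (u (u a) - u a) = _
    rw [hv', add_comm]
  have hξc : ∀ x, ξ (u x) = u (ξ x) := by
    intro x
    show u x + d⁻¹ • (u (u (u x)) - u (u x)) = u (x + d⁻¹ • (u (u x) - u x))
    simp only [map_add, map_smul, map_sub]
  have hspan' : Submodule.span F (Set.range fun i : ℕ => (u ^ i) v') = ⊤ := by
    have := span_image hspan ξ hξsurj hξc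
    rwa [hξa] at this
  have hx'S : ∀ i : ℕ, (u ^ i) v' ∈ Sset hB H := fun i =>
    Sset_stable (H.pow_mem huH i) (pow_mem_isom hu i) hv
  have hzv : B z₀ v' = κ := by
    simp only [hv', map_add, map_smul, hzn₁, smul_zero, zero_add, hκdef]
  have hzx' : ∀ i : ℕ, B z₀ ((u ^ i) v') ≠ 0 := by
    intro i
    have h1 := pow_mem_isom hu i z₀ v'
    rw [pow_fix huz₀] at h1
    rw [h1, hzv]
    exact hκ
  have hvz : B v' z₀ ≠ 0 := by
    rw [hanti z₀ v', hzv]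
    exact neg_ne_zero.2 hκ
  have hspanS : Submodule.span F (Sset hB H) = ⊤ := by
    rw [eq_top_iff, ← hspan']
    apply Submodule.span_mono
    rintro _ ⟨i, rfl⟩
    exact hx'S i
  have hzW₀ : z₀ ∈ Submodule.span F {z₀, v'} := Submodule.subset_span (by simp)
  have h2z : z₀ + z₀ ≠ 0 := by
    rw [← two_smul F z₀]
    exact smul_ne_zero h2 hz₀0
  apply eq_of_all hB hN hle
  exact all_mem hB hN hS hspanS (good_plane hB hS hz₀S hv hvz) hzW₀ hzW₀ hz₀0 hz₀0 h2z hzz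
    (fun W hW hgood htop => conn_star hx'S hzx' hspan' (hW hzW₀) htop)

end Cfsg.Agent.Lib.RegUnip.SpOdd
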