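/-
Transport of a generation statement from an abstract symplectic space to `Matrix.symplecticGroup`.
-/
import Mathlib
import Cfsg.Agent.Lib.RegUnip.SpCalc
import Cfsg.Agent.Lib.Classical.SympForm
import Cfsg.Agent.Lib.Witt.SympModel

set_option autoImplicit false
set_option linter.unusedSectionVars false
set_option linter.unusedVariables false

namespace Cfsg.Agent.Lib.RegUnip.SpTransport

open Cfsg Matrix
open Cfsg.Agent.Lib.Classical.Alt
open Cfsg.Agent.Lib.Classical.SympForm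
open Cfsg.Agent.Lib.RegUnip.SpCalc

variable {F V : Type*} [Field F] [AddCommGroup V] [Module F V]
variable {B : LinearMap.BilinForm F V}

/-- Conjugation by a linear equivalence. -/
def conjEquiv {W : Type*} [AddCommGroup W] [Module F W] (ψ : W ≃ₗ[F] V) : (V ≃ₗ[F] V) ≃* (W ≃ₗ[F] W) where
  toFun g := ψ.trans (g.trans ψ.symm)
  invFun g := ψ.symm.trans (g.trans ψ)
  left_inv g := by
    ext x
    simp
  right_inv g := by
    ext x
    simp
  map_mul' a b := by
    ext x
    simp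

@[simp] theorem conjEquiv_apply {W : Type*} [AddCommGroup W] [Module F W] (ψ : W ≃ₗ[F] V)
    (g : V ≃ₗ[F] V) (x : W) : conjEquiv ψ g x = ψ.symm (g (ψ x)) := rfl

theorem conjEquiv_symm_apply {W : Type*} [AddCommGroup W] [Module F W] (ψ : W ≃ₗ[F] V)
    (g : W ≃ₗ[F] W) (x : V) : (conjEquiv ψ).symm g x = ψ (g (ψ.symm x)) := rfl

theorem transport [FiniteDimensional F V] (hB : B.IsAlt) (hN : B.Nondegenerate) (n : ℕ)
    (hr : Module.finrank F V = 2 * n) {u g₁ g₂ : V ≃ₗ[F] V} (hu : u ∈ isomGroup B)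
    (hg₁ : g₁ ∈ isomGroup B) (hg₂ : g₂ ∈ isomGroup B) (hgen : gen3 u g₁ g₂ = isomGroup B)
    (hnil : IsNilpotent (((u : V →ₗ[F] V) : Module.End F V) - 1))
    (hnz : (((u : V →ₗ[F] V) : Module.End F V) - 1) ^ (2 * n - 1) ≠ 0) :
    ∃ u g h : Matrix.symplecticGroup (Fin n) F,
      IsNilpotent ((u : Matrix (Fin n ⊕ Fin n) (Fin n ⊕ Fin n) F) - 1) ∧
      ((u : Matrix (Fin n ⊕ Fin n) (Fin n ⊕ Fin n) F) - 1) ^ (2 * n - 1) ≠ 0 ∧
      Subgroup.closure ({u, g * u * g⁻¹, h * u * h⁻¹} : Set (Matrix.symplecticGroup (Fin n) F)) = ⊤ := by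
  classical
  obtain ⟨ψ, hψ⟩ := Cfsg.Agent.Lib.Witt.SympModel.exists_model B hB hN n hr
  have hψ' : ∀ x y, B (ψ x) (ψ y) = sympBilin n F x y := hψ
  -- the comparison of isometries
  have hc : ∀ g ∈ isomGroup B, conjEquiv ψ g ∈ isomGroup (sympBilin n F) := by
    intro g hg x y
    rw [conjEquiv_apply, conjEquiv_apply, ← hψ', LinearEquiv.apply_symm_apply,
      LinearEquiv.apply_symm_apply, hg, hψ']
  let Φ : Matrix.symplecticGroup (Fin n) F →* (V ≃ₗ[F] V) :=
    (conjEquiv ψ).symm.toMonoidHom.comp spHom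
  have hΦinj : Function.Injective Φ := by
    intro a b hab
    apply spHom_injective
    exact (conjEquiv ψ).symm.injective hab
  have hΦr : ∀ g ∈ isomGroup B, ∃ A, Φ A = g := by
    intro g hg
    have : conjEquiv ψ g ∈ (spHom (m := n) (F := F)).range := by
      rw [spHom_range]
      exact hc g hg
    obtain ⟨A, hA⟩ := this
    refine ⟨A, ?_⟩
    show (conjEquiv ψ).symm (spHom A) = g
    rw [hA]
    simp
  have hΦrange : Φ.range = isomGroup B := by
    apply le_antisymm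
    · rintro _ ⟨A, rfl⟩
      intro x y
      have h1 : ∀ x, Φ A x = ψ (A.1 *ᵥ (ψ.symm x)) := fun x => rfl
      rw [h1, h1, hψ']
      have := (spEquiv A).2 (ψ.symm x) (ψ.symm y)
      have h2 := hψ' (ψ.symm x) (ψ.symm y)
      rw [LinearEquiv.apply_symm_apply, LinearEquiv.apply_symm_apply] at h2
      rw [h2]
      exact this
    · intro g hg
      obtain ⟨A, hA⟩ := hΦr g hg
      exact ⟨A, hA⟩
  obtain ⟨u', hu'⟩ := hΦr u hu
  obtain ⟨g', hg'⟩ := hΦr g₁ hg₁
  obtain ⟨h', hh'⟩ := hΦr g₂ hg₂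
  have hact : ∀ x, (u' : Matrix (Fin n ⊕ Fin n) (Fin n ⊕ Fin n) F) *ᵥ x = ψ.symm (u (ψ x)) := by
    intro x
    rw [← hu']
    show _ = ψ.symm (ψ (u'.1 *ᵥ (ψ.symm (ψ x))))
    simp
  have hpow : ∀ (k : ℕ) (x : Fin n ⊕ Fin n → F),
      (((u' : Matrix (Fin n ⊕ Fin n) (Fin n ⊕ Fin n) F) - 1) ^ k) *ᵥ x =
        ψ.symm ((((((u : V →ₗ[F] V) : Module.End F V) - 1) ^ k)) (ψ x)) := by
    intro k
    induction k with
    | zero =>
      intro x
      simp
    | succ k ih =>
      intro x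
      rw [pow_succ', ← Matrix.mulVec_mulVec, ih, pow_succ', Module.End.mul_apply, Matrix.sub_mulVec,
        Matrix.one_mulVec, hact]
      simp
  refine ⟨u', g', h', ?_, ?_, ?_⟩
  · obtain ⟨m, hm⟩ := hnil
    refine ⟨m, Matrix.ext_iff_mulVec.2 fun x => ?_⟩
    rw [hpow, hm]
    simp
  · intro h0
    apply hnz
    refine LinearMap.ext fun y => ?_
    have := hpow (2 * n - 1) (ψ.symm y)
    rw [h0, LinearEquiv.apply_symm_apply] at this
    have h3 := congrArg ψ this
    simpa using h3.symm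
  · apply Subgroup.map_injective hΦinj
    rw [MonoidHom.map_closure, ← MonoidHom.range_eq_map, hΦrange, ← hgen]
    unfold gen3
    congr 1
    simp only [Set.image_insert_eq, Set.image_singleton, map_mul, map_inv, hu', hg', hh']

end Cfsg.Agent.Lib.RegUnip.SpTransport
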