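/-
Instantiating the designs for `Sp_{2n}` on the model: odd characteristic and even characteristic with
`|F| ≥ 4`.
-/
import Mathlib
import Cfsg.Agent.Lib.RegUnip.SpModel
import Cfsg.Agent.Lib.RegUnip.SpTransport
import Cfsg.Agent.Lib.RegUnip.SpOdd
import Cfsg.Agent.Lib.RegUnip.SpEven

set_option autoImplicit false
set_option linter.unusedSectionVars false
set_option linter.unusedVariables false

namespace Cfsg.Agent.Lib.RegUnip.SpInst

open Cfsg Matrix
open Cfsg.Agent.Lib.Classical.Alt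
open Cfsg.Agent.Lib.RegUnip.SpCalc
open Cfsg.Agent.Lib.RegUnip.SpModel
open Cfsg.Agent.Lib.RegUnip.SpTransport

variable {F : Type*} [Field F]

/-- The conclusion of the main statement. -/
def Concl (F : Type*) [Field F] (n : ℕ) : Prop :=
  ∃ u g h : Matrix.symplecticGroup (Fin n) F,
      IsNilpotent ((u : Matrix (Fin n ⊕ Fin n) (Fin n ⊕ Fin n) F) - 1) ∧
      ((u : Matrix (Fin n ⊕ Fin n) (Fin n ⊕ Fin n) F) - 1) ^ (2 * n - 1) ≠ 0 ∧
      Subgroup.closure ({u, g * u * g⁻¹, h * u * h⁻¹} : Set (Matrix.symplecticGroup (Fin n) F)) = ⊤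

section model
variable (n : ℕ) (c : ℕ → F)

/-- The model space. -/
abbrev MV (F : Type*) [Field F] (n : ℕ) : Type _ := TrA F n × TrA F n

/-- The form of the model. -/
noncomputable abbrev mB : LinearMap.BilinForm F (MV F n) := form (trL F n c)

/-- The unipotent element of the model. -/
noncomputable abbrev mU (F : Type*) [Field F] (n : ℕ) : MV F n ≃ₗ[F] MV F n := uEl (trW F n)

theorem mB_nondeg (hn : 1 ≤ n) (hc0 : ∀ j, n ≤ j → c j = 0) (hc : c (n - 1) ≠ 0) :
    (mB n c).Nondegenerate :=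
  form_nondeg hn (trW_pow F n) (trW_dec F n) (by rwa [trL_pow F n c hc0])

theorem mU_mem : mU F n ∈ isomGroup (mB n c) := uEl_mem _ _

theorem mU_nil : IsNilpotent (((mU F n : MV F n →ₗ[F] MV F n) : Module.End F (MV F n)) - 1) :=
  isNilpotent_nPart (trW_pow F n)

theorem mU_span : Submodule.span F (Set.range fun i : ℕ => ((mU F n) ^ i) (aV (TrA F n))) = ⊤ :=
  span_cyclic (trW_pow F n) (trW_dec F n)

theorem trW_top_ne (hn : 1 ≤ n) (hc0 : ∀ j, n ≤ j → c j = 0) (hc : c (n - 1) ≠ 0) :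
    trW F n ^ (n - 1) ≠ 0 := by
  intro h
  apply hc
  rw [← trL_pow F n c hc0, h, map_zero]

theorem mU_nz (hn : 1 ≤ n) (hc0 : ∀ j, n ≤ j → c j = 0) (hc : c (n - 1) ≠ 0) :
    (((mU F n : MV F n →ₗ[F] MV F n) : Module.End F (MV F n)) - 1) ^ (2 * n - 1) ≠ 0 := by
  intro h
  have h1 := nPart_pow_odd (F := F) hn (trW_pow F n)
  have h2 : ((nPart (F := F) (trW F n)) ^ (2 * n - 1)) (aV (TrA F n)) = 0 := by
    show ((((mU F n : MV F n →ₗ[F] MV F n) : Module.End F (MV F n)) - 1) ^ (2 * n - 1)) _ = 0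
    rw [h]
    rfl
  rw [h1] at h2
  exact trW_top_ne n c hn hc0 hc (congrArg Prod.fst h2)

/-- Finish: a design on the model gives the conclusion. -/
theorem finish [Fintype F] (hn : 1 ≤ n) (hc0 : ∀ j, n ≤ j → c j = 0) (hc : c (n - 1) ≠ 0)
    (hgen : ∃ g₁ ∈ isomGroup (mB n c), ∃ g₂ ∈ isomGroup (mB n c),
      gen3 (mU F n) g₁ g₂ = isomGroup (mB n c)) : Concl F n := by
  obtain ⟨g₁, hg₁, g₂, hg₂, h⟩ := hgen
  have hr : Module.finrank F (MV F n) = 2 * n := by
    rw [Module.finrank_prod, trA_finrank]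
    ring
  exact transport (form_isAlt _) (mB_nondeg n c hn hc0 hc) n hr (mU_mem n c) hg₁ hg₂ h (mU_nil n)
    (mU_nz n c hn hc0 hc)

theorem trL_one (hc0 : ∀ j, n ≤ j → c j = 0) : trL F n c 1 = c 0 := by
  have := trL_pow F n c hc0 0
  simpa using this

theorem trL_w (hc0 : ∀ j, n ≤ j → c j = 0) : trL F n c (trW F n) = c 1 := by
  have := trL_pow F n c hc0 1
  simpa using this

/-- General formula for `B(a, x)`. -/
theorem mB_a (x : MV F n) : mB n c (aV (TrA F n)) x = - trL F n c x.1 := by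
  simp [aV]

/-- The first iterates. -/
theorem mU_a : mU F n (aV (TrA F n)) = (1, 1) := by
  ext <;> simp [aV]

theorem mU_a2 : mU F n (mU F n (aV (TrA F n))) = (2 + trW F n, 1 + trW F n) := by
  rw [mU_a]
  ext <;> simp <;> ring

theorem mU_a3 : mU F n (mU F n (mU F n (aV (TrA F n)))) =
    (3 + 4 * trW F n + trW F n ^ 2, 1 + 3 * trW F n + trW F n ^ 2) := by
  rw [mU_a2]
  ext <;> simp <;> ring

end model

/-- Odd characteristic. -/
theorem top_odd [Fintype F] (n : ℕ) (hn : 2 ≤ n) (h2 : (2 : F) ≠ 0) : Concl F n := by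
  let c : ℕ → F := fun j => if j = 1 ∨ j = n - 1 then 1 else 0
  have hc0 : ∀ j, n ≤ j → c j = 0 := by
    intro j hj
    have : ¬ (j = 1 ∨ j = n - 1) := by omega
    exact if_neg this
  have hc : c (n - 1) ≠ 0 := by simp [c]
  have hc00 : c 0 = 0 := by
    have : ¬ ((0 : ℕ) = 1 ∨ (0 : ℕ) = n - 1) := by omega
    exact if_neg this
  have hc1 : c 1 = 1 := by simp [c]
  have hn1 : 1 ≤ n := by omega
  refine finish n c hn1 hc0 hc ?_
  have hw2 : trW F n ^ (n - 1) * trW F n ^ (n - 1) = 0 := by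
    rw [← pow_add]
    have : n - 1 + (n - 1) = n + (n - 2) := by omega
    rw [this, pow_add, trW_pow, zero_mul]
  have hww : trW F n * trW F n ^ (n - 1) = 0 := by
    rw [← pow_succ', show n - 1 + 1 = n by omega, trW_pow]
  refine SpOdd.design_odd (form_isAlt _) (mB_nondeg n c hn1 hc0 hc) h2 (mU_mem n c) (mU_nil n)
    (aV (TrA F n)) (trW F n ^ (n - 1), 0) (0, trW F n ^ (n - 1)) ?_ ?_ ?_ ?_ ?_ ?_ (mU_span n)
  · ext
    · simp only [uEl_apply]
      simp [add_mul, hww]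
    · simp [hww]
  · ext
    · simp [uEl_apply]
    · simp [uEl_apply]
  · simp [hw2]
  · simp only [form_apply, aV]
    simp only [mul_one, zero_mul, sub_zero]
    rw [trL_pow F n c hc0]
    exact hc
  · rw [mB_a, mU_a]
    simp only
    rw [trL_one n c hc0, hc00, neg_zero]
  · rw [mB_a, mU_a2]
    simp only
    rw [map_add, trL_w n c hc0, hc1]
    have : (2 : TrA F n) = (2 : F) • (1 : TrA F n) := by
      rw [two_smul, one_add_one_eq_two]
    rw [this, map_smul, trL_one n c hc0, hc00]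
    simp

/-- A generator different from `1`. -/
theorem gen_ne [Fintype F] (hq : Fintype.card F ≠ 2) :
    ∃ h : F, h ≠ 0 ∧ h ≠ 1 ∧ ∀ x : F, x ≠ 0 → ∃ k : ℕ, h ^ k = x := by
  classical
  obtain ⟨ρ, h0, hρ⟩ := exists_gen F
  refine ⟨ρ, h0, ?_, hρ⟩
  rintro rfl
  apply hq
  have : (Finset.univ : Finset F) = {0, 1} := by
    ext x
    simp only [Finset.mem_univ, Finset.mem_insert, Finset.mem_singleton, true_iff]
    by_cases hx : x = 0
    · exact Or.inl hx
    · obtain ⟨k, hk⟩ := hρ x hx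
      right
      rw [← hk, one_pow]
  rw [← Finset.card_univ, this, Finset.card_pair zero_ne_one]

theorem trL_num (n : ℕ) (c : ℕ → F) (m : ℕ) (x : TrA F n) :
    trL F n c ((m : TrA F n) * x) = (m : F) * trL F n c x := by
  rw [← nsmul_eq_mul, map_nsmul, nsmul_eq_mul]

theorem two_zero (n : ℕ) (h2 : (2 : F) = 0) : (2 : TrA F n) = 0 := by
  have : (2 : TrA F n) = (2 : F) • (1 : TrA F n) := by
    rw [two_smul, one_add_one_eq_two]
  rw [this, h2, zero_smul]

/-- Characteristic two, `|F| ≥ 4`, `n ≥ 3`. -/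
theorem top_even_A [Fintype F] (n : ℕ) (hn : 3 ≤ n) (h2 : (2 : F) = 0) (hq : Fintype.card F ≠ 2) :
    Concl F n := by
  classical
  obtain ⟨h, h0, h1, hgen⟩ := gen_ne (F := F) hq
  let c : ℕ → F := fun j => if j = 1 then 1 else if j = 2 then h else if j = n - 1 then 1 else 0
  have hc0 : ∀ j, n ≤ j → c j = 0 := by
    intro j hj
    have h1 : j ≠ 1 := by omega
    have h3 : j ≠ 2 := by omega
    have h4 : j ≠ n - 1 := by omega
    simp [c, h1, h3, h4]
  have hc : c (n - 1) ≠ 0 := by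
    have h1 : n - 1 ≠ 1 := by omega
    by_cases h3 : n - 1 = 2
    · simp [c, h3, h0]
    · simp [c, h1, h3]
  have hc00 : c 0 = 0 := by
    have h4 : 0 ≠ n - 1 := by omega
    simp [c, h4]
  have hc1 : c 1 = 1 := by simp [c]
  have hc2 : c 2 = h := by simp [c]
  have hn1 : 1 ≤ n := by omega
  refine finish n c hn1 hc0 hc ?_
  refine SpEven.design_even_A (form_isAlt _) (mB_nondeg n c hn1 hc0 hc) h2 (mU_mem n c) (mU_nil n)
    (aV (TrA F n)) h0 h1 hgen ?_ ?_ ?_ (mU_span n)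
  · rw [mB_a, mU_a]
    simp only
    rw [trL_one n c hc0, hc00, neg_zero]
  · rw [mB_a, mU_a2]
    simp only
    rw [two_zero n h2, zero_add, trL_w n c hc0, hc1, SpEven.neg_eq_self h2]
  · rw [mB_a, mU_a3]
    simp only
    have e : (3 : TrA F n) + 4 * trW F n + trW F n ^ 2 = 1 + 2 * (1 + 2 * trW F n) + trW F n ^ 2 := by ring
    rw [e, two_zero n h2, zero_mul, add_zero, map_add, trL_one n c hc0, hc00, zero_add, trL_pow F n c hc0,
      hc2, SpEven.neg_eq_self h2]

/-- Characteristic two, `|F| ≥ 4`, `n = 2`. -/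
theorem top_even_B [Fintype F] (h2 : (2 : F) = 0) (hq : Fintype.card F ≠ 2) : Concl F 2 := by
  classical
  obtain ⟨h, h0, h1, hgen⟩ := gen_ne (F := F) hq
  let c : ℕ → F := fun j => if j = 1 then 1 else 0
  have hc0 : ∀ j, 2 ≤ j → c j = 0 := by
    intro j hj
    have h1 : j ≠ 1 := by omega
    simp [c, h1]
  have hc : c (2 - 1) ≠ 0 := by simp [c]
  have hc00 : c 0 = 0 := by simp [c]
  have hc1 : c 1 = 1 := by simp [c]
  have hc2 : c 2 = 0 := by simp [c]
  have hn1 : 1 ≤ 2 := by omega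
  refine finish 2 c hn1 hc0 hc ?_
  refine SpEven.design_even_B (form_isAlt _) (mB_nondeg 2 c hn1 hc0 hc) h2 (mU_mem 2 c) (mU_nil 2)
    (aV (TrA F 2)) h0 h1 hgen ?_ ?_ ?_ ?_ (mU_span 2)
  · rw [mB_a, mU_a]
    simp only
    rw [trL_one 2 c hc0, hc00, neg_zero]
  · rw [mB_a, mU_a2]
    simp only
    rw [two_zero 2 h2, zero_add, trL_w 2 c hc0, hc1, SpEven.neg_eq_self h2]
  · rw [mB_a, mU_a3]
    simp only
    have e : (3 : TrA F 2) + 4 * trW F 2 + trW F 2 ^ 2 = 1 + 2 * (1 + 2 * trW F 2) + trW F 2 ^ 2 := by ring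
    rw [e, two_zero 2 h2, zero_mul, add_zero, map_add, trL_one 2 c hc0, hc00, zero_add, trL_pow F 2 c hc0,
      hc2, neg_zero]
  · rw [mU_a3]
    have hw : trW F 2 ^ 2 = 0 := trW_pow F 2
    have h20 := two_zero 2 h2
    rw [hw]
    ext
    · simp only [uEl_apply, aV]
      have e : (1 + trW F 2) * (3 + 4 * trW F 2 + 0) + (1 + 3 * trW F 2 + 0) =
          2 * (2 + 5 * trW F 2 + 2 * trW F 2 ^ 2) := by ring
      rw [e, h20, zero_mul]
    · simp only [uEl_apply, aV]
      have e : trW F 2 * (3 + 4 * trW F 2 + 0) + (1 + 3 * trW F 2 + 0) =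
          1 + 2 * (3 * trW F 2 + 2 * trW F 2 ^ 2) := by ring
      rw [e, h20, zero_mul, add_zero]

end Cfsg.Agent.Lib.RegUnip.SpInst
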