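/-
The design for `Sp_{2n}(2)`, `n ≥ 3`, on the model.
-/
import Mathlib
import Cfsg.Agent.Lib.RegUnip.SpF2
import Cfsg.Agent.Lib.RegUnip.SpInst

set_option autoImplicit false
set_option linter.unusedSectionVars false
set_option linter.unusedVariables false
set_option linter.unusedSimpArgs false

namespace Cfsg.Agent.Lib.RegUnip.SpF2Inst

open Cfsg.Agent.Lib.Classical.Alt
open Cfsg.Agent.Lib.RegUnip.SpFinal
open Cfsg.Agent.Lib.RegUnip.SpCalc
open Cfsg.Agent.Lib.RegUnip.SpEven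
open Cfsg.Agent.Lib.RegUnip.SpF2
open Cfsg.Agent.Lib.RegUnip.SpModel
open Cfsg.Agent.Lib.RegUnip.SpInst

section abstract
variable {F V : Type*} [Field F] [AddCommGroup V] [Module F V] [FiniteDimensional F V]
variable {B : LinearMap.BilinForm F V}

/-- The Gram matrix of an orbit. -/
theorem gram (hB : B.IsAlt) (h2 : (2 : F) = 0) {u : V ≃ₗ[F] V} (hu : u ∈ isomGroup B) (a : V) (i j : ℕ) :
    B ((u ^ i) a) ((u ^ j) a) = B a ((u ^ (Nat.dist i j)) a) := by
  have key : ∀ i k : ℕ, B ((u ^ i) a) ((u ^ (i + k)) a) = B a ((u ^ k) a) := by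
    intro i k
    have h3 : (u ^ (i + k)) a = (u ^ i) ((u ^ k) a) := by
      rw [pow_add]
      rfl
    rw [h3, pow_mem_isom hu i a _]
  rcases le_total i j with h | h
  · obtain ⟨k, rfl⟩ := Nat.exists_eq_add_of_le h
    rw [key]
    congr 3
    rw [Nat.dist_eq_sub_of_le h]
    omega
  · obtain ⟨k, rfl⟩ := Nat.exists_eq_add_of_le h
    rw [alt_neg hB, neg_eq_self h2, key]
    congr 3
    rw [Nat.dist_eq_sub_of_le_right h]
    omega

/-- The path pattern. -/
def sIdx (t i : ℕ) : ℕ := if i ≤ 2 then i else i + t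

theorem design_path (hF : ∀ c : F, c = 0 ∨ c = 1) (hB : B.IsAlt) (hN : B.Nondegenerate) (h2 : (2 : F) = 0)
    {u : V ≃ₗ[F] V} (hu : u ∈ isomGroup B) (a : V) (t : ℕ) (tab : ℕ → Bool)
    (hA : ∀ k, k ≤ 5 + t → B a ((u ^ k) a) = io F (tab k))
    (hdec : ∀ i j, i < 6 → j < 6 → Nat.dist (sIdx t i) (sIdx t j) ≤ 5 + t ∧
      tab (Nat.dist (sIdx t i) (sIdx t j)) = adj i j)
    (hchain : B a (u a) ≠ 0)
    (hspan : Submodule.span F (Set.range fun i : ℕ => (u ^ i) a) = ⊤) :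
    ∃ g₁ ∈ isomGroup B, ∃ g₂ ∈ isomGroup B, gen3 u g₁ g₂ = isomGroup B := by
  refine design_f2 hF hB hN h2 hu a (p := fun i => (u ^ (sIdx t i)) a) ?_ ?_ (a + (u ^ (3 + t)) a) ?_ ?_
    hchain hspan
  · intro i j hi hj
    show B ((u ^ (sIdx t i)) a) ((u ^ (sIdx t j)) a) = _
    obtain ⟨h3, h4⟩ := hdec i j hi hj
    rw [gram hB h2 hu, hA _ h3, h4]
  · intro H hx i hi
    exact hx _
  · simp [sIdx]
  · have e1 : u ((u ^ (3 + t)) a) = (u ^ (4 + t)) a := by
      rw [show 4 + t = (3 + t) + 1 by omega, pow_succ']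
      rfl
    simp [sIdx, e1]

/-- The pattern in which all vectors of the orbit are pairwise non-orthogonal. -/
theorem design_four (hF : ∀ c : F, c = 0 ∨ c = 1) (hB : B.IsAlt) (hN : B.Nondegenerate) (h2 : (2 : F) = 0)
    {u : V ≃ₗ[F] V} (hu : u ∈ isomGroup B) (a : V)
    (hA : ∀ k, 1 ≤ k → k ≤ 5 → B a ((u ^ k) a) = 1)
    (hspan : Submodule.span F (Set.range fun i : ℕ => (u ^ i) a) = ⊤) :
    ∃ g₁ ∈ isomGroup B, ∃ g₂ ∈ isomGroup B, gen3 u g₁ g₂ = isomGroup B := by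
  have hg : ∀ i j, i ≤ 5 → j ≤ 5 → i ≠ j → B ((u ^ i) a) ((u ^ j) a) = 1 := by
    intro i j hi hj hij
    rw [gram hB h2 hu]
    apply hA
    · refine Nat.one_le_iff_ne_zero.2 ?_
      intro h
      exact hij (Nat.eq_of_dist_eq_zero h)
    · rcases le_total i j with h | h
      · rw [Nat.dist_eq_sub_of_le h]; omega
      · rw [Nat.dist_eq_sub_of_le_right h]; omega
  have hg0 : ∀ i, B ((u ^ i) a) ((u ^ i) a) = 0 := fun i => hB _
  set y : ℕ → V := fun i => (u ^ i) a with hy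
  have h11 : (1 : F) + 1 = 0 := by rw [one_add_one_eq_two, h2]
  have b01 : B (y 0) (y 1) = 1 := hg 0 1 (by norm_num) (by norm_num) (by norm_num)
  have b02 : B (y 0) (y 2) = 1 := hg 0 2 (by norm_num) (by norm_num) (by norm_num)
  have b03 : B (y 0) (y 3) = 1 := hg 0 3 (by norm_num) (by norm_num) (by norm_num)
  have b04 : B (y 0) (y 4) = 1 := hg 0 4 (by norm_num) (by norm_num) (by norm_num)
  have b05 : B (y 0) (y 5) = 1 := hg 0 5 (by norm_num) (by norm_num) (by norm_num)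
  have b10 : B (y 1) (y 0) = 1 := hg 1 0 (by norm_num) (by norm_num) (by norm_num)
  have b12 : B (y 1) (y 2) = 1 := hg 1 2 (by norm_num) (by norm_num) (by norm_num)
  have b13 : B (y 1) (y 3) = 1 := hg 1 3 (by norm_num) (by norm_num) (by norm_num)
  have b14 : B (y 1) (y 4) = 1 := hg 1 4 (by norm_num) (by norm_num) (by norm_num)
  have b15 : B (y 1) (y 5) = 1 := hg 1 5 (by norm_num) (by norm_num) (by norm_num)
  have b20 : B (y 2) (y 0) = 1 := hg 2 0 (by norm_num) (by norm_num) (by norm_num)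
  have b21 : B (y 2) (y 1) = 1 := hg 2 1 (by norm_num) (by norm_num) (by norm_num)
  have b23 : B (y 2) (y 3) = 1 := hg 2 3 (by norm_num) (by norm_num) (by norm_num)
  have b24 : B (y 2) (y 4) = 1 := hg 2 4 (by norm_num) (by norm_num) (by norm_num)
  have b25 : B (y 2) (y 5) = 1 := hg 2 5 (by norm_num) (by norm_num) (by norm_num)
  have b30 : B (y 3) (y 0) = 1 := hg 3 0 (by norm_num) (by norm_num) (by norm_num)
  have b31 : B (y 3) (y 1) = 1 := hg 3 1 (by norm_num) (by norm_num) (by norm_num)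
  have b32 : B (y 3) (y 2) = 1 := hg 3 2 (by norm_num) (by norm_num) (by norm_num)
  have b34 : B (y 3) (y 4) = 1 := hg 3 4 (by norm_num) (by norm_num) (by norm_num)
  have b35 : B (y 3) (y 5) = 1 := hg 3 5 (by norm_num) (by norm_num) (by norm_num)
  have b40 : B (y 4) (y 0) = 1 := hg 4 0 (by norm_num) (by norm_num) (by norm_num)
  have b41 : B (y 4) (y 1) = 1 := hg 4 1 (by norm_num) (by norm_num) (by norm_num)
  have b42 : B (y 4) (y 2) = 1 := hg 4 2 (by norm_num) (by norm_num) (by norm_num)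
  have b43 : B (y 4) (y 3) = 1 := hg 4 3 (by norm_num) (by norm_num) (by norm_num)
  have b45 : B (y 4) (y 5) = 1 := hg 4 5 (by norm_num) (by norm_num) (by norm_num)
  have b50 : B (y 5) (y 0) = 1 := hg 5 0 (by norm_num) (by norm_num) (by norm_num)
  have b51 : B (y 5) (y 1) = 1 := hg 5 1 (by norm_num) (by norm_num) (by norm_num)
  have b52 : B (y 5) (y 2) = 1 := hg 5 2 (by norm_num) (by norm_num) (by norm_num)
  have b53 : B (y 5) (y 3) = 1 := hg 5 3 (by norm_num) (by norm_num) (by norm_num)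
  have b54 : B (y 5) (y 4) = 1 := hg 5 4 (by norm_num) (by norm_num) (by norm_num)
  have b00 : B (y 0) (y 0) = 0 := hg0 0
  have b11 : B (y 1) (y 1) = 0 := hg0 1
  have b22 : B (y 2) (y 2) = 0 := hg0 2
  have b33 : B (y 3) (y 3) = 0 := hg0 3
  have b44 : B (y 4) (y 4) = 0 := hg0 4
  have b55 : B (y 5) (y 5) = 0 := hg0 5
  let p : ℕ → V := fun i => match i with
    | 0 => y 0
    | 1 => y 2
    | 2 => y 2 + y 3
    | 3 => y 1 + y 3
    | 4 => y 1 + y 4
    | _ => y 4 + y 5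
  have huy : ∀ k, u (y k) = y (k + 1) := by
    intro k
    show u ((u ^ k) a) = (u ^ (k + 1)) a
    rw [pow_succ']
    rfl
  have hmv : ∀ (H : Subgroup (V ≃ₗ[F] V)), (∀ i : ℕ, Rel hB H (y i) a) → ∀ j i, j ≤ 5 → i ≤ 5 → j ≠ i →
      Rel hB H (y j + y i) a := by
    intro H hx j i hj hi hji
    have h3 : Rel hB H (y i) (y j) := Rel.trans h2 (hx i) (Rel.symm h2 (hx j))
    have h4 := Rel.move h2 h3
    have h5 : tv hB (y i) 1 (y j) = y j + y i := by
      rw [tv_apply, one_mul, hg j i hj hi hji, one_smul]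
    rw [h5] at h4
    exact Rel.trans h2 h4 (hx j)
  refine design_f2 hF hB hN h2 hu a (p := p) ?_ ?_ (y 0 + (y 1 + y 3)) ?_ ?_ ?_ hspan
  · intro i j hi hj
    interval_cases i <;> interval_cases j <;>
      simp only [p, map_add, LinearMap.add_apply, b01, b02, b03, b04, b05, b10, b12, b13, b14, b15,
        b20, b21, b23, b24, b25, b30, b31, b32, b34, b35, b40, b41, b42, b43, b45, b50, b51, b52, b53, b54,
        b00, b11, b22, b33, b44, b55, zero_add, add_zero, h11] <;> simp [adj, io, h11]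
  · intro H hx i hi
    have hx' : ∀ i : ℕ, Rel hB H (y i) a := hx
    interval_cases i
    · exact hx' 0
    · exact hx' 2
    · exact hmv H hx' 2 3 (by norm_num) (by norm_num) (by norm_num)
    · exact hmv H hx' 1 3 (by norm_num) (by norm_num) (by norm_num)
    · exact hmv H hx' 1 4 (by norm_num) (by norm_num) (by norm_num)
    · exact hmv H hx' 4 5 (by norm_num) (by norm_num) (by norm_num)
  · rfl
  · simp only [map_add, huy, p]
    abel
  · have := b01
    simp only [y, pow_zero, pow_one] at this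
    rw [show (1 : V ≃ₗ[F] V) a = a from rfl] at this
    rw [this]
    exact one_ne_zero

end abstract

section model
variable {F : Type*} [Field F]

/-- The orbit of the cyclic vector. -/
noncomputable abbrev yy (n k : ℕ) : MV F n := ((mU F n) ^ k) (aV (TrA F n))

theorem yy_succ (n k : ℕ) : (yy n (k + 1) : MV F n) = mU F n (yy n k) := by
  show ((mU F n) ^ (k + 1)) _ = _
  rw [pow_succ']
  rfl

theorem yy_rec (h2 : (2 : F) = 0) (n k : ℕ) :
    (yy n (k + 2) : MV F n).1 = trW F n * (yy n (k + 1) : MV F n).1 + (yy n k : MV F n).1 := by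
  rw [yy_succ n (k + 1), yy_succ n k]
  set x : MV F n := yy n k
  show ((1 + trW F n) * ((mU F n) x).1 + ((mU F n) x).2) = _
  rw [uEl_fst, uEl_snd]
  have h20 := two_zero n h2
  linear_combination (trW F n * x.1 + x.2) * h20

section tab
variable (n : ℕ) (c : ℕ → F) (h2 : (2 : F) = 0) (hc0 : ∀ j, n ≤ j → c j = 0)
include h2

theorem yy_zero : (yy n 0 : MV F n) = aV (TrA F n) := rfl

theorem P1 : (yy n 1 : MV F n).1 = 1 := by
  rw [yy_succ, yy_zero n h2]
  simp [aV]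

theorem P2 : (yy n 2 : MV F n).1 = trW F n := by
  rw [yy_rec h2, P1 n h2, yy_zero n h2]
  simp [aV]

theorem P3 : (yy n 3 : MV F n).1 = trW F n ^ 2 + 1 := by
  rw [yy_rec h2, P2 n h2, P1 n h2]
  ring

theorem P4 : (yy n 4 : MV F n).1 = trW F n ^ 3 := by
  rw [yy_rec h2, P3 n h2, P2 n h2]
  linear_combination (trW F n) * two_zero n h2

theorem P5 : (yy n 5 : MV F n).1 = trW F n ^ 4 + trW F n ^ 2 + 1 := by
  rw [yy_rec h2, P4 n h2, P3 n h2]
  ring

theorem P6 : (yy n 6 : MV F n).1 = trW F n ^ 5 + trW F n := by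
  rw [yy_rec h2, P5 n h2, P4 n h2]
  linear_combination (trW F n ^ 3) * two_zero n h2

theorem P7 : (yy n 7 : MV F n).1 = trW F n ^ 6 + trW F n ^ 4 + 1 := by
  rw [yy_rec h2, P6 n h2, P5 n h2]
  linear_combination (trW F n ^ 2) * two_zero n h2

include hc0

theorem A0 : mB n c (aV (TrA F n)) (yy n 0) = 0 := by
  rw [yy_zero n h2]
  exact form_isAlt _ _

theorem A1 : mB n c (aV (TrA F n)) (yy n 1) = c 0 := by
  rw [mB_a, P1 n h2, neg_eq_self h2, trL_one n c hc0]

theorem A2 : mB n c (aV (TrA F n)) (yy n 2) = c 1 := by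
  rw [mB_a, P2 n h2, neg_eq_self h2, trL_w n c hc0]

theorem A3 : mB n c (aV (TrA F n)) (yy n 3) = c 2 + c 0 := by
  rw [mB_a, P3 n h2, neg_eq_self h2, map_add, trL_one n c hc0, trL_pow F n c hc0]

theorem A4 : mB n c (aV (TrA F n)) (yy n 4) = c 3 := by
  rw [mB_a, P4 n h2, neg_eq_self h2, trL_pow F n c hc0]

theorem A5 : mB n c (aV (TrA F n)) (yy n 5) = c 4 + c 2 + c 0 := by
  rw [mB_a, P5 n h2, neg_eq_self h2, map_add, map_add, trL_one n c hc0, trL_pow F n c hc0, trL_pow F n c hc0]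

theorem A6 : mB n c (aV (TrA F n)) (yy n 6) = c 5 + c 1 := by
  rw [mB_a, P6 n h2, neg_eq_self h2, map_add, trL_w n c hc0, trL_pow F n c hc0]

theorem A7 : mB n c (aV (TrA F n)) (yy n 7) = c 6 + c 4 + c 0 := by
  rw [mB_a, P7 n h2, neg_eq_self h2, map_add, map_add, trL_one n c hc0, trL_pow F n c hc0, trL_pow F n c hc0]

end tab

theorem dec_t0 : ∀ i, i < 6 → ∀ j, j < 6 → Nat.dist (sIdx 0 i) (sIdx 0 j) ≤ 5 + 0 ∧
    (Nat.dist (sIdx 0 i) (sIdx 0 j) == 1) = adj i j := by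
  decide

theorem dec_t2 : ∀ i, i < 6 → ∀ j, j < 6 → Nat.dist (sIdx 2 i) (sIdx 2 j) ≤ 5 + 2 ∧
    (Nat.dist (sIdx 2 i) (sIdx 2 j) == 1 || Nat.dist (sIdx 2 i) (sIdx 2 j) == 3) = adj i j := by
  decide

/-- Patterns `n = 3` and `n ≥ 6`. -/
theorem top_t0 [Fintype F] (hF : ∀ c : F, c = 0 ∨ c = 1) (h2 : (2 : F) = 0) (n : ℕ) (hn : n = 3 ∨ 6 ≤ n) :
    Concl F n := by
  classical
  let c : ℕ → F := fun j => if j = 0 ∨ j = 2 ∨ j = n - 1 then 1 else 0
  have hc0 : ∀ j, n ≤ j → c j = 0 := by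
    intro j hj
    have : ¬ (j = 0 ∨ j = 2 ∨ j = n - 1) := by omega
    exact if_neg this
  have hc : c (n - 1) ≠ 0 := by simp [c]
  have c0 : c 0 = 1 := by simp [c]
  have c1 : c 1 = 0 := if_neg (by omega)
  have c2 : c 2 = 1 := by simp [c]
  have c3 : c 3 = 0 := if_neg (by omega)
  have c4 : c 4 = 0 := if_neg (by omega)
  have h11 : (1 : F) + 1 = 0 := by rw [one_add_one_eq_two, h2]
  have hn1 : 1 ≤ n := by omega
  refine finish n c hn1 hc0 hc ?_
  refine design_path hF (form_isAlt _) (mB_nondeg n c hn1 hc0 hc) h2 (mU_mem n c) (aV (TrA F n)) 0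
    (fun k => k == 1) ?_ (fun i j hi hj => dec_t0 i hi j hj) ?_ (mU_span n)
  · intro k hk
    have hk' : k ≤ 5 := by omega
    interval_cases k
    · rw [A0 n c h2 hc0]; simp
    · rw [A1 n c h2 hc0, c0]; simp
    · rw [A2 n c h2 hc0, c1]; simp
    · rw [A3 n c h2 hc0, c0, c2, h11]; simp
    · rw [A4 n c h2 hc0, c3]; simp
    · rw [A5 n c h2 hc0, c0, c2, c4, zero_add, h11]; simp
  · have := A1 n c h2 hc0
    rw [c0] at this
    have h3 : (yy n 1 : MV F n) = mU F n (aV (TrA F n)) := yy_succ n 0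
    rw [h3] at this
    rw [this]
    exact one_ne_zero

/-- Pattern `n = 5`. -/
theorem top_five [Fintype F] (hF : ∀ c : F, c = 0 ∨ c = 1) (h2 : (2 : F) = 0) : Concl F 5 := by
  classical
  let c : ℕ → F := fun j => if j = 0 ∨ j = 4 then 1 else 0
  have hc0 : ∀ j, 5 ≤ j → c j = 0 := by
    intro j hj
    have : ¬ (j = 0 ∨ j = 4) := by omega
    exact if_neg this
  have hc : c (5 - 1) ≠ 0 := by simp [c]
  have c0 : c 0 = 1 := by simp [c]
  have c1 : c 1 = 0 := if_neg (by omega)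
  have c2 : c 2 = 0 := if_neg (by omega)
  have c3 : c 3 = 0 := if_neg (by omega)
  have c4 : c 4 = 1 := by simp [c]
  have c5 : c 5 = 0 := if_neg (by omega)
  have c6 : c 6 = 0 := if_neg (by omega)
  have h11 : (1 : F) + 1 = 0 := by rw [one_add_one_eq_two, h2]
  have hn1 : 1 ≤ 5 := by omega
  refine finish 5 c hn1 hc0 hc ?_
  refine design_path hF (form_isAlt _) (mB_nondeg 5 c hn1 hc0 hc) h2 (mU_mem 5 c) (aV (TrA F 5)) 2
    (fun k => k == 1 || k == 3) ?_ (fun i j hi hj => dec_t2 i hi j hj) ?_ (mU_span 5)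
  · intro k hk
    have hk' : k ≤ 7 := by omega
    interval_cases k
    · rw [A0 5 c h2 hc0]; simp
    · rw [A1 5 c h2 hc0, c0]; simp
    · rw [A2 5 c h2 hc0, c1]; simp
    · rw [A3 5 c h2 hc0, c0, c2, zero_add]; simp
    · rw [A4 5 c h2 hc0, c3]; simp
    · rw [A5 5 c h2 hc0, c0, c2, c4, add_zero, h11]; simp
    · rw [A6 5 c h2 hc0, c1, c5, add_zero]; simp
    · rw [A7 5 c h2 hc0, c0, c4, c6, zero_add, h11]; simp
  · have := A1 5 c h2 hc0
    rw [c0] at this
    have h3 : (yy 5 1 : MV F 5) = mU F 5 (aV (TrA F 5)) := yy_succ 5 0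
    rw [h3] at this
    rw [this]
    exact one_ne_zero

/-- Pattern `n = 4`. -/
theorem top_four [Fintype F] (hF : ∀ c : F, c = 0 ∨ c = 1) (h2 : (2 : F) = 0) : Concl F 4 := by
  classical
  let c : ℕ → F := fun j => if j = 0 ∨ j = 1 ∨ j = 3 then 1 else 0
  have hc0 : ∀ j, 4 ≤ j → c j = 0 := by
    intro j hj
    have : ¬ (j = 0 ∨ j = 1 ∨ j = 3) := by omega
    exact if_neg this
  have hc : c (4 - 1) ≠ 0 := by simp [c]
  have c0 : c 0 = 1 := by simp [c]
  have c1 : c 1 = 1 := by simp [c]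
  have c2 : c 2 = 0 := if_neg (by omega)
  have c3 : c 3 = 1 := by simp [c]
  have c4 : c 4 = 0 := if_neg (by omega)
  have hn1 : 1 ≤ 4 := by omega
  refine finish 4 c hn1 hc0 hc ?_
  refine design_four hF (form_isAlt _) (mB_nondeg 4 c hn1 hc0 hc) h2 (mU_mem 4 c) (aV (TrA F 4)) ?_
    (mU_span 4)
  intro k hk1 hk
  interval_cases k
  · rw [A1 4 c h2 hc0, c0]
  · rw [A2 4 c h2 hc0, c1]
  · rw [A3 4 c h2 hc0, c0, c2, zero_add]
  · rw [A4 4 c h2 hc0, c3]
  · rw [A5 4 c h2 hc0, c0, c2, c4, add_zero, zero_add]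

theorem field_two [Fintype F] (hq : Fintype.card F = 2) : (∀ c : F, c = 0 ∨ c = 1) ∧ (2 : F) = 0 := by
  classical
  have hF : ∀ c : F, c = 0 ∨ c = 1 := by
    intro c
    by_contra hc
    push Not at hc
    have h3 : ({0, 1, c} : Finset F).card = 3 :=
      Finset.card_eq_three.2 ⟨0, 1, c, zero_ne_one, hc.1.symm, hc.2.symm, rfl⟩
    have := Finset.card_le_univ ({0, 1, c} : Finset F)
    omega
  refine ⟨hF, ?_⟩
  rcases hF (1 + 1) with h | h
  · rwa [one_add_one_eq_two] at h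
  · exfalso
    have : (1 : F) = 0 := by
      have := congrArg (fun x => x - 1) h
      simpa using this
    exact one_ne_zero this

/-- The field of two elements, `n ≥ 3`. -/
theorem top_f2 [Fintype F] (hq : Fintype.card F = 2) (n : ℕ) (hn : 3 ≤ n) : Concl F n := by
  obtain ⟨hF, h2⟩ := field_two hq
  by_cases h4 : n = 4
  · subst h4
    exact top_four hF h2
  · by_cases h5 : n = 5
    · subst h5
      exact top_five hF h2
    · exact top_t0 hF h2 n (by omega)

end model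

end Cfsg.Agent.Lib.RegUnip.SpF2Inst
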