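import Cfsg.Agent.Lib.RegUnip.Top

/-!
# Three conjugate regular unipotent generators of `SL_n(F)`, `n ≥ 4`.
-/

set_option autoImplicit false
set_option linter.unusedSectionVars false
set_option linter.unusedSimpArgs false
set_option linter.style.longLine false

namespace Cfsg.Agent.Lib.RegUnip.Three

open Matrix Matrix.SpecialLinearGroup
open Cfsg.Agent.Lib.RegUnip.Basic Cfsg.Agent.Lib.RegUnip.Roots Cfsg.Agent.Lib.RegUnip.Design
  Cfsg.Agent.Lib.RegUnip.Chain Cfsg.Agent.Lib.RegUnip.Reg Cfsg.Agent.Lib.RegUnip.Large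
  Cfsg.Agent.Lib.RegUnip.Small4 Cfsg.Agent.Lib.RegUnip.Small5 Cfsg.Agent.Lib.RegUnip.Top

variable {F : Type*} [Field F] {n : ℕ}

lemma top_of_three {m : ℕ} (hn : 4 ≤ m + 1) {H : Subgroup (SpecialLinearGroup (Fin (m + 1)) F)}
    (hu : uS ∈ H) (hv : vS ((-1) ^ m) (by omega : 3 ≤ m + 1) ∈ H) {t : F}
    (hgen : ∀ x : F, x ≠ 0 → ∃ k : ℕ, x = t ^ k)
    (hw : (SpecialLinearGroup.transvection (i := (⟨0, by omega⟩ : Fin (m + 1))) (j := ⟨1, by omega⟩)
        (by simp [Fin.ext_iff]) t) * uS *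
        (SpecialLinearGroup.transvection (i := (⟨0, by omega⟩ : Fin (m + 1))) (j := ⟨1, by omega⟩)
        (by simp [Fin.ext_iff]) t)⁻¹ ∈ H) : H = ⊤ := by
  have h1 : ∀ i j : ℕ, i < m + 1 → j < m + 1 → i ≠ j → R H i j 1 := by
    by_cases h4 : m = 3
    · subst h4
      have h5 : ((-1 : F) ^ 3) = -1 := by norm_num
      rw [h5] at hv
      exact roots_one hn hu hv (Or.inl rfl) (init4 hu hv)
    · refine roots_one hn hu hv (a₀ := ((-1 : F) ^ m) ^ 3) ?_ (init_ge5 (by omega) hu hv)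
      rcases neg_one_pow_eq_or F m with h | h <;> rw [h]
      · left; simp
      · right; norm_num
  exact top_of_roots_one_of_gen (by omega) h1 hgen (third_root (by omega) t hu hw)

/-- Three conjugate regular unipotent generators for `n ≥ 4`. -/
theorem exists_three [Fintype F] (hn : 4 ≤ n) :
    ∃ u g h : SpecialLinearGroup (Fin n) F,
      (IsNilpotent ((u : Matrix (Fin n) (Fin n) F) - 1) ∧
        ((u : Matrix (Fin n) (Fin n) F) - 1) ^ (n - 1) ≠ 0) ∧
      Subgroup.closure ({u, g * u * g⁻¹, h * u * h⁻¹} : Set (SpecialLinearGroup (Fin n) F)) = ⊤ := by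
  obtain ⟨m, rfl⟩ : ∃ m, n = m + 1 := ⟨n - 1, by omega⟩
  obtain ⟨g, hg⟩ := exists_conj (F := F) m (by omega) ((-1) ^ m) rfl
  obtain ⟨t, ht0, hgen⟩ := exists_gen (F := F)
  refine ⟨uS, g, SpecialLinearGroup.transvection (i := (⟨0, by omega⟩ : Fin (m + 1))) (j := ⟨1, by omega⟩)
        (by simp [Fin.ext_iff]) t, reg_u (by omega), ?_⟩
  rw [hg]
  exact top_of_three hn (Subgroup.subset_closure (by simp)) (Subgroup.subset_closure (by simp)) hgen
    (Subgroup.subset_closure (by simp))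

end Cfsg.Agent.Lib.RegUnip.Three
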