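import Cfsg.Agent.Lib.RegUnip.Top4
import Cfsg.Agent.Lib.RegUnip.Small4
import Cfsg.Agent.Lib.RegUnip.Small5
import Cfsg.Agent.Lib.RegUnip.Reg

/-!
# Regular unipotent generators of `SL_n(F)`, `n ≥ 4`.
-/

set_option autoImplicit false
set_option linter.unusedSectionVars false
set_option linter.unusedSimpArgs false
set_option linter.style.longLine false

namespace Cfsg.Agent.Lib.RegUnip.Top

open Matrix Matrix.SpecialLinearGroup
open Cfsg.Agent.Lib.RegUnip.Basic Cfsg.Agent.Lib.RegUnip.Roots Cfsg.Agent.Lib.RegUnip.Design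
  Cfsg.Agent.Lib.RegUnip.Chain Cfsg.Agent.Lib.RegUnip.Reg Cfsg.Agent.Lib.RegUnip.Large
  Cfsg.Agent.Lib.RegUnip.Small4 Cfsg.Agent.Lib.RegUnip.Small5 Cfsg.Agent.Lib.RegUnip.Top4

variable {F : Type*} [Field F] {n : ℕ}

lemma mem_left {G : Type*} [Group G] (a b : G) : a ∈ Subgroup.closure ({a, b} : Set G) :=
  Subgroup.subset_closure (by simp)

lemma mem_right {G : Type*} [Group G] (a b : G) : b ∈ Subgroup.closure ({a, b} : Set G) :=
  Subgroup.subset_closure (by simp)

/-- The starting element for `n ≥ 5`. -/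
lemma init_ge5 {H : Subgroup (SpecialLinearGroup (Fin n) F)} {β : F} (hn : 5 ≤ n) (hu : uS ∈ H)
    (hv : vS β (by omega : 3 ≤ n) ∈ H) : P H (eV (n - 1)) ((β ^ 3) • eV 0) := by
  by_cases h5 : n = 5
  · subst h5
    exact init5 hu hv
  · exact init_large (by omega) hu hv

/-- Generation for a generator of the multiplicative group and `n ≥ 5`. -/
theorem top_ge5 [Fintype F] (hn : 5 ≤ n) {β : F} (hβ0 : β ≠ 0)
    (hβ : ∀ x : F, x ≠ 0 → ∃ k : ℕ, x = β ^ k) :
    Subgroup.closure ({uS, vS β (by omega : 3 ≤ n)} : Set (SpecialLinearGroup (Fin n) F)) = ⊤ :=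
  top_of_gen (by omega) (mem_left _ _) (mem_right _ _) hβ0 hβ
    (init_ge5 hn (mem_left _ _) (mem_right _ _))

/-- Generation for a prime field. -/
theorem top_prime [Fintype F] (hp : (Fintype.card F).Prime) (hn : 4 ≤ n) {β : F}
    (hβ : β = (-1) ^ (n - 1)) :
    Subgroup.closure ({uS, vS β (by omega : 3 ≤ n)} : Set (SpecialLinearGroup (Fin n) F)) = ⊤ := by
  have hne : β ≠ 0 := by
    rw [hβ]
    exact pow_ne_zero _ (neg_ne_zero.mpr one_ne_zero)
  by_cases h4 : n = 4
  · subst h4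
    have h1 : β = -1 := by rw [hβ]; norm_num
    subst h1
    exact top_of_prime hp (by omega) (mem_left _ _) (mem_right _ _) one_ne_zero
      (init4 (mem_left _ _) (mem_right _ _))
  · exact top_of_prime hp (by omega) (mem_left _ _) (mem_right _ _) (pow_ne_zero 3 hne)
      (init_ge5 (by omega) (mem_left _ _) (mem_right _ _))

/-- The regularity statement for `u`. -/
lemma reg_u (hn : 0 < n) : IsNilpotent (((uS : SpecialLinearGroup (Fin n) F) : Matrix (Fin n) (Fin n) F) - 1) ∧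
    (((uS : SpecialLinearGroup (Fin n) F) : Matrix (Fin n) (Fin n) F) - 1) ^ (n - 1) ≠ 0 := by
  rw [coe_uS]
  exact u_regular hn

/-- The regularity statement for `v`. -/
lemma reg_v (hn : 3 ≤ n) {β : F} (hβ : β ≠ 0) :
    IsNilpotent (((vS β hn : SpecialLinearGroup (Fin n) F) : Matrix (Fin n) (Fin n) F) - 1) ∧
    (((vS β hn : SpecialLinearGroup (Fin n) F) : Matrix (Fin n) (Fin n) F) - 1) ^ (n - 1) ≠ 0 := by
  rw [coe_vS]
  exact v_regular β hβ hn

/-- The prime case, with conjugate generators. -/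
theorem prime_conj [Fintype F] (hp : (Fintype.card F).Prime) (hn : 4 ≤ n) :
    ∃ u g : SpecialLinearGroup (Fin n) F,
      (IsNilpotent ((u : Matrix (Fin n) (Fin n) F) - 1) ∧
        ((u : Matrix (Fin n) (Fin n) F) - 1) ^ (n - 1) ≠ 0) ∧
      Subgroup.closure ({u, g * u * g⁻¹} : Set (SpecialLinearGroup (Fin n) F)) = ⊤ := by
  obtain ⟨m, rfl⟩ : ∃ m, n = m + 1 := ⟨n - 1, by omega⟩
  obtain ⟨g, hg⟩ := exists_conj (F := F) m (by omega) ((-1) ^ m) rfl
  refine ⟨uS, g, reg_u (by omega), ?_⟩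
  rw [hg]
  exact top_prime hp hn (by simp)

/-- Two regular unipotent generators. -/
theorem exists_two [Fintype F] (hn : 4 ≤ n) :
    ∃ u v : SpecialLinearGroup (Fin n) F,
      (IsNilpotent ((u : Matrix (Fin n) (Fin n) F) - 1) ∧
        ((u : Matrix (Fin n) (Fin n) F) - 1) ^ (n - 1) ≠ 0) ∧
      (IsNilpotent ((v : Matrix (Fin n) (Fin n) F) - 1) ∧
        ((v : Matrix (Fin n) (Fin n) F) - 1) ^ (n - 1) ≠ 0) ∧
      Subgroup.closure ({u, v} : Set (SpecialLinearGroup (Fin n) F)) = ⊤ := by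
  by_cases h4 : n = 4
  · subst h4
    by_cases hq : 4 ≤ Fintype.card F
    · exact exists_gens hq
    · have hp : (Fintype.card F).Prime := by
        have h2 : 1 < Fintype.card F := Fintype.one_lt_card
        have : Fintype.card F = 2 ∨ Fintype.card F = 3 := by omega
        rcases this with h | h <;> rw [h]
        · exact Nat.prime_two
        · exact Nat.prime_three
      refine ⟨uS, vS (-1) (by omega), reg_u (by omega), reg_v _ (neg_ne_zero.mpr one_ne_zero), ?_⟩
      exact top_prime hp le_rfl (by norm_num)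
  · obtain ⟨β, hβ0, hβ⟩ := exists_gen (F := F)
    exact ⟨uS, vS β (by omega), reg_u (by omega), reg_v _ hβ0, top_ge5 (by omega) hβ0 hβ⟩

end Cfsg.Agent.Lib.RegUnip.Top
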