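import Cfsg.Agent.Lib.RegUnip.Inst4

/-!
# Two regular unipotent generators of `SL₄(F)`, `F` not of prime order.
-/

set_option autoImplicit false
set_option linter.unusedSectionVars false
set_option linter.unusedSimpArgs false
set_option linter.style.longLine false

namespace Cfsg.Agent.Lib.RegUnip.Top4

open Matrix Matrix.SpecialLinearGroup
open Cfsg.Agent.Lib.RegUnip.Roots Cfsg.Agent.Lib.RegUnip.Design4 Cfsg.Agent.Lib.RegUnip.Inst4

variable {F : Type*} [Field F]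

/-- The statement. -/
def Goal4 (F : Type*) [Field F] : Prop :=
  ∃ u v : SpecialLinearGroup (Fin 4) F,
      (IsNilpotent ((u : Matrix (Fin 4) (Fin 4) F) - 1) ∧
        ((u : Matrix (Fin 4) (Fin 4) F) - 1) ^ (4 - 1) ≠ 0) ∧
      (IsNilpotent ((v : Matrix (Fin 4) (Fin 4) F) - 1) ∧
        ((v : Matrix (Fin 4) (Fin 4) F) - 1) ^ (4 - 1) ≠ 0) ∧
      Subgroup.closure ({u, v} : Set (SpecialLinearGroup (Fin 4) F)) = ⊤

theorem case_even [Fintype F] {α : F} (h2 : (2 : F) = 0) (h0 : α ≠ 0)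
    (hgen : ∀ y : F, y ≠ 0 → ∃ k : ℕ, y = α ^ k) (hα2 : α ^ 2 ≠ 1) : Goal4 F := by
  have hm : α - 1 ≠ 0 := by
    intro h
    apply hα2
    have : α = 1 := by linear_combination h
    rw [this]; simp
  have hp : α + 1 ≠ 0 := by
    intro h
    apply hm
    linear_combination h - h2
  have h3 : α - 3 ≠ 0 := by
    intro h
    apply hp
    linear_combination h + 2 * h2
  have hDne : DE α ≠ 0 := by
    unfold DE
    exact mul_ne_zero (mul_ne_zero (mul_ne_zero (pow_ne_zero _ h0) (pow_ne_zero _ hp)) hm) h3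
  have hN : -(α ^ 3 - 3 * α ^ 2 + 2 * α + 2) = α ^ 2 * (α + 1) := by
    linear_combination (-α ^ 3 + α ^ 2 - α - 1) * h2
  have hhE : hE α = 1 := by
    unfold hE
    rw [hN]
    exact div_self (mul_ne_zero (pow_ne_zero _ h0) hp)
  have haE : aE α ≠ 0 := by
    unfold aE
    have hN2 : -α ^ 6 + 6 * α ^ 5 - 9 * α ^ 4 + 2 * α ^ 2 + 4 * α + 2 = α ^ 4 * (α + 1) ^ 2 := by
      linear_combination (-α ^ 6 + 2 * α ^ 5 - 5 * α ^ 4 + α ^ 2 + 2 * α + 1) * h2
    rw [hN2]
    refine div_ne_zero (mul_ne_zero (pow_ne_zero _ h0) (pow_ne_zero _ hp)) ?_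
    exact mul_ne_zero (mul_ne_zero (mul_ne_zero (pow_ne_zero _ h0) (pow_ne_zero _ hp)) hm) h3
  refine assemble4 (x := 1) (a := aE α) (d := dE α) (h := hE α) (D := DE α) (Z := ZE α) (Zs := ZsE α)
    (UE_mul h0 hp hm h3) hDne (ZE_sq α) (ZsE_sq α) ?_ h0 hgen hα2 ?_ ?_ ?_ (Or.inl haE)
  · rw [ZE_cube]
    refine mul_ne_zero (pow_ne_zero _ hDne) ?_
    exact mul_ne_zero (mul_ne_zero h0 (pow_ne_zero _ hm)) h3
  · unfold dE
    exact mul_ne_zero (mul_ne_zero h0 hm) h3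
  · rw [hhE]; exact one_ne_zero
  · rw [hhE]
    have : (1 : F) ^ 2 + 1 + 1 * 1 = 1 := by linear_combination h2
    rw [this]; exact one_ne_zero

theorem case_odd [Fintype F] {α : F} (h2 : (2 : F) ≠ 0) (h0 : α ≠ 0)
    (hgen : ∀ y : F, y ≠ 0 → ∃ k : ℕ, y = α ^ k) (hα2 : α ^ 2 ≠ 1) (h31 : 3 * α + 1 ≠ 0) :
    Goal4 F := by
  have hm : α - 1 ≠ 0 := by
    intro h
    apply hα2
    have : α = 1 := by linear_combination h
    rw [this]; simp
  have hp : α + 1 ≠ 0 := by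
    intro h
    apply hα2
    have : α = -1 := by linear_combination h
    rw [this]; simp
  have hDne : DO α ≠ 0 := by
    unfold DO
    exact mul_ne_zero (mul_ne_zero h2 (pow_ne_zero _ h0)) (pow_ne_zero _ hp)
  have hdO : dO α ≠ 0 := by
    unfold dO
    exact mul_ne_zero (mul_ne_zero h2 h0) (pow_ne_zero _ hm)
  have hhO : hO α ≠ 0 := by
    unfold hO
    refine div_ne_zero ?_ (mul_ne_zero (pow_ne_zero _ h0) hp)
    exact mul_ne_zero (neg_ne_zero.mpr (pow_ne_zero _ hm)) h31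
  have hsimp : (0 : F) ^ 2 + hO α + 0 * hO α = hO α := by ring
  refine assemble4 (x := 0) (a := aO α) (d := dO α) (h := hO α) (D := DO α) (Z := ZO α) (Zs := ZsO α)
    (UO_mul h0 hp h2) hDne (ZO_sq α) (ZsO_sq α) ?_ h0 hgen hα2 hdO hhO (by rw [hsimp]; exact hhO) ?_
  · rw [ZO_cube]
    refine mul_ne_zero (pow_ne_zero _ hDne) ?_
    exact mul_ne_zero (mul_ne_zero h2 h0) (pow_ne_zero _ hm)
  · by_cases ha : aO α = 0
    · right
      constructor
      · rw [show -(0 : F) ^ 2 - hO α = -hO α by ring]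
        exact neg_ne_zero.mpr hhO
      · rw [ha]; ring
    · exact Or.inl ha

lemma gen_sq_ne_one [Fintype F] {α : F} (hq : 4 ≤ Fintype.card F)
    (hgen : ∀ y : F, y ≠ 0 → ∃ k : ℕ, y = α ^ k) : α ^ 2 ≠ 1 := by
  classical
  intro h
  have h1 : (Finset.univ : Finset F) ⊆ {0, 1, α} := by
    intro y _
    by_cases hy : y = 0
    · simp [hy]
    · obtain ⟨k, hk⟩ := hgen y hy
      rcases Nat.even_or_odd' k with ⟨m, rfl | rfl⟩
      · simp [hk, pow_mul, h]
      · simp [hk, pow_succ, pow_mul, h]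
  have h2 := Finset.card_le_card h1
  have h3 : ({0, 1, α} : Finset F).card ≤ 3 := Finset.card_le_three
  rw [Finset.card_univ] at h2
  omega

lemma gen_inv {α : F} (hgen : ∀ y : F, y ≠ 0 → ∃ k : ℕ, y = α ^ k) :
    ∀ y : F, y ≠ 0 → ∃ k : ℕ, y = α⁻¹ ^ k := by
  intro y hy
  obtain ⟨k, hk⟩ := hgen y⁻¹ (inv_ne_zero hy)
  refine ⟨k, ?_⟩
  rw [inv_pow, ← hk, inv_inv]

/-- Two regular unipotent generators of `SL₄(F)` for `|F| ≥ 4`. -/
theorem exists_gens [Fintype F] (hq : 4 ≤ Fintype.card F) : Goal4 F := by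
  obtain ⟨α, h0, hgen⟩ := exists_gen (F := F)
  have hα2 := gen_sq_ne_one hq hgen
  by_cases h2 : (2 : F) = 0
  · exact case_even h2 h0 hgen hα2
  by_cases h31 : 3 * α + 1 = 0
  · have h32 : 3 * α⁻¹ + 1 ≠ 0 := by
      intro h
      have h3 : α = -3 := by
        field_simp at h
        linear_combination h
      rw [h3] at h31
      have h8 : (2 : F) ^ 3 = 0 := by linear_combination -h31
      exact h2 (pow_eq_zero_iff (by norm_num) |>.mp h8)
    have h5 : α⁻¹ ^ 2 ≠ 1 := by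
      intro h
      apply hα2
      rw [inv_pow] at h
      have := inv_eq_one.mp h
      exact this
    exact case_odd h2 (inv_ne_zero h0) (gen_inv hgen) h5 h32
  · exact case_odd h2 h0 hgen hα2 h31

end Cfsg.Agent.Lib.RegUnip.Top4
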